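-- helper73 library: piece FUS of helper16's CALL S3702 (no fusion of involutions of H in G).
import Mathlib
import Cfsg.Agent.Helper16.S4Defs2
import Cfsg.Agent.Helper16.TICore

set_option autoImplicit false

open Cfsg Cfsg.Agent.Helper16 DihedralGroup

namespace Cfsg.Agent.Helper73

/-- `9` does not divide `|C_G(φ b)|` if `b` commutes with `j' ∈ J#` and the 3-elements of
`C_SM(b) ∩ C_SM(j')` are `1, j', j'^2`. -/
theorem s4_not9 {G : Type*} [Group G] [Finite G] {φ : SM →* G} (h : S4Cfg φ)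
    (b j' : SM) (hj : sJ j') (hj1 : j' ≠ 1) (hjb : j' * b = b * j') (hj3 : j' ^ 3 = 1)
    (hy : ∀ y : SM, y * b = b * y → y * j' = j' * y → y ^ 81 = 1 →
      (y = 1 ∨ y = j' ∨ y = j' ^ 2)) :
    ¬ 9 ∣ Nat.card (Subgroup.centralizer ({φ b} : Set G)) := by
  classical
  have : Fact (Nat.Prime 3) := ⟨by norm_num⟩
  intro h9
  have hxC : φ j' ∈ Subgroup.centralizer ({φ b} : Set G) := by
    rw [Subgroup.mem_centralizer_iff]
    intro y hy
    rw [Set.mem_singleton_iff] at hy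
    rw [hy, ← map_mul, ← map_mul, hjb]
  obtain ⟨x', hx'⟩ : ∃ x' : ↥(Subgroup.centralizer ({φ b} : Set G)), (x' : G) = φ j' :=
    ⟨⟨φ j', hxC⟩, rfl⟩
  have hx'3 : x' ^ 3 = 1 := by
    apply Subtype.ext
    rw [Subgroup.coe_pow, hx', ← map_pow, hj3, map_one]
    rfl
  have hx'1 : x' ≠ 1 := by
    intro h1
    apply hj1
    have h2 : φ j' = 1 := by rw [← hx', h1]; rfl
    exact h.inj (by rw [h2, map_one])
  have hord : orderOf x' = 3 := orderOf_eq_prime hx'3 hx'1
  have hz : Nat.card (Subgroup.zpowers x') = 3 ^ 1 := by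
    rw [Nat.card_zpowers, hord]
    norm_num
  obtain ⟨K, hK, hxK⟩ := Sylow.exists_subgroup_card_pow_prime_le 3
    (show 3 ^ 2 ∣ Nat.card ↥(Subgroup.centralizer ({φ b} : Set G)) by norm_num; exact h9)
    (Subgroup.zpowers x') hz (by norm_num)
  have hcomm : ∀ a b : K, a * b = b * a := by
    have := IsPGroup.isMulCommutative_of_card_eq_prime_sq (p := 3) hK
    exact fun a b => this.is_comm.comm a b
  have hxK' : x' ∈ K := hxK (Subgroup.mem_zpowers x')
  have hmem : ∀ q ∈ K, ∃ m : SM, (m = 1 ∨ m = j' ∨ m = j' ^ 2) ∧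
      φ m = ((q : ↥(Subgroup.centralizer ({φ b} : Set G))) : G) := by
    intro q hq
    have h1 : q * x' = x' * q := by
      have := hcomm ⟨q, hq⟩ ⟨x', hxK'⟩
      exact congrArg Subtype.val this
    have h2 : (q : G) * φ j' = φ j' * (q : G) := by
      have := congrArg Subtype.val h1
      simpa [hx'] using this
    obtain ⟨m, hm⟩ := h.cent j' hj hj1 (q : G) h2
    refine ⟨m, hy m ?_ ?_ ?_, hm⟩
    · apply h.inj
      have h3 := Subgroup.mem_centralizer_iff.mp q.2 (φ b) (Set.mem_singleton _)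
      rw [map_mul, map_mul, hm, h3]
    · apply h.inj
      rw [map_mul, map_mul, hm, h2]
    · have h9'' : (q : G) ^ 9 = 1 := by
        have h9' := pow_card_eq_one' (G := K) (x := ⟨q, hq⟩)
        rw [hK] at h9'
        have := congrArg (fun z : K => ((z : ↥(Subgroup.centralizer ({φ b} : Set G))) : G)) h9'
        simpa using this
      have hm9 : m ^ 9 = 1 := by
        apply h.inj
        rw [map_pow, hm, h9'', map_one]
      have : m ^ 81 = (m ^ 9) ^ 9 := by rw [← pow_mul]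
      rw [this, hm9, one_pow]
  have h3 : Nat.card K ≤ ({1, j', j' ^ 2} : Finset SM).card := by
    have h4 : (fun q : ↥(Subgroup.centralizer ({φ b} : Set G)) => (q : G)) ''
        (K : Set ↥(Subgroup.centralizer ({φ b} : Set G))) ⊆
        ((({1, j', j' ^ 2} : Finset SM).image φ : Finset G) : Set G) := by
      rintro _ ⟨q, hq, rfl⟩
      obtain ⟨m, hm1, hm⟩ := hmem q hq
      simp only [Finset.coe_image, Set.mem_image, Finset.mem_coe, Finset.mem_insert,
        Finset.mem_singleton]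
      exact ⟨m, hm1, hm⟩
    have h5 : Nat.card K = (K : Set ↥(Subgroup.centralizer ({φ b} : Set G))).ncard :=
      (Nat.card_coe_set_eq _)
    rw [h5, ← Set.ncard_image_of_injective _ Subtype.val_injective]
    calc _ ≤ ((({1, j', j' ^ 2} : Finset SM).image φ : Finset G) : Set G).ncard :=
          Set.ncard_le_ncard h4 (Finset.finite_toSet _)
      _ = (({1, j', j' ^ 2} : Finset SM).image φ).card := Set.ncard_coe_finset _
      _ ≤ _ := Finset.card_image_le
  have h6 : ({1, j', j' ^ 2} : Finset SM).card ≤ 3 := Finset.card_le_three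
  rw [hK] at h3
  norm_num at h3
  omega

/-- PIECE FUS, with the two model facts `m_J_pow3` and `m_inv_cent` as hypotheses:
`s4_fus h hTI = s4_fus_of m_J_pow3 m_inv_cent h hTI`. -/
theorem s4_fus_of (m_J_pow3 : ∀ a : SM, sJ a → a ^ 3 = 1)
    (m_inv_cent : ∀ b : SM, b ^ 2 = 1 → b ≠ 1 → ∃ j' : SM, sJ j' ∧ j' ≠ 1 ∧ j' * b = b * j' ∧
      ∀ y : SM, y * b = b * y → y * j' = j' * y → y ^ 81 = 1 → (y = 1 ∨ y = j' ∨ y = j' ^ 2))
    {G : Type*} [Group G] {φ : SM →* G} [Finite G] (h : S4Cfg φ)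
    (hTI : TICfg φ sE) : FusFact φ := by
  have : Fact (Nat.Prime 3) := ⟨by norm_num⟩
  intro a b ha g hg
  by_cases ha1 : a = 1
  · refine ⟨1, ?_⟩
    apply h.inj
    rw [← hg, ha1]
    simp
  have hb2 : b ^ 2 = 1 := by
    apply h.inj
    rw [map_pow, ← hg, conj_pow, ← map_pow, ha, map_one]
    simp
  have hb1 : b ≠ 1 := by
    rintro rfl
    apply ha1
    apply h.inj
    rw [map_one] at hg ⊢
    have h1 : φ a = g⁻¹ * (g * φ a * g⁻¹) * g := by group
    rw [h1, hg]
    group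
  obtain ⟨j', hj', hj'1, hj'b, hy⟩ := m_inv_cent b hb2 hb1
  obtain ⟨j, hj, hj1, hja, -⟩ := m_inv_cent a ha ha1
  have hj'3 : j' ^ 3 = 1 := m_J_pow3 j' hj'
  have hj3 : j ^ 3 = 1 := m_J_pow3 j hj
  have hn9 := s4_not9 h b j' hj' hj'1 hj'b hj'3 hy
  have hxC : φ j' ∈ Subgroup.centralizer ({φ b} : Set G) := by
    rw [Subgroup.mem_centralizer_iff]
    intro y hy
    rw [Set.mem_singleton_iff] at hy
    rw [hy, ← map_mul, ← map_mul, hj'b]
  have hsC : g * φ j * g⁻¹ ∈ Subgroup.centralizer ({φ b} : Set G) := by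
    rw [Subgroup.mem_centralizer_iff]
    intro y hy
    rw [Set.mem_singleton_iff] at hy
    rw [hy, ← hg]
    have h1 : φ a * φ j = φ j * φ a := by
      rw [← map_mul, ← map_mul, hja]
    calc g * φ a * g⁻¹ * (g * φ j * g⁻¹) = g * (φ a * φ j) * g⁻¹ := by group
      _ = g * (φ j * φ a) * g⁻¹ := by rw [h1]
      _ = g * φ j * g⁻¹ * (g * φ a * g⁻¹) := by group
  obtain ⟨x', hx'⟩ : ∃ x' : ↥(Subgroup.centralizer ({φ b} : Set G)), (x' : G) = φ j' :=
    ⟨⟨φ j', hxC⟩, rfl⟩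
  obtain ⟨s', hs'⟩ : ∃ s' : ↥(Subgroup.centralizer ({φ b} : Set G)),
      (s' : G) = g * φ j * g⁻¹ := ⟨⟨_, hsC⟩, rfl⟩
  have hx'3 : x' ^ 3 = 1 := by
    apply Subtype.ext
    rw [Subgroup.coe_pow, hx', ← map_pow, hj'3, map_one]
    rfl
  have hx'1 : x' ≠ 1 := by
    intro h1
    apply hj'1
    have h2 : φ j' = 1 := by rw [← hx', h1]; rfl
    exact h.inj (by rw [h2, map_one])
  have hord : orderOf x' = 3 := orderOf_eq_prime hx'3 hx'1
  have hzc : Nat.card (Subgroup.zpowers x') = 3 := by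
    rw [Nat.card_zpowers, hord]
  have hs'3 : s' ^ 3 = 1 := by
    apply Subtype.ext
    rw [Subgroup.coe_pow, hs', conj_pow, ← map_pow, hj3, map_one]
    simp
  have hzx : IsPGroup 3 (Subgroup.zpowers x') := by
    rintro ⟨y, hy⟩
    refine ⟨1, ?_⟩
    obtain ⟨i, rfl⟩ := Subgroup.mem_zpowers_iff.mp hy
    apply Subtype.ext
    simp only [pow_one, Subgroup.coe_pow, Subgroup.coe_one]
    rw [← zpow_natCast, ← zpow_mul, mul_comm, zpow_mul, zpow_natCast, hx'3, one_zpow]
  have hzs : IsPGroup 3 (Subgroup.zpowers s') := by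
    rintro ⟨y, hy⟩
    refine ⟨1, ?_⟩
    obtain ⟨i, rfl⟩ := Subgroup.mem_zpowers_iff.mp hy
    apply Subtype.ext
    simp only [pow_one, Subgroup.coe_pow, Subgroup.coe_one]
    rw [← zpow_natCast, ← zpow_mul, mul_comm, zpow_mul, zpow_natCast, hs'3, one_zpow]
  obtain ⟨Q', hQ'⟩ := hzx.exists_le_sylow
  obtain ⟨R, hR⟩ := hzs.exists_le_sylow
  have hQcard : Nat.card (Q' : Subgroup ↥(Subgroup.centralizer ({φ b} : Set G))) = 3 := by
    obtain ⟨n, hn⟩ := IsPGroup.iff_card.mp Q'.isPGroup'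
    have h1 : Nat.card (Subgroup.zpowers x') ∣
        Nat.card (Q' : Subgroup ↥(Subgroup.centralizer ({φ b} : Set G))) :=
      Subgroup.card_dvd_of_le hQ'
    have h2 : Nat.card (Q' : Subgroup ↥(Subgroup.centralizer ({φ b} : Set G))) ∣
        Nat.card ↥(Subgroup.centralizer ({φ b} : Set G)) := Subgroup.card_subgroup_dvd_card _
    rw [hn] at h1 h2 ⊢
    rw [hzc] at h1
    have hn1 : n ≠ 0 := by
      rintro rfl
      norm_num at h1
    have hn2 : n < 2 := by
      by_contra hcon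
      replace hcon : 2 ≤ n := Nat.le_of_not_lt hcon
      apply hn9
      exact (pow_dvd_pow 3 hcon).trans h2 |> fun hh => by norm_num at hh; exact hh
    have : n = 1 := by omega
    rw [this]
    norm_num
  have hQeq : Subgroup.zpowers x' = (Q' : Subgroup ↥(Subgroup.centralizer ({φ b} : Set G))) :=
    Subgroup.eq_of_le_of_card_ge hQ' (by rw [hQcard, hzc])
  obtain ⟨c, hc⟩ := MulAction.exists_smul_eq
    ↥(Subgroup.centralizer ({φ b} : Set G)) Q' R
  have hsR : s' ∈ (R : Subgroup ↥(Subgroup.centralizer ({φ b} : Set G))) :=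
    hR (Subgroup.mem_zpowers s')
  have hcs : c⁻¹ * s' * c ∈ (Q' : Subgroup ↥(Subgroup.centralizer ({φ b} : Set G))) := by
    rw [← hc] at hsR
    rw [Sylow.coe_subgroup_smul, Subgroup.mem_pointwise_smul_iff_inv_smul_mem] at hsR
    simpa [MulAut.smul_def] using hsR
  rw [← hQeq] at hcs
  obtain ⟨i, hi⟩ := Subgroup.mem_zpowers_iff.mp hcs
  have hm' : ((c : G)⁻¹ * g) * φ j * ((c : G)⁻¹ * g)⁻¹ = φ (j' ^ i) := by
    have h1 := congrArg Subtype.val hi
    simp only [Subgroup.coe_zpow, Subgroup.coe_mul, Subgroup.coe_inv, hx', hs'] at h1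
    rw [map_zpow, h1]
    group
  have hj4 : j ^ 4 = j := by
    rw [pow_succ, hj3, one_mul]
  have hjE : sE j := Or.inl ⟨by rw [hj4]; exact hj, by rw [hj4]; exact hj1⟩
  obtain ⟨k, hk⟩ := hTI.ti j hjE ((c : G)⁻¹ * g) (by rw [hm']; exact ⟨_, rfl⟩)
  have hcτ : φ b * (c : G) = (c : G) * φ b :=
    Subgroup.mem_centralizer_iff.mp c.2 (φ b) (Set.mem_singleton _)
  have h2 : φ (k * a * k⁻¹) = φ b := by
    rw [map_mul, map_mul, map_inv, hk]
    calc (c : G)⁻¹ * g * φ a * ((c : G)⁻¹ * g)⁻¹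
        = (c : G)⁻¹ * (g * φ a * g⁻¹) * (c : G) := by group
      _ = (c : G)⁻¹ * (φ b * (c : G)) := by rw [hg, mul_assoc]
      _ = φ b := by rw [hcτ]; group
  exact ⟨k, h.inj h2⟩

end Cfsg.Agent.Helper73
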