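-- helper73 library: piece VX1 of helper16's CALL S3702 (the counts of N1(x) and NP(x)).
import Mathlib
import Cfsg.Agent.Helper16.S4Defs2
import Cfsg.Agent.Helper33.S4FIB

set_option autoImplicit false

open Cfsg Cfsg.Agent.Helper16 DihedralGroup

namespace Cfsg.Agent.Helper73

set_option maxRecDepth 1000000 in
theorem vx1_R_card3 : (Finset.univ.filter (fun m : SM => sR m ∧ m ^ 3 = 1)).card = 72 := by
  decide +kernel

set_option maxRecDepth 1000000 in
theorem vx1_P_card : (Finset.univ.filter (fun m : SM => sP m ∧ kap m ≠ 0)).card = 6 := by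
  decide +kernel

set_option maxRecDepth 1000000 in
theorem vx1_P_R : ∀ p : SM, sP p → kap p ≠ 0 → sR p ∧ p ^ 3 = 1 := by decide +kernel

set_option maxRecDepth 1000000 in
theorem vx1_R_ord3 : ∀ m : SM, sR m → m ^ 3 = 1 → ∃ s : SM, m = s * sx * s⁻¹ := by
  decide +kernel

theorem vx1_x3 : sx ^ 3 = 1 := by decide

/-- the generic count: the `t` conjugating `x` into `φ '' {m | Pm m}`, when all these `m` are
conjugates of `sx` -/
theorem vx1_count {G : Type*} [Group G] {φ : SM →* G} [Finite G] (hinj : Function.Injective φ)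
    (Pm : SM → Prop) [DecidablePred Pm] (hPm : ∀ m : SM, Pm m → ∃ s : SM, m = s * sx * s⁻¹) :
    Nat.card {t : G | ∃ m : SM, Pm m ∧ t⁻¹ * φ sx * t = φ m} =
      (Finset.univ.filter Pm).card * Nat.card (Subgroup.centralizer ({φ sx} : Set G)) := by
  classical
  have hfib := Cfsg.Agent.Helper33.s4_fib (φ sx) (φ '' {m : SM | Pm m}) (by
    rintro y ⟨m, hm, rfl⟩
    obtain ⟨s, hs⟩ := hPm m hm
    refine ⟨(φ s)⁻¹, ?_⟩
    rw [hs, map_mul, map_mul, map_inv, inv_inv])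
  have hset : {t : G | ∃ m : SM, Pm m ∧ t⁻¹ * φ sx * t = φ m} =
      {t : G | t⁻¹ * φ sx * t ∈ φ '' {m : SM | Pm m}} := by
    ext t
    constructor
    · rintro ⟨m, hm, ht⟩
      exact ⟨m, hm, ht.symm⟩
    · rintro ⟨m, hm, ht⟩
      exact ⟨m, hm, ht.symm⟩
  have hcard : Nat.card (φ '' {m : SM | Pm m}) = (Finset.univ.filter Pm).card := by
    rw [Nat.card_image_of_injective hinj, Nat.card_eq_fintype_card, Fintype.card_subtype]
    rfl
  calc Nat.card {t : G | ∃ m : SM, Pm m ∧ t⁻¹ * φ sx * t = φ m}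
      = Nat.card {t : G // t⁻¹ * φ sx * t ∈ φ '' {m : SM | Pm m}} := by
        rw [hset]
        rfl
    _ = _ := by rw [hfib, hcard]

/-- PIECE VX1 -/
theorem s4_vx1 {G : Type*} [Group G] {φ : SM →* G} {W : Subgroup G} [Finite G]
    (h : S4Cfg φ) (_hW : XData φ W) (hX : XFacts φ W) :
    Nat.card (s4N1 φ (φ sx)) = 648 * Nat.card W ∧
      Nat.card (s4NP φ (φ sx)) = 54 * Nat.card W := by
  classical
  constructor
  · have h1 : s4N1 φ (φ sx) =
        {t : G | ∃ m : SM, (sR m ∧ m ^ 3 = 1) ∧ t⁻¹ * φ sx * t = φ m} := by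
      ext t
      constructor
      · rintro ⟨m, hm, ht⟩
        refine ⟨m, ⟨hm, ?_⟩, ht⟩
        apply h.inj
        have h2 : (t⁻¹ * φ sx * t) ^ 3 = t⁻¹ * φ sx ^ 3 * t := by
          have := conj_pow (a := t⁻¹) (b := φ sx) (i := 3)
          rwa [inv_inv] at this
        rw [map_pow, ← ht, h2, ← map_pow, vx1_x3, map_one]
        group
      · rintro ⟨m, ⟨hm, -⟩, ht⟩
        exact ⟨m, hm, ht⟩
    rw [h1, vx1_count h.inj (fun m : SM => sR m ∧ m ^ 3 = 1)
      (fun m hm => vx1_R_ord3 m hm.1 hm.2), vx1_R_card3, hX.card]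
    ring
  · have h1 : s4NP φ (φ sx) =
        {t : G | ∃ m : SM, (sP m ∧ kap m ≠ 0) ∧ t⁻¹ * φ sx * t = φ m} := by
      ext t
      constructor
      · rintro ⟨m, hm, hk, ht⟩
        exact ⟨m, ⟨hm, hk⟩, ht⟩
      · rintro ⟨m, ⟨hm, hk⟩, ht⟩
        exact ⟨m, hm, hk, ht⟩
    rw [h1, vx1_count h.inj (fun m : SM => sP m ∧ kap m ≠ 0)
      (fun m hm => vx1_R_ord3 m (vx1_P_R m hm.1 hm.2).1 (vx1_P_R m hm.1 hm.2).2), vx1_P_card,
      hX.card]
    ring

end Cfsg.Agent.Helper73
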