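import Mathlib

set_option autoImplicit false

namespace Cfsg.Agent.Helper73
open scoped commutatorElement

/-- a strict inclusion of finite subgroups at least doubles the order -/
theorem jr_abel_double {L : Type*} [Group L] [Finite L] (A B : Subgroup L) (hAB : A ≤ B)
    (g : L) (hgB : g ∈ B) (hgA : g ∉ A) : 2 * Nat.card A ≤ Nat.card B := by
  obtain ⟨k, hk⟩ := Subgroup.card_dvd_of_le hAB
  have hA : 0 < Nat.card A := Nat.card_pos
  have hB : 0 < Nat.card B := Nat.card_pos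
  rcases k with _ | _ | k
  · rw [hk] at hB
    simp at hB
  · exfalso
    apply hgA
    have h1 : A = B := Subgroup.eq_of_le_of_card_ge hAB (by rw [hk]; simp)
    rw [h1]
    exact hgB
  · rw [hk]
    nlinarith

/-- ABEL (the preimage of the Sylow 2-subgroup in a central extension is abelian). -/
theorem jr_cover_sylow_abelian {L : Type*} [Group L] [Finite L] (Z T X : Subgroup L)
    (hZ : Z ≤ Subgroup.center L) (hZT : Z ≤ T) (hX : X ≤ Subgroup.normalizer (T : Set L))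
    (h8 : Nat.card T = 8 * Nat.card Z) (hexp : ∀ a ∈ T, a * a ∈ Z)
    (htr : ∀ a ∈ T, a ∉ Z → ∀ b ∈ T, b ∉ Z → ∃ x ∈ X, ∃ z ∈ Z, x * a * x⁻¹ = b * z) :
    ∀ a ∈ T, ∀ b ∈ T, a * b = b * a := by
  classical
  by_contra hne
  push Not at hne
  obtain ⟨a₀, ha₀, b₀, hb₀, hab₀⟩ := hne
  have hZpos : 0 < Nat.card Z := Nat.card_pos
  have hcen : ∀ z ∈ Z, ∀ g : L, g * z = z * g :=
    fun z hz g => (Subgroup.mem_center_iff.mp (hZ hz)) g
  have hcZ : ∀ a ∈ T, ∀ b ∈ T, ⁅a, b⁆ ∈ Z := by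
    intro a ha b hb
    have h1 : (a * a)⁻¹ ∈ Z := Z.inv_mem (hexp a ha)
    have h2 : (b * b)⁻¹ ∈ Z := Z.inv_mem (hexp b hb)
    have h3 : a * b * (a * b) ∈ Z := hexp (a * b) (T.mul_mem ha hb)
    have h4 : ⁅a, b⁆ = a * b * (a * b) * (a * a)⁻¹ * (b * b)⁻¹ := by
      rw [commutatorElement_def]
      calc a * b * a⁻¹ * b⁻¹ = a * b * a * ((a * a)⁻¹ * b) * (b * b)⁻¹ := by group
        _ = a * b * a * (b * (a * a)⁻¹) * (b * b)⁻¹ := by rw [hcen _ h1 b]
        _ = a * b * (a * b) * (a * a)⁻¹ * (b * b)⁻¹ := by group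
    rw [h4]
    exact Z.mul_mem (Z.mul_mem h3 h1) h2
  have hmulR : ∀ a ∈ T, ∀ b : L, ∀ b' ∈ T, ⁅a, b * b'⁆ = ⁅a, b⁆ * ⁅a, b'⁆ := by
    intro a ha b b' hb'
    have h1 : ⁅a, b * b'⁆ = ⁅a, b⁆ * (b * ⁅a, b'⁆ * b⁻¹) := by
      simp only [commutatorElement_def]
      group
    rw [h1, hcen _ (hcZ a ha b' hb') b, mul_inv_cancel_right]
  have hcz : ∀ a : L, ∀ z ∈ Z, ⁅a, z⁆ = 1 := by
    intro a z hz
    rw [commutatorElement_eq_one_iff_mul_comm]
    exact hcen z hz a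
  have hsq : ∀ a ∈ T, ∀ b ∈ T, ⁅a, b⁆ * ⁅a, b⁆ = 1 := by
    intro a ha b hb
    rw [← hmulR a ha b b hb]
    exact hcz a _ (hexp b hb)
  have hsymm : ∀ a b : L, ⁅b, a⁆ = ⁅a, b⁆⁻¹ := fun a b => (commutatorElement_inv a b).symm
  obtain ⟨z₀, hz₀def⟩ : ∃ z₀ : L, z₀ = ⁅a₀, b₀⁆ := ⟨_, rfl⟩
  have hz₀1 : z₀ ≠ 1 := by
    rw [hz₀def]
    intro h
    exact hab₀ (commutatorElement_eq_one_iff_mul_comm.mp h)
  have hz₀Z : z₀ ∈ Z := by
    rw [hz₀def]
    exact hcZ a₀ ha₀ b₀ hb₀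
  have hz₀sq : z₀ * z₀ = 1 := by
    rw [hz₀def]
    exact hsq a₀ ha₀ b₀ hb₀
  obtain ⟨H, -, hHmax⟩ := Finite.exists_le_maximal
    (p := fun H : Subgroup L => H ≤ Z ∧ z₀ ∉ H) (a := ⊥)
    ⟨bot_le, fun h => hz₀1 (Subgroup.mem_bot.mp h)⟩
  have hHZ : H ≤ Z := hHmax.prop.1
  have hz₀H : z₀ ∉ H := hHmax.prop.2
  have hH2 : ∀ w ∈ Z, w * w = 1 → w ∉ H → w * z₀ ∈ H := by
    intro w hw hw2 hwH
    by_contra hcon
    have hwc := hcen w hw
    have hw' : w⁻¹ = w := inv_eq_of_mul_eq_one_right hw2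
    let H' : Subgroup L :=
      { carrier := {x | x ∈ H ∨ x * w ∈ H}
        mul_mem' := by
          rintro x y (hx | hx) (hy | hy)
          · exact Or.inl (H.mul_mem hx hy)
          · right
            have h1 : x * y * w = x * (y * w) := by group
            show x * y * w ∈ H
            rw [h1]
            exact H.mul_mem hx hy
          · right
            have h1 : x * y * w = (x * w) * y := by
              calc x * y * w = x * (y * w) := by group
                _ = x * (w * y) := by rw [hwc y]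
                _ = (x * w) * y := by group
            show x * y * w ∈ H
            rw [h1]
            exact H.mul_mem hx hy
          · left
            have h1 : x * y = (x * w) * (y * w) := by
              calc x * y = x * y * (w * w) := by rw [hw2, mul_one]
                _ = x * (y * w) * w := by group
                _ = x * (w * y) * w := by rw [hwc y]
                _ = (x * w) * (y * w) := by group
            show x * y ∈ H
            rw [h1]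
            exact H.mul_mem hx hy
        one_mem' := Or.inl H.one_mem
        inv_mem' := by
          rintro x (hx | hx)
          · exact Or.inl (H.inv_mem hx)
          · right
            have h1 : x⁻¹ * w = (x * w)⁻¹ := by
              calc x⁻¹ * w = w * x⁻¹ := hwc x⁻¹
                _ = w⁻¹ * x⁻¹ := by rw [hw']
                _ = (x * w)⁻¹ := by group
            show x⁻¹ * w ∈ H
            rw [h1]
            exact H.inv_mem hx }
    have hle : H ≤ H' := fun x hx => Or.inl hx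
    have hP : H' ≤ Z ∧ z₀ ∉ H' := by
      constructor
      · rintro x (hx | hx)
        · exact hHZ hx
        · have h1 : x = (x * w) * w⁻¹ := by group
          rw [h1]
          exact Z.mul_mem (hHZ hx) (Z.inv_mem hw)
      · rintro (h | h)
        · exact hz₀H h
        · apply hcon
          rw [← hwc z₀]
          exact h
    have hH'H : H' ≤ H := hHmax.le_of_ge hP hle
    exact hwH (hH'H (Or.inr (by rw [hw2]; exact H.one_mem)))
  have hP1 : ∀ a ∈ T, ∀ t : L, ∀ t' ∈ T, ⁅a, t⁆ ∈ H → ⁅a, t'⁆ ∈ H → ⁅a, t * t'⁆ ∈ H := by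
    intro a ha t t' ht' h1 h2
    rw [hmulR a ha t t' ht']
    exact H.mul_mem h1 h2
  have hP2 : ∀ a ∈ T, ∀ t ∈ T, ∀ t' ∈ T, ⁅a, t⁆ ∉ H → ⁅a, t'⁆ ∉ H → ⁅a, t * t'⁆ ∈ H := by
    intro a ha t ht t' ht' h1 h2
    have h3 := hH2 _ (hcZ a ha t ht) (hsq a ha t ht) h1
    have h4 := hH2 _ (hcZ a ha t' ht') (hsq a ha t' ht') h2
    rw [hmulR a ha t t' ht']
    have h5 : ⁅a, t⁆ * ⁅a, t'⁆ = (⁅a, t⁆ * z₀) * (⁅a, t'⁆ * z₀) := by
      calc ⁅a, t⁆ * ⁅a, t'⁆ = ⁅a, t⁆ * ⁅a, t'⁆ * (z₀ * z₀) := by rw [hz₀sq, mul_one]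
        _ = ⁅a, t⁆ * (⁅a, t'⁆ * z₀) * z₀ := by group
        _ = ⁅a, t⁆ * (z₀ * ⁅a, t'⁆) * z₀ := by rw [hcen z₀ hz₀Z ⁅a, t'⁆]
        _ = (⁅a, t⁆ * z₀) * (⁅a, t'⁆ * z₀) := by group
    rw [h5]
    exact H.mul_mem h3 h4
  have hP3 : ∀ a ∈ T, ∀ t : L, ∀ t' ∈ T, ⁅a, t⁆ ∈ H → ⁅a, t'⁆ ∉ H → ⁅a, t * t'⁆ ∉ H := by
    intro a ha t t' ht' h1 h2 h3
    apply h2
    rw [hmulR a ha t t' ht'] at h3
    have h4 : ⁅a, t'⁆ = ⁅a, t⁆⁻¹ * (⁅a, t⁆ * ⁅a, t'⁆) := by group
    rw [h4]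
    exact H.mul_mem (H.inv_mem h1) h3
  have hPs : ∀ a t : L, ⁅a, t⁆ ∈ H → ⁅t, a⁆ ∈ H := by
    intro a t h
    rw [hsymm a t]
    exact H.inv_mem h
  have hPaa : ∀ a : L, ⁅a, a⁆ ∈ H := fun a => by
    rw [commutatorElement_self]
    exact H.one_mem
  have hKex : ∀ (P : L → Prop), (∀ a, P a → a ∈ T) →
      ∃ K : Subgroup L, ∀ t, t ∈ K ↔ (t ∈ T ∧ ∀ a, P a → ⁅a, t⁆ ∈ H) := by
    intro P hPT
    refine ⟨{ carrier := {t | t ∈ T ∧ ∀ a, P a → ⁅a, t⁆ ∈ H}
              mul_mem' := ?_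
              one_mem' := ?_
              inv_mem' := ?_ }, fun t => Iff.rfl⟩
    · rintro t t' ⟨ht, h1⟩ ⟨ht', h2⟩
      exact ⟨T.mul_mem ht ht', fun a ha => hP1 a (hPT a ha) t t' ht' (h1 a ha) (h2 a ha)⟩
    · exact ⟨T.one_mem, fun a _ => by rw [commutatorElement_one_right]; exact H.one_mem⟩
    · rintro t ⟨ht, h1⟩
      refine ⟨T.inv_mem ht, fun a ha => ?_⟩
      have h2 : ⁅a, t * t⁻¹⁆ = ⁅a, t⁆ * ⁅a, t⁻¹⁆ := hmulR a (hPT a ha) t t⁻¹ (T.inv_mem ht)
      rw [mul_inv_cancel, commutatorElement_one_right] at h2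
      have h3 : ⁅a, t⁻¹⁆ = ⁅a, t⁆⁻¹ := (inv_eq_of_mul_eq_one_right h2.symm).symm
      rw [h3]
      exact H.inv_mem (h1 a ha)
  have hA : ∃ w ∈ T, w ∉ Z ∧ ∀ t ∈ T, ⁅w, t⁆ ∈ H := by
    by_contra hcon
    push Not at hcon
    have ha_ex : ∃ a ∈ T, a ∉ Z := by
      by_contra h
      push Not at h
      have h0 : T ≤ Z := fun a ha => h a ha
      have h1 := Subgroup.card_le_of_le h0
      omega
    obtain ⟨a, haT, haZ⟩ := ha_ex
    obtain ⟨b, hbT, hab⟩ := hcon a haT haZ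
    have hba : ⁅b, a⁆ ∉ H := fun h => hab (hPs b a h)
    obtain ⟨D, hD⟩ := hKex (fun c => c = a ∨ c = b) (by
      rintro c (hc | hc) <;> rw [hc]
      · exact haT
      · exact hbT)
    have hDmem : ∀ t, t ∈ D ↔ t ∈ T ∧ ⁅a, t⁆ ∈ H ∧ ⁅b, t⁆ ∈ H := by
      intro t
      rw [hD]
      constructor
      · rintro ⟨ht, h⟩
        exact ⟨ht, h a (Or.inl rfl), h b (Or.inr rfl)⟩
      · rintro ⟨ht, h1, h2⟩
        refine ⟨ht, ?_⟩
        rintro c (hc | hc) <;> rw [hc]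
        · exact h1
        · exact h2
    have hcov : ∀ t ∈ T, t ∈ D ∨ a * t ∈ D ∨ b * t ∈ D ∨ a * (b * t) ∈ D := by
      intro t ht
      by_cases h1 : ⁅a, t⁆ ∈ H <;> by_cases h2 : ⁅b, t⁆ ∈ H
      · left
        exact (hDmem t).mpr ⟨ht, h1, h2⟩
      · right; left
        exact (hDmem _).mpr ⟨T.mul_mem haT ht, hP1 a haT a t ht (hPaa a) h1,
          hP2 b hbT a haT t ht hba h2⟩
      · right; right; left
        exact (hDmem _).mpr ⟨T.mul_mem hbT ht, hP2 a haT b hbT t ht hab h1,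
          hP1 b hbT b t ht (hPaa b) h2⟩
      · right; right; right
        have hbt : b * t ∈ T := T.mul_mem hbT ht
        refine (hDmem _).mpr ⟨T.mul_mem haT hbt, ?_, ?_⟩
        · exact hP1 a haT a (b * t) hbt (hPaa a) (hP2 a haT b hbT t ht hab h1)
        · exact hP2 b hbT a haT (b * t) hbt hba (hP3 b hbT b t ht (hPaa b) h2)
    have hcard : Nat.card T ≤ 4 * Nat.card D := by
      have hsub : (T : Set L) ⊆ (D : Set L) ∪ (fun d => a⁻¹ * d) '' (D : Set L) ∪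
          (fun d => b⁻¹ * d) '' (D : Set L) ∪ (fun d => (a * b)⁻¹ * d) '' (D : Set L) := by
        intro t ht
        rcases hcov t ht with h | h | h | h
        · exact Or.inl (Or.inl (Or.inl h))
        · exact Or.inl (Or.inl (Or.inr ⟨a * t, h, by group⟩))
        · exact Or.inl (Or.inr ⟨b * t, h, by group⟩)
        · exact Or.inr ⟨a * (b * t), h, by group⟩
      have h1 := Set.ncard_le_ncard hsub (Set.toFinite _)
      have h2 := Set.ncard_union_le ((D : Set L) ∪ (fun d => a⁻¹ * d) '' (D : Set L) ∪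
          (fun d => b⁻¹ * d) '' (D : Set L)) ((fun d => (a * b)⁻¹ * d) '' (D : Set L))
      have h3 := Set.ncard_union_le ((D : Set L) ∪ (fun d => a⁻¹ * d) '' (D : Set L))
          ((fun d => b⁻¹ * d) '' (D : Set L))
      have h4 := Set.ncard_union_le (D : Set L) ((fun d => a⁻¹ * d) '' (D : Set L))
      have h5 := Set.ncard_image_le (f := fun d => a⁻¹ * d) (Set.toFinite (D : Set L))
      have h6 := Set.ncard_image_le (f := fun d => b⁻¹ * d) (Set.toFinite (D : Set L))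
      have h7 := Set.ncard_image_le (f := fun d => (a * b)⁻¹ * d) (Set.toFinite (D : Set L))
      have h8' : Nat.card T = (T : Set L).ncard := Nat.card_coe_set_eq _
      have h9 : Nat.card D = (D : Set L).ncard := Nat.card_coe_set_eq _
      omega
    have hw_ex : ∃ w ∈ D, w ∉ Z := by
      by_contra h
      push Not at h
      have h0 : D ≤ Z := fun d hd => h d hd
      have h1 := Subgroup.card_le_of_le h0
      omega
    obtain ⟨w, hwD, hwZ⟩ := hw_ex
    obtain ⟨hwT, hwa, hwb⟩ := (hDmem w).mp hwD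
    obtain ⟨t, htT, hwt⟩ := hcon w hwT hwZ
    obtain ⟨D3, hD3⟩ := hKex (fun c => c = a ∨ c = b ∨ c = w) (by
      rintro c (hc | hc | hc) <;> rw [hc]
      · exact haT
      · exact hbT
      · exact hwT)
    obtain ⟨E, hE⟩ := hKex (fun c => c = a ∨ c = w) (by
      rintro c (hc | hc) <;> rw [hc]
      · exact haT
      · exact hwT)
    obtain ⟨Kw, hKw⟩ := hKex (fun c => c = w) (by
      rintro c hc
      rw [hc]
      exact hwT)
    have hZD3 : Z ≤ D3 := by
      intro z hz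
      rw [hD3]
      exact ⟨hZT hz, fun c _ => by rw [hcz c z hz]; exact H.one_mem⟩
    have hwD3 : w ∈ D3 := by
      rw [hD3]
      refine ⟨hwT, ?_⟩
      rintro c (hc | hc | hc) <;> rw [hc]
      · exact hwa
      · exact hwb
      · exact hPaa _
    have hD3E : D3 ≤ E := by
      intro x hx
      rw [hD3] at hx
      rw [hE]
      refine ⟨hx.1, fun c hc => hx.2 c ?_⟩
      rcases hc with hc | hc
      · exact Or.inl hc
      · exact Or.inr (Or.inr hc)
    have haE : a ∈ E := by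
      rw [hE]
      refine ⟨haT, ?_⟩
      rintro c (hc | hc) <;> rw [hc]
      · exact hPaa _
      · exact hPs _ _ hwa
    have haD3 : a ∉ D3 := by
      intro h
      rw [hD3] at h
      exact hba (h.2 b (Or.inr (Or.inl rfl)))
    have hEK : E ≤ Kw := by
      intro x hx
      rw [hE] at hx
      rw [hKw]
      exact ⟨hx.1, fun c hc => hx.2 c (Or.inr hc)⟩
    have hbK : b ∈ Kw := by
      rw [hKw]
      refine ⟨hbT, ?_⟩
      rintro c hc
      rw [hc]
      exact hPs _ _ hwb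
    have hbE : b ∉ E := by
      intro h
      rw [hE] at h
      exact hab (h.2 a (Or.inl rfl))
    have hKT : Kw ≤ T := fun x hx => ((hKw x).mp hx).1
    have htK : t ∉ Kw := by
      intro h
      rw [hKw] at h
      exact hwt (h.2 w rfl)
    have c1 := jr_abel_double Z D3 hZD3 w hwD3 hwZ
    have c2 := jr_abel_double D3 E hD3E a haE haD3
    have c3 := jr_abel_double E Kw hEK b hbK hbE
    have c4 := jr_abel_double Kw T hKT t htT htK
    omega
  obtain ⟨w, hwT, hwZ, hw⟩ := hA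
  have hB : ∀ b ∈ T, b ∉ Z → ∀ t ∈ T, ⁅b, t⁆ ∈ H := by
    intro b hbT hbZ t htT
    obtain ⟨x, hxX, z, hzZ, hxz⟩ := htr w hwT hwZ b hbT hbZ
    have hxN := hX hxX
    have ht' : x⁻¹ * t * x ∈ T := (Subgroup.mem_set_normalizer_iff''.mp hxN t).mp htT
    have h1 : ⁅b, t⁆ = ⁅b * z, t⁆ := by
      simp only [commutatorElement_def]
      calc b * t * b⁻¹ * t⁻¹ = b * (t * z) * z⁻¹ * b⁻¹ * t⁻¹ := by group
        _ = b * (z * t) * z⁻¹ * b⁻¹ * t⁻¹ := by rw [hcen z hzZ t]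
        _ = b * z * t * (b * z)⁻¹ * t⁻¹ := by group
    have h2 : ⁅x * w * x⁻¹, t⁆ = x * ⁅w, x⁻¹ * t * x⁆ * x⁻¹ := by
      simp only [commutatorElement_def]
      group
    have h3 : x * ⁅w, x⁻¹ * t * x⁆ = ⁅w, x⁻¹ * t * x⁆ * x := hcen _ (hcZ w hwT _ ht') x
    rw [h1, ← hxz, h2, h3, mul_inv_cancel_right]
    exact hw _ ht'
  have ha₀Z : a₀ ∉ Z := by
    intro h
    apply hab₀
    exact (hcen a₀ h b₀).symm
  apply hz₀H
  rw [hz₀def]
  exact hB a₀ ha₀ ha₀Z b₀ hb₀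

end Cfsg.Agent.Helper73
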