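import Mathlib

set_option autoImplicit false

namespace Cfsg.Agent.Helper73

/-- ORB (orbit counting on the 7 involutions). -/
theorem jr_normalizer_transitive {G : Type*} [Group G] [Finite G] (S : Sylow 2 G)
    (hS : ∀ a ∈ (S : Subgroup G), ∀ b ∈ (S : Subgroup G), a * b = b * a)
    (h8 : Nat.card (S : Subgroup G) = 8)
    (hfix : ∀ s ∈ (S : Subgroup G),
      (∀ n ∈ Subgroup.normalizer ((S : Subgroup G) : Set G), n * s = s * n) → s = 1) :
    ∀ a ∈ (S : Subgroup G), a ≠ 1 → ∀ b ∈ (S : Subgroup G), b ≠ 1 →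
      ∃ n ∈ Subgroup.normalizer ((S : Subgroup G) : Set G), n * a * n⁻¹ = b := by
  classical
  obtain ⟨N, hN⟩ : ∃ N : Subgroup G, N = Subgroup.normalizer ((S : Subgroup G) : Set G) :=
    ⟨_, rfl⟩
  rw [← hN] at hfix ⊢
  have hSN : (S : Subgroup G) ≤ N := by
    rw [hN]
    exact Subgroup.le_normalizer
  let _ : MulAction ↥N G := MulAction.compHom G ((MulAut.conj : G →* MulAut G).comp N.subtype)
  have hsmul : ∀ (n : ↥N) (x : G), n • x = (n : G) * x * (n : G)⁻¹ := fun n x => rfl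
  have horb : ∀ x y : G, y ∈ MulAction.orbit ↥N x ↔ ∃ n ∈ N, n * x * n⁻¹ = y := by
    intro x y
    constructor
    · rintro ⟨n, hn⟩
      exact ⟨n, n.2, hn⟩
    · rintro ⟨n, hn, h⟩
      exact ⟨⟨n, hn⟩, h⟩
  obtain ⟨T, hT⟩ : ∃ T : Set G, T = ((S : Subgroup G) : Set G) \ {1} := ⟨_, rfl⟩
  have hTcard : T.ncard = 7 := by
    rw [hT, Set.ncard_sdiff_singleton_of_mem (Subgroup.one_mem _)]
    have h1 : ((S : Subgroup G) : Set G).ncard = 8 := by
      rw [← Nat.card_coe_set_eq]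
      exact h8
    rw [h1]
  have hTmem : ∀ x, x ∈ T ↔ x ∈ (S : Subgroup G) ∧ x ≠ 1 := by
    intro x
    rw [hT, Set.mem_sdiff, Set.mem_singleton_iff]
    rfl
  have hsub : ∀ x ∈ T, MulAction.orbit ↥N x ⊆ T := by
    intro x hx y hy
    obtain ⟨n, hn, rfl⟩ := (horb x y).mp hy
    rw [hTmem] at hx ⊢
    refine ⟨?_, ?_⟩
    · rw [hN] at hn
      exact (Subgroup.mem_set_normalizer_iff.mp hn x).mp hx.1
    · intro h
      apply hx.2
      have h1 : x = n⁻¹ * (n * x * n⁻¹) * n := by group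
      rw [h1, h]
      group
  have hodd : ∀ x ∈ T, Odd (MulAction.orbit ↥N x).ncard := by
    intro x hx
    rw [hTmem] at hx
    have h1 : (S : Subgroup G).subgroupOf N ≤ MulAction.stabilizer ↥N x := by
      intro n hn
      rw [Subgroup.mem_subgroupOf] at hn
      rw [MulAction.mem_stabilizer_iff, hsmul]
      rw [hS _ hn _ hx.1, mul_inv_cancel_right]
    have h2 : (MulAction.stabilizer ↥N x).index ∣ ((S : Subgroup G).subgroupOf N).index :=
      Subgroup.index_dvd_of_le h1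
    rw [MulAction.index_stabilizer] at h2
    have h3 : ((S : Subgroup G).subgroupOf N).index ∣ (S : Subgroup G).index :=
      Subgroup.relIndex_dvd_index_of_le hSN
    have h4 : ¬ 2 ∣ (S : Subgroup G).index := S.not_dvd_index
    rw [← Nat.not_even_iff_odd, even_iff_two_dvd]
    intro h5
    exact h4 (dvd_trans h5 (dvd_trans h2 h3))
  have hne1 : ∀ x ∈ T, (MulAction.orbit ↥N x).ncard ≠ 1 := by
    intro x hx h1
    rw [Set.ncard_eq_one] at h1
    obtain ⟨y, hy⟩ := h1
    have hxy : x = y := by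
      have h2 : x ∈ MulAction.orbit ↥N x := MulAction.mem_orbit_self x
      rw [hy] at h2
      exact h2
    rw [hTmem] at hx
    apply hx.2
    apply hfix x hx.1
    intro n hn
    have h2 : n * x * n⁻¹ ∈ MulAction.orbit ↥N x := (horb x _).mpr ⟨n, hn, rfl⟩
    rw [hy, Set.mem_singleton_iff, ← hxy] at h2
    calc n * x = n * x * n⁻¹ * n := by group
      _ = x * n := by rw [h2]
  have hge3 : ∀ x ∈ T, 3 ≤ (MulAction.orbit ↥N x).ncard := by
    intro x hx
    have h1 := hodd x hx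
    have h2 := hne1 x hx
    obtain ⟨k, hk⟩ := h1
    omega
  have hdisj : ∀ x y : G, y ∉ MulAction.orbit ↥N x →
      Disjoint (MulAction.orbit ↥N x) (MulAction.orbit ↥N y) := by
    intro x y hy
    rw [Set.disjoint_left]
    intro w hwx hwy
    apply hy
    have h1 : MulAction.orbit ↥N w = MulAction.orbit ↥N x := MulAction.orbit_eq_iff.mpr hwx
    have h2 : MulAction.orbit ↥N w = MulAction.orbit ↥N y := MulAction.orbit_eq_iff.mpr hwy
    rw [← h1, h2]
    exact MulAction.mem_orbit_self y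
  intro a ha ha1 b hb hb1
  have haT : a ∈ T := (hTmem a).mpr ⟨ha, ha1⟩
  have hbT : b ∈ T := (hTmem b).mpr ⟨hb, hb1⟩
  by_contra hcon
  have hbA : b ∉ MulAction.orbit ↥N a := fun h => hcon ((horb a b).mp h)
  have hAB := hdisj a b hbA
  have hABsub : MulAction.orbit ↥N a ∪ MulAction.orbit ↥N b ⊆ T :=
    Set.union_subset (hsub a haT) (hsub b hbT)
  have hABcard : (MulAction.orbit ↥N a ∪ MulAction.orbit ↥N b).ncard =
      (MulAction.orbit ↥N a).ncard + (MulAction.orbit ↥N b).ncard :=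
    Set.ncard_union_eq hAB (Set.toFinite _) (Set.toFinite _)
  have hle := Set.ncard_le_ncard hABsub (Set.toFinite T)
  have hA3 := hge3 a haT
  have hB3 := hge3 b hbT
  obtain ⟨ka, hka⟩ := hodd a haT
  obtain ⟨kb, hkb⟩ := hodd b hbT
  have hlt : (MulAction.orbit ↥N a ∪ MulAction.orbit ↥N b).ncard < T.ncard := by omega
  obtain ⟨c, hcT, hcAB⟩ := Set.exists_mem_notMem_of_ncard_lt_ncard hlt (Set.toFinite _)
  have hcA : c ∉ MulAction.orbit ↥N a := fun h => hcAB (Or.inl h)
  have hcB : c ∉ MulAction.orbit ↥N b := fun h => hcAB (Or.inr h)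
  have hC3 := hge3 c hcT
  have hdis2 : Disjoint (MulAction.orbit ↥N a ∪ MulAction.orbit ↥N b)
      (MulAction.orbit ↥N c) := by
    rw [Set.disjoint_union_left]
    exact ⟨hdisj a c hcA, hdisj b c hcB⟩
  have hcard3 := Set.ncard_union_eq hdis2 (Set.toFinite _) (Set.toFinite _)
  have hsub3 : MulAction.orbit ↥N a ∪ MulAction.orbit ↥N b ∪ MulAction.orbit ↥N c ⊆ T :=
    Set.union_subset hABsub (hsub c hcT)
  have hle3 := Set.ncard_le_ncard hsub3 (Set.toFinite T)
  omega

end Cfsg.Agent.Helper73
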