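import Mathlib

set_option autoImplicit false

namespace Cfsg.Agent.Helper73

open scoped IsMulCommutative in
/-- TRF (transfer). -/
theorem jr_transfer_fixed {G : Type*} [Group G] [Finite G] (hperf : commutator G = ⊤)
    (p : ℕ) [Fact p.Prime] (S : Sylow p G)
    (hS : ∀ a ∈ (S : Subgroup G), ∀ b ∈ (S : Subgroup G), a * b = b * a)
    (s : G) (hs : s ∈ (S : Subgroup G))
    (hcen : ∀ n ∈ Subgroup.normalizer ((S : Subgroup G) : Set G), n * s = s * n) : s = 1 := by
  classical
  have : IsMulCommutative (S : Subgroup G) := ⟨⟨fun a b => Subtype.ext (hS a a.2 b b.2)⟩⟩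
  have key : ∀ (k : ℕ) (g₀ : G), g₀⁻¹ * s ^ k * g₀ ∈ (S : Subgroup G) →
      g₀⁻¹ * s ^ k * g₀ = s ^ k := by
    intro k g₀ h
    obtain ⟨n, hn, h1⟩ := S.conj_eq_normalizer_conj_of_mem (s ^ k) g₀ (pow_mem hs k) h
    rw [h1]
    have h2 : n * s ^ k = s ^ k * n := by
      have h3 : Commute n s := hcen n hn
      exact (h3.pow_right k)
    rw [mul_assoc, ← h2, inv_mul_cancel_left]
  have htr := MonoidHom.transfer_eq_pow (MonoidHom.id (S : Subgroup G)) s key
  have htriv : ∀ g : G, MonoidHom.transfer (MonoidHom.id (S : Subgroup G)) g = 1 := by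
    intro g
    have hg : g ∈ commutator G := by
      rw [hperf]
      trivial
    have hle : commutator G ≤ (MonoidHom.transfer (MonoidHom.id (S : Subgroup G))).ker := by
      rw [commutator_def, Subgroup.commutator_le]
      intro g₁ _ g₂ _
      rw [MonoidHom.mem_ker, map_commutatorElement, commutatorElement_eq_one_iff_commute]
      exact Subtype.ext (hS _ (Subtype.prop _) _ (Subtype.prop _))
    exact MonoidHom.mem_ker.mp (hle hg)
  rw [htriv] at htr
  have h3 : s ^ (S : Subgroup G).index = 1 := by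
    have h4 := congrArg Subtype.val htr
    simpa using h4.symm
  obtain ⟨k, hk⟩ := S.2 ⟨s, hs⟩
  have hk' : s ^ (p ^ k) = 1 := by
    have h4 := congrArg Subtype.val hk
    simpa using h4
  have hdvd1 : orderOf s ∣ p ^ k := orderOf_dvd_of_pow_eq_one hk'
  have hdvd2 : orderOf s ∣ (S : Subgroup G).index := orderOf_dvd_of_pow_eq_one h3
  obtain ⟨j, hj, hj'⟩ := (Nat.dvd_prime_pow Fact.out).mp hdvd1
  rcases Nat.eq_zero_or_pos j with h0 | hpos
  · rw [h0, pow_zero] at hj'
    exact orderOf_eq_one_iff.mp hj'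
  · exfalso
    apply S.not_dvd_index
    exact dvd_trans (by rw [hj']; exact dvd_pow_self p hpos.ne') hdvd2

end Cfsg.Agent.Helper73
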