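import Mathlib

set_option autoImplicit false

namespace Cfsg.Agent.Helper73

/-- PIECE GC -/
theorem normalizer_conj_transfer {G : Type*} [Group G] [Finite G] (S A : Subgroup G) (c : G)
    (h : S.map (MulAut.conj c).toMonoidHom ≤ Subgroup.normalizer (A : Set G)) :
    S ≤ Subgroup.normalizer ((A.map (MulAut.conj c⁻¹).toMonoidHom : Subgroup G) : Set G) ∧
      Nat.card ↥(A.map (MulAut.conj c⁻¹).toMonoidHom) = Nat.card A ∧
      (IsCyclic A → IsCyclic ↥(A.map (MulAut.conj c⁻¹).toMonoidHom)) ∧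
      (∀ (p : ℕ) [Fact p.Prime] (P : Sylow p G), A = P →
        ∃ P' : Sylow p G, A.map (MulAut.conj c⁻¹).toMonoidHom = P') := by
  have hmem : ∀ x : G, x ∈ A.map (MulAut.conj c⁻¹).toMonoidHom ↔ c * x * c⁻¹ ∈ A := by
    intro x
    constructor
    · rintro ⟨a, ha, rfl⟩
      have h1 : c * (MulAut.conj c⁻¹).toMonoidHom a * c⁻¹ = a := by
        show c * (MulAut.conj c⁻¹ a) * c⁻¹ = a
        rw [MulAut.conj_apply]
        group
      rw [h1]
      exact ha
    · intro hx
      refine ⟨c * x * c⁻¹, hx, ?_⟩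
      show MulAut.conj c⁻¹ (c * x * c⁻¹) = x
      rw [MulAut.conj_apply]
      group
  have hinj : Function.Injective (MulAut.conj c⁻¹).toMonoidHom := (MulAut.conj c⁻¹).injective
  refine ⟨?_, Subgroup.card_map_of_injective hinj, ?_, ?_⟩
  · intro s hs
    have hs' : c * s * c⁻¹ ∈ Subgroup.normalizer (A : Set G) := by
      apply h
      refine ⟨s, hs, ?_⟩
      show MulAut.conj c s = c * s * c⁻¹
      rw [MulAut.conj_apply]
    rw [Subgroup.mem_set_normalizer_iff]
    intro x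
    have h1 := (Subgroup.mem_set_normalizer_iff.mp hs') (c * x * c⁻¹)
    have h2 : c * s * c⁻¹ * (c * x * c⁻¹) * (c * s * c⁻¹)⁻¹ = c * (s * x * s⁻¹) * c⁻¹ := by group
    rw [h2] at h1
    show x ∈ A.map (MulAut.conj c⁻¹).toMonoidHom ↔ s * x * s⁻¹ ∈ A.map (MulAut.conj c⁻¹).toMonoidHom
    rw [hmem, hmem]
    exact h1
  · intro hA
    exact isCyclic_of_surjective (A.equivMapOfInjective _ hinj).toMonoidHom
      (MulEquiv.surjective _)
  · intro p _ P hAP
    refine ⟨c⁻¹ • P, ?_⟩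
    rw [Sylow.coe_subgroup_smul, hAP]
    rfl

end Cfsg.Agent.Helper73
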