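import Mathlib

set_option autoImplicit false

namespace Cfsg.Agent.Helper73

/-- PIECE TIN -/
theorem normalizer_le_of_sylow_TI {G : Type*} [Group G] [Finite G] {p : ℕ} [Fact p.Prime]
    (P : Sylow p G)
    (hTI : ∀ P' : Sylow p G, P' ≠ P → (P' : Subgroup G) ⊓ (P : Subgroup G) = ⊥)
    (Q : Subgroup G) (hQ : Q ≤ P) (hQ1 : Q ≠ ⊥) :
    Subgroup.normalizer (Q : Set G) ≤ Subgroup.normalizer ((P : Subgroup G) : Set G) := by
  intro y hy
  refine Sylow.smul_eq_iff_mem_normalizer.mp ?_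
  by_contra hne
  have h1 := hTI (y • P) hne
  apply hQ1
  rw [eq_bot_iff, ← h1]
  intro q hq
  refine ⟨?_, hQ hq⟩
  -- q = y * (y⁻¹ * q * y) * y⁻¹ with y⁻¹ * q * y ∈ Q ≤ P
  have hy' : y⁻¹ * q * y ∈ Q := by
    have := (Subgroup.mem_normalizer_iff'').mp hy q
    exact this.mp hq
  have h2 : q ∈ ((y • P : Sylow p G) : Subgroup G) := by
    rw [Sylow.coe_subgroup_smul]
    have h3 := Subgroup.smul_mem_pointwise_smul (y⁻¹ * q * y) (MulAut.conj y) (P : Subgroup G)
      (hQ hy')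
    have h4 : MulAut.conj y • (y⁻¹ * q * y) = q := by
      rw [MulAut.smul_def, MulAut.conj_apply]
      group
    rwa [h4] at h3
  exact h2

end Cfsg.Agent.Helper73
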