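import Cfsg.Agent.Helper71.McLA
import Cfsg.Agent.Helper80.McLG
import Cfsg.Agent.Helper39.McLK1

/-!
# The alternating form of a thin transvection system (helper73, PIECE K2 of CALL S5075)
-/

set_option autoImplicit false

namespace Cfsg.Agent.Helper73.McL

open Module Cfsg.Agent.Helper71.McL

variable {F V : Type*} [Field F] [AddCommGroup V] [Module F V]

/-- the inductive claim behind `exists_beta`. -/
theorem mclK2_claim [Module.Finite F V] (S : TSys F V) (h2 : (2 : F) ≠ 0) (W : Submodule F V)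
    (hG : S.Good W) (hT : S.Thin) (hsym : S.Sym) (hall : ∀ x ∈ W, x ≠ 0 → S.IsCenter x)
    (hadd : ∀ u v : V, u ∈ W → v ∈ W → u + v ≠ 0 → ∀ χ : Dual F V, S.Θ χ (u + v) →
      ∃ φ ψ : Dual F V, S.Θ φ u ∧ S.Θ ψ v ∧ χ = φ + ψ) :
    ∀ n : ℕ, ∀ U : Submodule F V, U ≤ W → finrank F U ≤ n →
      (∀ u ∈ U, u ≠ 0 → ∃ u' ∈ U, ∃ φ : Dual F V, S.Θ φ u ∧ φ u' ≠ 0) →
      ∃ β : V →ₗ[F] Dual F V, ∀ u ∈ U, u ≠ 0 → ∀ φ : Dual F V, (S.Θ φ u ↔ ∃ c : F, φ = c • β u) := by
  intro n
  induction n with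
  | zero =>
    intro U hUW hfin hND
    have hU : U = ⊥ := Submodule.finrank_eq_zero.mp (Nat.le_zero.mp hfin)
    refine ⟨0, fun u hu hu0 => ?_⟩
    rw [hU, Submodule.mem_bot] at hu
    exact absurd hu hu0
  | succ n ih =>
    intro U hUW hfin hND
    by_cases hU : U = ⊥
    · refine ⟨0, fun u hu hu0 => ?_⟩
      rw [hU, Submodule.mem_bot] at hu
      exact absurd hu hu0
    · obtain ⟨e, he, he0⟩ := Submodule.exists_mem_ne_zero_of_ne_bot hU
      obtain ⟨f, hf, φ, hφ, hφf⟩ := hND e he he0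
      have hf0 : f ≠ 0 := by
        rintro rfl
        exact hφf (map_zero φ)
      have hce := hall e (hUW he) he0
      have hcf := hall f (hUW hf) hf0
      obtain ⟨ψ, hψ, hψe⟩ := hsym e f hce hcf ⟨φ, hφ, hφf⟩
      have hφe : φ e = 0 := S.vanish hφ
      have hψf : ψ f = 0 := S.vanish hψ
      -- the projection onto `K` along `P`
      obtain ⟨π, hπ⟩ : ∃ π : V →ₗ[F] V, ∀ t, π t = t - ψ t • ((ψ e)⁻¹ • e) - φ t • ((φ f)⁻¹ • f) :=
        ⟨LinearMap.id - ψ.smulRight ((ψ e)⁻¹ • e) - φ.smulRight ((φ f)⁻¹ • f), fun t => rfl⟩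
      have hπφ : ∀ t, φ (π t) = 0 := by
        intro t
        rw [hπ]
        simp only [map_sub, map_smul, smul_eq_mul, hφe, mul_zero, sub_zero, inv_mul_cancel₀ hφf, mul_one,
          sub_self]
      have hπψ : ∀ t, ψ (π t) = 0 := by
        intro t
        rw [hπ]
        simp only [map_sub, map_smul, smul_eq_mul, hψf, mul_zero, sub_zero, inv_mul_cancel₀ hψe, mul_one,
          sub_self]
      have hπK : ∀ t, π t ∈ LinearMap.ker φ ⊓ LinearMap.ker ψ := fun t =>
        ⟨LinearMap.mem_ker.mpr (hπφ t), LinearMap.mem_ker.mpr (hπψ t)⟩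
      have hπU : ∀ t ∈ U, π t ∈ U := by
        intro t ht
        rw [hπ]
        exact U.sub_mem (U.sub_mem ht (U.smul_mem _ (U.smul_mem _ he))) (U.smul_mem _ (U.smul_mem _ hf))
      have hU'U : U ⊓ (LinearMap.ker φ ⊓ LinearMap.ker ψ) ≤ U := inf_le_left
      have hlt : U ⊓ (LinearMap.ker φ ⊓ LinearMap.ker ψ) < U := by
        refine lt_of_le_of_ne hU'U ?_
        intro heq
        have h1 : e ∈ U ⊓ (LinearMap.ker φ ⊓ LinearMap.ker ψ) := by
          rw [heq]
          exact he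
        exact hψe (LinearMap.mem_ker.mp h1.2.2)
      have hfin' : finrank F (U ⊓ (LinearMap.ker φ ⊓ LinearMap.ker ψ) : Submodule F V) ≤ n := by
        have := Submodule.finrank_lt_finrank_of_lt hlt
        omega
      obtain ⟨hcompl, hplane⟩ := Cfsg.Agent.Helper80.McL.plane_struct S hT hφ hψ hφf hψe
      have heP : e ∈ Submodule.span F {e, f} := Submodule.subset_span (by simp)
      have hfP : f ∈ Submodule.span F {e, f} := Submodule.subset_span (by simp)
      have hND' : ∀ y ∈ U ⊓ (LinearMap.ker φ ⊓ LinearMap.ker ψ), y ≠ 0 →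
          ∃ u' ∈ U ⊓ (LinearMap.ker φ ⊓ LinearMap.ker ψ), ∃ χ : Dual F V, S.Θ χ y ∧ χ u' ≠ 0 := by
        intro y hy hy0
        obtain ⟨u', hu', χ, hχ, hχu'⟩ := hND y hy.1 hy0
        have hcy := hall y (hUW hy.1) hy0
        have key : ∀ x ∈ Submodule.span F {e, f}, x ≠ 0 → x ∈ W → χ x = 0 := by
          intro x hx hx0 hxW
          by_contra hne
          obtain ⟨χ1, hχ1, hχ1y⟩ := hsym y x hcy (hall x hxW hx0) ⟨χ, hχ, hne⟩
          exact hχ1y (((hplane x hx hx0 χ1).mp hχ1).2 y hy.2)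
        have hχe : χ e = 0 := key e heP he0 (hUW he)
        have hχf : χ f = 0 := key f hfP hf0 (hUW hf)
        refine ⟨π u', ⟨hπU u' hu', hπK u'⟩, χ, hχ, ?_⟩
        rw [hπ]
        simp only [map_sub, map_smul, smul_eq_mul, hχe, hχf, mul_zero, sub_zero]
        exact hχu'
      obtain ⟨γ, hγ⟩ := ih _ (hU'U.trans hUW) hfin' hND'
      obtain ⟨r, hr0, hr⟩ := Cfsg.Agent.Helper39.McL.mixed_line S h2 W hG hT hsym hall hadd hφ hψ hφf hψe γ
        (U ⊓ (LinearMap.ker φ ⊓ LinearMap.ker ψ)) inf_le_right (hU'U.trans hUW) hγ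
      refine ⟨ψ.smulRight φ - φ.smulRight ψ + r • (γ.comp π), ?_⟩
      intro u hu hu0 χ
      have hβ : (ψ.smulRight φ - φ.smulRight ψ + r • (γ.comp π)) u =
          ψ u • φ - φ u • ψ + r • γ (π u) := rfl
      rw [hβ]
      have hxeq : u - π u = (ψ u * (ψ e)⁻¹) • e + (φ u * (φ f)⁻¹) • f := by
        rw [hπ, smul_smul, smul_smul]
        abel
      have hx : u - π u ∈ Submodule.span F {e, f} := by
        rw [hxeq]
        exact Submodule.add_mem _ (Submodule.smul_mem _ _ heP) (Submodule.smul_mem _ _ hfP)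
      have hy : π u ∈ U ⊓ (LinearMap.ker φ ⊓ LinearMap.ker ψ) := ⟨hπU u hu, hπK u⟩
      have hψu : ψ u = ψ (u - π u) := by rw [map_sub, hπψ, sub_zero]
      have hφu : φ u = φ (u - π u) := by rw [map_sub, hπφ, sub_zero]
      by_cases hy0 : π u = 0
      · rw [hy0, map_zero, smul_zero, add_zero]
        have hu_eq : u = (ψ u * (ψ e)⁻¹) • e + (φ u * (φ f)⁻¹) • f := by
          rw [← hxeq, hy0, sub_zero]
        have hΘ0 : S.Θ (ψ u • φ - φ u • ψ) u := by
          have h0 : (ψ u • φ + (-φ u) • ψ) ((ψ u * (ψ e)⁻¹) • e + (φ u * (φ f)⁻¹) • f) = 0 := by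
            rw [← hu_eq]
            simp only [LinearMap.add_apply, LinearMap.smul_apply, smul_eq_mul]
            ring
          have := sl2 S hφ hψ hφf hψe (ψ u) (-φ u) (ψ u * (ψ e)⁻¹) (φ u * (φ f)⁻¹) h0
          rw [← hu_eq] at this
          have e1 : ψ u • φ + (-φ u) • ψ = ψ u • φ - φ u • ψ := by
            ext t
            simp only [LinearMap.add_apply, LinearMap.sub_apply, LinearMap.smul_apply, smul_eq_mul]
            ring
          rw [e1] at this
          exact this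
        have hne0 : ψ u • φ - φ u • ψ ≠ 0 := by
          intro h0
          have h1 := congrArg (fun g : Dual F V => g e) h0
          have h2' := congrArg (fun g : Dual F V => g f) h0
          simp only [LinearMap.sub_apply, LinearMap.smul_apply, smul_eq_mul, hφe, hψf, mul_zero,
            zero_sub, sub_zero, LinearMap.zero_apply, neg_eq_zero, mul_eq_zero] at h1 h2'
          have hφu0 : φ u = 0 := h1.resolve_right hψe
          have hψu0 : ψ u = 0 := h2'.resolve_right hφf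
          apply hu0
          rw [hu_eq, hφu0, hψu0]
          simp
        constructor
        · intro hχ
          exact hT u _ χ hΘ0 hχ hne0 hu0
        · rintro ⟨c, rfl⟩
          exact S.smul_left c hΘ0
      · by_cases hx0 : u - π u = 0
        · have hu' : π u = u := (sub_eq_zero.mp hx0).symm
          have hφ0 : φ u = 0 := by rw [hφu, hx0, map_zero]
          have hψ0 : ψ u = 0 := by rw [hψu, hx0, map_zero]
          rw [hφ0, hψ0, zero_smul, zero_smul, sub_zero, zero_add, hu']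
          rw [hu'] at hy
          rw [hγ u hy hu0 χ]
          constructor
          · rintro ⟨c, rfl⟩
            exact ⟨c * r⁻¹, by rw [smul_smul, mul_assoc, inv_mul_cancel₀ hr0, mul_one]⟩
          · rintro ⟨c, rfl⟩
            exact ⟨c * r, by rw [smul_smul]⟩
        · have := hr (u - π u) hx (π u) hy hx0 hy0 χ
          rw [sub_add_cancel] at this
          rw [this, ← hψu, ← hφu]

theorem exists_beta [Module.Finite F V] (S : TSys F V) (h2 : (2 : F) ≠ 0) (W : Submodule F V) (hG : S.Good W) (hT : S.Thin) (hsym : S.Sym) (hall : ∀ x ∈ W, x ≠ 0 → S.IsCenter x) (hadd : ∀ u v : V, u ∈ W → v ∈ W → u + v ≠ 0 → ∀ χ : Dual F V, S.Θ χ (u + v) → ∃ φ ψ : Dual F V, S.Θ φ u ∧ S.Θ ψ v ∧ χ = φ + ψ) : ∃ β : V →ₗ[F] Dual F V, ∀ v ∈ W, v ≠ 0 → ∀ φ : Dual F V, (S.Θ φ v ↔ ∃ c : F, φ = c • β v) := by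
  refine mclK2_claim S h2 W hG hT hsym hall hadd (finrank F W) W le_rfl le_rfl ?_
  intro u hu hu0
  obtain ⟨-, φ, hφ0, hφ⟩ := hall u hu hu0
  obtain ⟨x, hx, hφx⟩ := hG.not_type2 φ u hφ hφ0 hu0
  exact ⟨x, hx, φ, hφ, hφx⟩

end Cfsg.Agent.Helper73.McL
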