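import Cfsg.Agent.Helper71.McLA

/-!
# A full block with no functional vanishing on it (helper73, PIECE D of CALL S5075)
-/

set_option autoImplicit false

namespace Cfsg.Agent.Helper73.McL

open Module Cfsg.Agent.Helper71.McL

variable {F V : Type*} [Field F] [AddCommGroup V] [Module F V]

/-- a functional vanishing at `u` and equal to one at a vector outside the line of `u`. -/
theorem mclD_dual_zero_one {u x : V} (hx : x ∉ Submodule.span F {u}) :
    ∃ ψ : Dual F V, ψ u = 0 ∧ ψ x = 1 := by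
  obtain ⟨f, hf, hp⟩ := Submodule.exists_dual_map_eq_bot_of_notMem hx inferInstance
  refine ⟨(f x)⁻¹ • f, ?_, ?_⟩
  · have h1 : f u ∈ (Submodule.span F {u}).map f :=
      Submodule.mem_map_of_mem (Submodule.mem_span_singleton_self u)
    rw [hp, Submodule.mem_bot] at h1
    rw [LinearMap.smul_apply, h1, smul_zero]
  · rw [LinearMap.smul_apply, smul_eq_mul, inv_mul_cancel₀ hf]

/-- a nonzero vector of `Q` in the kernel of one functional. -/
theorem mclD_ker_one [Module.Finite F V] (Q : Submodule F V) (hQ2 : 2 ≤ finrank F Q) (χ : Dual F V) :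
    ∃ x ∈ Q, x ≠ 0 ∧ χ x = 0 := by
  have hlt : finrank F F < finrank F Q := by
    rw [finrank_self]; omega
  obtain ⟨x, hx, hx0⟩ := Submodule.exists_mem_ne_zero_of_ne_bot
    (LinearMap.ker_ne_bot_of_finrank_lt (f := χ.comp Q.subtype) hlt)
  refine ⟨x.1, x.2, fun h => hx0 (Subtype.ext h), ?_⟩
  simpa using hx

/-- a nonzero vector of `Q` in the kernel of two functionals. -/
theorem mclD_ker_two [Module.Finite F V] (Q : Submodule F V) (hQ3 : 3 ≤ finrank F Q) (φ₁ φ₂ : Dual F V) :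
    ∃ x ∈ Q, x ≠ 0 ∧ φ₁ x = 0 ∧ φ₂ x = 0 := by
  have hlt : finrank F (F × F) < finrank F Q := by
    rw [finrank_prod, finrank_self]; omega
  obtain ⟨x, hx, hx0⟩ := Submodule.exists_mem_ne_zero_of_ne_bot
    (LinearMap.ker_ne_bot_of_finrank_lt (f := (φ₁.comp Q.subtype).prod (φ₂.comp Q.subtype)) hlt)
  rw [LinearMap.mem_ker] at hx
  refine ⟨x.1, x.2, fun h => hx0 (Subtype.ext h), ?_, ?_⟩
  · have := congrArg Prod.fst hx
    simpa using this
  · have := congrArg Prod.snd hx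
    simpa using this

/-- transfer of a functional between centres of a full block. -/
theorem mclD_transfer (S : TSys F V) (Q : Submodule F V) (hQ : S.Full Q) {φ : Dual F V} {x x' : V}
    (hx : x ∈ Q) (hx0 : x ≠ 0) (hx' : x' ∈ Q) (hx'0 : x' ≠ 0) (h : S.Θ φ x') (hφx : φ x = 0) :
    S.Θ φ x := by
  by_cases hsp : x ∈ Submodule.span F {x'}
  · obtain ⟨c, rfl⟩ := Submodule.mem_span_singleton.mp hsp
    exact S.smul_right c h
  · have hsp' : x' ∉ Submodule.span F {x} := by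
      intro h'
      obtain ⟨c, hc⟩ := Submodule.mem_span_singleton.mp h'
      have hc0 : c ≠ 0 := by
        rintro rfl
        rw [zero_smul] at hc
        exact hx'0 hc.symm
      apply hsp
      rw [Submodule.mem_span_singleton]
      refine ⟨c⁻¹, ?_⟩
      rw [← hc, smul_smul, inv_mul_cancel₀ hc0, one_smul]
    obtain ⟨χ, hχx, hχx'⟩ := mclD_dual_zero_one hsp'
    obtain ⟨ψ, hψ, hψQ⟩ := hQ x hx hx0 χ hχx
    have hψx' : ψ x' ≠ 0 := by
      rw [hψQ x' hx', hχx']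
      exact one_ne_zero
    exact lemA S h hψ hφx hψx'

theorem full_block [Module.Finite F V] (S : TSys F V) (Q : Submodule F V) (hQ3 : 3 ≤ finrank F Q) (hQ : S.Full Q) (hN : ∀ x ∈ Q, x ≠ 0 → ∀ lam : Dual F V, S.Θ lam x → (∀ q ∈ Q, lam q = 0) → lam = 0) : ∃ K : Submodule F V, IsCompl Q K ∧ ∀ x ∈ Q, x ≠ 0 → ∀ φ : Dual F V, (S.Θ φ x ↔ φ x = 0 ∧ ∀ k ∈ K, φ k = 0) := by
  classical
  obtain ⟨x₀, hx₀, hx₀0, -⟩ := mclD_ker_one Q (by omega) (0 : Dual F V)
  -- the space of functionals of the block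
  obtain ⟨Λ, hΛ⟩ : ∃ Λ : Submodule F (Dual F V), ∀ φ, φ ∈ Λ ↔ ∃ x ∈ Q, x ≠ 0 ∧ S.Θ φ x :=
    ⟨{ carrier := {φ | ∃ x ∈ Q, x ≠ 0 ∧ S.Θ φ x}
       add_mem' := by
         rintro φ₁ φ₂ ⟨x₁, hx₁, hx₁0, h₁⟩ ⟨x₂, hx₂, hx₂0, h₂⟩
         obtain ⟨x, hx, hx0, e₁, e₂⟩ := mclD_ker_two Q hQ3 φ₁ φ₂
         exact ⟨x, hx, hx0, S.add_left (mclD_transfer S Q hQ hx hx0 hx₁ hx₁0 h₁ e₁)
           (mclD_transfer S Q hQ hx hx0 hx₂ hx₂0 h₂ e₂)⟩
       zero_mem' := ⟨x₀, hx₀, hx₀0, S.zero_left x₀⟩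
       smul_mem' := by
         rintro c φ ⟨x, hx, hx0, h⟩
         exact ⟨x, hx, hx0, S.smul_left c h⟩ }, fun φ => Iff.rfl⟩
  -- every functional agrees on `Q` with an element of `Λ`
  have hsurj : ∀ χ : Dual F V, ∃ φ ∈ Λ, ∀ q ∈ Q, φ q = χ q := by
    intro χ
    obtain ⟨x, hx, hx0, hχ⟩ := mclD_ker_one Q (by omega) χ
    obtain ⟨φ, hφ, hφQ⟩ := hQ x hx hx0 χ hχ
    exact ⟨φ, (hΛ φ).mpr ⟨x, hx, hx0, hφ⟩, hφQ⟩
  have hinj : ∀ φ ∈ Λ, (∀ q ∈ Q, φ q = 0) → φ = 0 := by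
    intro φ hφ h0
    obtain ⟨x, hx, hx0, h⟩ := (hΛ φ).mp hφ
    exact hN x hx hx0 φ h h0
  -- the restriction `Λ → Dual Q` is bijective
  let ρ : Λ →ₗ[F] Dual F Q := (Q.subtype.dualMap).domRestrict Λ
  have hρ : ∀ (φ : Λ) (q : Q), ρ φ q = φ.1 q.1 := fun φ q => rfl
  have hρinj : Function.Injective ρ := by
    rw [injective_iff_map_eq_zero]
    intro φ hφ
    apply Subtype.ext
    apply hinj φ.1 φ.2
    intro q hq
    have := congrArg (fun f : Dual F Q => f ⟨q, hq⟩) hφ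
    simpa [hρ] using this
  have hρsurj : Function.Surjective ρ := by
    intro χ'
    obtain ⟨χ, hχ⟩ := LinearMap.exists_extend χ'
    obtain ⟨φ, hφ, hφQ⟩ := hsurj χ
    refine ⟨⟨φ, hφ⟩, ?_⟩
    ext q
    rw [hρ, hφQ q.1 q.2, ← hχ]
    rfl
  have hfinΛ : finrank F Λ = finrank F Q := by
    rw [LinearEquiv.finrank_eq (LinearEquiv.ofBijective ρ ⟨hρinj, hρsurj⟩), Subspace.dual_finrank_eq]
  refine ⟨Λ.dualCoannihilator, ?_, ?_⟩
  · have hdisj : Disjoint Q Λ.dualCoannihilator := by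
      rw [Submodule.disjoint_def]
      intro q hq hqK
      by_contra hq0
      obtain ⟨χ, hχ⟩ : ∃ χ : Dual F V, χ q ≠ 0 := by
        by_contra hcon
        push Not at hcon
        exact hq0 ((Module.forall_dual_apply_eq_zero_iff F q).mp hcon)
      obtain ⟨φ, hφ, hφQ⟩ := hsurj χ
      apply hχ
      rw [← hφQ q hq]
      exact (Submodule.mem_dualCoannihilator _).mp hqK φ hφ
    have hdim : finrank F Q + finrank F Λ.dualCoannihilator = finrank F V := by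
      rw [← hfinΛ]
      exact Subspace.finrank_add_finrank_dualCoannihilator_eq Λ
    exact ⟨hdisj, codisjoint_iff.mpr (Submodule.eq_top_of_disjoint Q _ hdim.ge hdisj)⟩
  · intro x hx hx0 φ
    constructor
    · intro h
      refine ⟨S.vanish h, fun k hk => ?_⟩
      exact (Submodule.mem_dualCoannihilator _).mp hk φ ((hΛ φ).mpr ⟨x, hx, hx0, h⟩)
    · rintro ⟨hφx, hφK⟩
      have hφΛ : φ ∈ Λ := by
        rw [← Subspace.dualCoannihilator_dualAnnihilator_eq (W := Λ), Submodule.mem_dualAnnihilator]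
        exact hφK
      obtain ⟨x', hx', hx'0, h⟩ := (hΛ φ).mp hφΛ
      exact mclD_transfer S Q hQ hx hx0 hx' hx'0 h hφx

end Cfsg.Agent.Helper73.McL
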