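import Mathlib
import Cfsg.Agent.Helper9.BRDefs
import Cfsg.Agent.Helper9.BrauerP
import Cfsg.Agent.Helper9.OrdTools
import Cfsg.Agent.Helper8.Ord459B
import Cfsg.Agent.Helper75.BRSplit
import Cfsg.Agent.Helper79.Codegree
import Cfsg.Agent.Helper80.CharOrtho

/-!
# CALL S0984 (helper82), piece DEG6A: the arithmetic of the principal 7-block in order 2520
-/

set_option autoImplicit false
set_option linter.style.haveILetI false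
open Cfsg
open scoped ComplexConjugate

universe u

namespace Cfsg.Agent.Helper73

theorem a7_arith1 : ∀ d ≤ 50, 2 ≤ d → d ∣ 2520 → d % 7 = 1 → d = 8 ∨ d = 15 ∨ d = 36 := by
  decide +kernel

theorem a7_arith2 : ∀ d ≤ 50, 2 ≤ d → d ∣ 2520 → d % 7 = 6 → d = 6 ∨ d = 20 := by
  decide +kernel

theorem a7_arith3 : ∀ d ≤ 35, 2 ≤ d → d ∣ 2520 → d % 7 = 3 → d = 3 ∨ d = 10 ∨ d = 24 := by
  decide +kernel

theorem a7_arith4 : ∀ d ≤ 35, 2 ≤ d → d ∣ 2520 → d % 7 = 4 → d = 4 ∨ d = 18 := by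
  decide +kernel

theorem a7_caseA (d1 d2 D : ℕ) (ε : ℤ)
    (h1 : d1 = 8 ∨ d1 = 15 ∨ d1 = 36) (h2 : d2 = 8 ∨ d2 = 15 ∨ d2 = 36)
    (hD : (ε = 1 ∧ (D = 3 ∨ D = 10 ∨ D = 24)) ∨ (ε = -1 ∧ (D = 4 ∨ D = 18)))
    (hrel : ε * (D : ℤ) = 1 + ((d1 : ℤ) + (d2 : ℤ)))
    (hsq : d1 ^ 2 + d2 ^ 2 + (D ^ 2 + D ^ 2) ≤ 2520) :
    ε = 1 ∧ D = 24 ∧ ((d1 = 8 ∧ d2 = 15) ∨ (d1 = 15 ∧ d2 = 8)) := by
  rcases h1 with rfl | rfl | rfl <;> rcases h2 with rfl | rfl | rfl <;>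
    rcases hD with ⟨rfl, rfl | rfl | rfl⟩ | ⟨rfl, rfl | rfl⟩ <;> omega

theorem a7_caseB (d1 D : ℕ) (ε : ℤ)
    (h1 : d1 = 8 ∨ d1 = 15 ∨ d1 = 36)
    (hD : (ε = 1 ∧ (D = 3 ∨ D = 10 ∨ D = 24)) ∨ (ε = -1 ∧ (D = 4 ∨ D = 18)))
    (hrel : ε * (D : ℤ) = 1 + (d1 : ℤ) - 20) :
    ε = -1 ∧ D = 4 ∧ d1 = 15 := by
  rcases h1 with rfl | rfl | rfl <;>
    rcases hD with ⟨rfl, rfl | rfl | rfl⟩ | ⟨rfl, rfl | rfl⟩ <;> omega

theorem a7_caseC (D : ℕ) (ε : ℤ)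
    (hD : (ε = 1 ∧ (D = 3 ∨ D = 10 ∨ D = 24)) ∨ (ε = -1 ∧ (D = 4 ∨ D = 18)))
    (hrel : ε * (D : ℤ) = 1 - (20 + 20)) : False := by
  rcases hD with ⟨rfl, rfl | rfl | rfl⟩ | ⟨rfl, rfl | rfl⟩ <;> omega

/-- PIECE DEG6A -/
theorem a7_block_arith {G : Type u} [Group G] [Fintype G] [IsSimpleGroup G]
    (hG : Nat.card G = 2520) {M : Ideal Cfsg.AlgInt} (P : Sylow 7 G)
    (T : Cfsg.Agent.Helper9.BRTab 7 M P 3) :
    (∃ χ ∈ T.X2, Cfsg.charDegree (χ : G → ℂ) = 6) ∨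
    (T.ε = 1 ∧ T.X2 = ∅ ∧ ∃ χ₁ ∈ T.X1, ∃ χ₂ ∈ T.X1, Cfsg.charDegree (χ₁ : G → ℂ) = 8 ∧
      Cfsg.charDegree (χ₂ : G → ℂ) = 15 ∧ (∀ χ ∈ T.X1, χ = χ₁ ∨ χ = χ₂) ∧
      ∀ θ ∈ T.Y, Cfsg.charDegree (θ : G → ℂ) = 24) ∨
    (T.ε = -1 ∧ ∃ χ₁ ∈ T.X1, ∃ χ₂ ∈ T.X2, Cfsg.charDegree (χ₁ : G → ℂ) = 15 ∧
      Cfsg.charDegree (χ₂ : G → ℂ) = 20 ∧ (∀ χ ∈ T.X1, χ = χ₁) ∧ (∀ χ ∈ T.X2, χ = χ₂) ∧
      ∀ θ ∈ T.Y, Cfsg.charDegree (θ : G → ℂ) = 4) := by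
  classical
  haveI : Fact (Nat.Prime 7) := ⟨by norm_num⟩
  haveI : Fintype (Cfsg.IrrCharacter G) := Fintype.ofFinite _
  have hP : Nat.card (P : Subgroup G) = 7 := by
    have := Cfsg.Agent.Helper9.OrdTools.sylow_card (p := 7) 1 360 (hG.trans (by norm_num))
      (by norm_num) P
    simpa using this
  have hna : ∃ a b : G, a * b ≠ b * a :=
    Cfsg.Agent.Helper8.Ord459.exists_not_comm' P (by rw [hP]; norm_num) (by rw [hP, hG]; norm_num)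
  have hdeg2 : ∀ χ : Cfsg.IrrCharacter G, χ ≠ Helper81.trivIrr G →
      2 ≤ Cfsg.charDegree (χ : G → ℂ) :=
    fun χ hχ => Cfsg.Agent.Helper9.BrauerP.two_le_charDegree hna χ hχ
  have hdvd : ∀ χ : Cfsg.IrrCharacter G, Cfsg.charDegree (χ : G → ℂ) ∣ 2520 := by
    intro χ
    have := Helper79.irr_charDegree_dvd_card χ
    rwa [hG] at this
  have hsq := Helper80.irr_finsum_charDegree_sq (G := G)
  rw [finsum_eq_sum_of_fintype, hG] at hsq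
  have hle50 : ∀ χ : Cfsg.IrrCharacter G, Cfsg.charDegree (χ : G → ℂ) ≤ 50 := by
    intro χ
    have h1 : Cfsg.charDegree (χ : G → ℂ) ^ 2 ≤ 2520 := by
      rw [← hsq]
      exact Finset.single_le_sum (f := fun ψ : Cfsg.IrrCharacter G =>
        Cfsg.charDegree (ψ : G → ℂ) ^ 2) (fun _ _ => Nat.zero_le _) (Finset.mem_univ χ)
    by_contra hcon
    have h51 : 51 ≤ Cfsg.charDegree (χ : G → ℂ) := by omega
    have : 51 ^ 2 ≤ Cfsg.charDegree (χ : G → ℂ) ^ 2 := Nat.pow_le_pow_left h51 2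
    omega
  have h1 : Helper81.trivIrr G ∉ T.X1 ∪ (T.X2 ∪ T.Y) := by
    simp only [Finset.mem_union, not_or]
    exact ⟨T.h1X1, T.h1X2, T.h1Y⟩
  have h2 : Disjoint T.X1 (T.X2 ∪ T.Y) := by
    rw [Finset.disjoint_union_right]
    exact ⟨T.hX12, T.hX1Y⟩
  have hsq2 : ∑ χ ∈ insert (Helper81.trivIrr G) (T.X1 ∪ (T.X2 ∪ T.Y)),
      Cfsg.charDegree (χ : G → ℂ) ^ 2 ≤ 2520 := by
    rw [← hsq]
    exact Finset.sum_le_sum_of_subset (Finset.subset_univ _)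
  rw [Finset.sum_insert h1, Finset.sum_union h2, Finset.sum_union T.hX2Y] at hsq2
  -- the exceptional characters
  have hYc : T.Y.card = 2 := by rw [T.hcardY]
  obtain ⟨θ₁, θ₂, hθne, hYeq⟩ := Finset.card_eq_two.mp hYc
  have hθ₁ : θ₁ ∈ T.Y := by rw [hYeq]; simp
  have hθ₂ : θ₂ ∈ T.Y := by rw [hYeq]; simp
  have hreg1 : ¬ 7 ∣ orderOf (1 : G) := Helper75.br_one_reg
  have hDeq : ∀ θ ∈ T.Y, Cfsg.charDegree (θ : G → ℂ) = Cfsg.charDegree (θ₁ : G → ℂ) := by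
    intro θ hθ
    have h := T.hYreg θ hθ θ₁ hθ₁ 1 hreg1
    rw [Helper81.irr_one_eq_charDegree, Helper81.irr_one_eq_charDegree] at h
    exact_mod_cast h
  obtain ⟨D, hD⟩ : ∃ D : ℕ, D = Cfsg.charDegree (θ₁ : G → ℂ) := ⟨_, rfl⟩
  have hYsq : ∑ θ ∈ T.Y, Cfsg.charDegree (θ : G → ℂ) ^ 2 = D ^ 2 + D ^ 2 := by
    rw [hYeq, Finset.sum_pair hθne, hDeq θ₂ hθ₂, ← hD]
  rw [hYsq] at hsq2
  have hD2 : 2 ≤ D := by
    rw [hD]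
    exact hdeg2 θ₁ (fun h => T.h1Y (h ▸ hθ₁))
  have hDdvd : D ∣ 2520 := by rw [hD]; exact hdvd θ₁
  have hD35 : D ≤ 35 := by
    by_contra hcon
    have h36 : 36 ≤ D := by omega
    have : 36 ^ 2 ≤ D ^ 2 := Nat.pow_le_pow_left h36 2
    omega
  have hrel := T.hrel θ₁ hθ₁ 1 hreg1
  simp only [Helper81.irr_one_eq_charDegree] at hrel
  rw [← hD] at hrel
  have hrelZ : T.ε * (D : ℤ) = 1 + ∑ χ ∈ T.X1, (Cfsg.charDegree (χ : G → ℂ) : ℤ)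
      - ∑ χ ∈ T.X2, (Cfsg.charDegree (χ : G → ℂ) : ℤ) := by
    exact_mod_cast hrel
  have hYmod := T.hYdeg θ₁ hθ₁
  rw [← hD] at hYmod
  have hDopt : (T.ε = 1 ∧ (D = 3 ∨ D = 10 ∨ D = 24)) ∨ (T.ε = -1 ∧ (D = 4 ∨ D = 18)) := by
    rcases T.hε with hε | hε
    · left
      refine ⟨hε, a7_arith3 D hD35 hD2 hDdvd ?_⟩
      rw [hε] at hYmod
      simp only [Int.ModEq] at hYmod
      omega
    · right
      refine ⟨hε, a7_arith4 D hD35 hD2 hDdvd ?_⟩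
      rw [hε] at hYmod
      simp only [Int.ModEq] at hYmod
      omega
  have hX1v : ∀ χ ∈ T.X1, Cfsg.charDegree (χ : G → ℂ) = 8 ∨ Cfsg.charDegree (χ : G → ℂ) = 15 ∨
      Cfsg.charDegree (χ : G → ℂ) = 36 := by
    intro χ hχ
    refine a7_arith1 _ (hle50 χ) (hdeg2 χ (fun h => T.h1X1 (h ▸ hχ))) (hdvd χ) ?_
    have h := (T.hX1 χ hχ).1
    simp only [Int.ModEq] at h
    omega
  have hX2v : ∀ χ ∈ T.X2, Cfsg.charDegree (χ : G → ℂ) = 6 ∨ Cfsg.charDegree (χ : G → ℂ) = 20 := by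
    intro χ hχ
    refine a7_arith2 _ (hle50 χ) (hdeg2 χ (fun h => T.h1X2 (h ▸ hχ))) (hdvd χ) ?_
    have h := (T.hX2 χ hχ).1
    simp only [Int.ModEq] at h
    omega
  have hY24 : ∀ n : ℕ, D = n → ∀ θ ∈ T.Y, Cfsg.charDegree (θ : G → ℂ) = n := by
    intro n hn θ hθ
    rw [hDeq θ hθ, ← hD, hn]
  have hcard : T.X1.card + T.X2.card = 2 := by
    have := T.hcard
    omega
  have hcases : (T.X1.card = 2 ∧ T.X2.card = 0) ∨ (T.X1.card = 1 ∧ T.X2.card = 1) ∨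
      (T.X1.card = 0 ∧ T.X2.card = 2) := by omega
  rcases hcases with ⟨hA1, hA2⟩ | ⟨hB1, hB2⟩ | ⟨hC1, hC2⟩
  · -- two characters in `X1`
    obtain ⟨χ₁, χ₂, hne, hX1eq⟩ := Finset.card_eq_two.mp hA1
    have hX2eq : T.X2 = ∅ := Finset.card_eq_zero.mp hA2
    have hχ₁ : χ₁ ∈ T.X1 := by rw [hX1eq]; simp
    have hχ₂ : χ₂ ∈ T.X1 := by rw [hX1eq]; simp
    rw [hX1eq, hX2eq, Finset.sum_pair hne, Finset.sum_empty] at hsq2 hrelZ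
    obtain ⟨hε, hD24, hd⟩ := a7_caseA _ _ D T.ε (hX1v χ₁ hχ₁) (hX1v χ₂ hχ₂) hDopt
      (by rw [hrelZ]; ring) (by omega)
    right; left
    refine ⟨hε, hX2eq, ?_⟩
    rcases hd with ⟨hd1, hd2⟩ | ⟨hd1, hd2⟩
    · refine ⟨χ₁, hχ₁, χ₂, hχ₂, hd1, hd2, ?_, hY24 24 hD24⟩
      intro χ hχ
      rw [hX1eq] at hχ
      simpa using hχ
    · refine ⟨χ₂, hχ₂, χ₁, hχ₁, hd2, hd1, ?_, hY24 24 hD24⟩
      intro χ hχ
      rw [hX1eq] at hχ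
      have := (by simpa using hχ : χ = χ₁ ∨ χ = χ₂)
      exact this.symm
  · -- one character in each
    obtain ⟨χ₁, hX1eq⟩ := Finset.card_eq_one.mp hB1
    obtain ⟨χ₂, hX2eq⟩ := Finset.card_eq_one.mp hB2
    have hχ₁ : χ₁ ∈ T.X1 := by rw [hX1eq]; simp
    have hχ₂ : χ₂ ∈ T.X2 := by rw [hX2eq]; simp
    rcases hX2v χ₂ hχ₂ with h6 | h20
    · left
      exact ⟨χ₂, hχ₂, h6⟩
    · rw [hX1eq, hX2eq, Finset.sum_singleton, Finset.sum_singleton, h20] at hrelZ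
      obtain ⟨hε, hD4, hd1⟩ := a7_caseB _ D T.ε (hX1v χ₁ hχ₁) hDopt (by rw [hrelZ]; norm_num)
      right; right
      refine ⟨hε, χ₁, hχ₁, χ₂, hχ₂, hd1, h20, ?_, ?_, hY24 4 hD4⟩
      · intro χ hχ
        rw [hX1eq] at hχ
        simpa using hχ
      · intro χ hχ
        rw [hX2eq] at hχ
        simpa using hχ
  · -- two characters in `X2`
    obtain ⟨χ₁, χ₂, hne, hX2eq⟩ := Finset.card_eq_two.mp hC2
    have hX1eq : T.X1 = ∅ := Finset.card_eq_zero.mp hC1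
    have hχ₁ : χ₁ ∈ T.X2 := by rw [hX2eq]; simp
    have hχ₂ : χ₂ ∈ T.X2 := by rw [hX2eq]; simp
    rcases hX2v χ₁ hχ₁ with h6 | h20
    · left
      exact ⟨χ₁, hχ₁, h6⟩
    · rcases hX2v χ₂ hχ₂ with h6' | h20'
      · left
        exact ⟨χ₂, hχ₂, h6'⟩
      · exfalso
        rw [hX1eq, hX2eq, Finset.sum_pair hne, Finset.sum_empty, h20, h20'] at hrelZ
        exact a7_caseC D T.ε hDopt (by rw [hrelZ]; norm_num)

end Cfsg.Agent.Helper73
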