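import Mathlib
import Cfsg.Agent.Helper81.SectionChar

/-!
# CALL S0984 (helper82): helpers for the pieces MULT9, MULT12
-/

set_option autoImplicit false
open Cfsg
open scoped ComplexConjugate

universe u

namespace Cfsg.Agent.Helper73

/-- the hom from a cyclic group of order `n` given by an element with `d ^ n = 1` -/
def a7cyc {G : Type*} [Group G] (n : ℕ) [NeZero n] (d : G) (hd : d ^ n = 1) :
    Multiplicative (ZMod n) →* G where
  toFun q := d ^ (Multiplicative.toAdd q).val
  map_one' := by simp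
  map_mul' a b := by
    rw [toAdd_mul, ZMod.val_add, ← pow_eq_pow_mod _ hd, pow_add]

theorem a7cyc_apply {G : Type*} [Group G] (n : ℕ) [NeZero n] (d : G) (hd : d ^ n = 1)
    (q : Multiplicative (ZMod n)) : a7cyc n d hd q = d ^ (Multiplicative.toAdd q).val := rfl

/-- reindexing a sum over a cyclic group -/
theorem a7_sum_cyc {M : Type*} [AddCommMonoid M] (n : ℕ) [NeZero n] (g : ℕ → M) :
    ∑ a : Multiplicative (ZMod n), g (Multiplicative.toAdd a).val = ∑ i ∈ Finset.range n, g i := by
  rw [← Fin.sum_univ_eq_sum_range]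
  refine Fintype.sum_equiv (Multiplicative.toAdd.trans (ZMod.finEquiv n).symm.toEquiv) _ _ ?_
  intro a
  cases n with
  | zero => exact absurd rfl (NeZero.ne 0)
  | succ k => rfl

/-- the unit `conj w` for a root of unity `w` -/
noncomputable def a7unit (n : ℕ) [NeZero n] (w : ℂ) (hw : w ^ n = 1) : ℂˣ :=
  Units.ofPowEqOne (conj w) n (by rw [← map_pow, hw, map_one]) (NeZero.ne n)

theorem a7unit_pow (n : ℕ) [NeZero n] (w : ℂ) (hw : w ^ n = 1) : a7unit n w hw ^ n = 1 :=
  Units.pow_ofPowEqOne _ _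

theorem a7unit_conj (n : ℕ) [NeZero n] (w : ℂ) (hw : w ^ n = 1) (i : ℕ) :
    conj (((a7unit n w hw ^ i : ℂˣ) : ℂ)) = w ^ i := by
  rw [Units.val_pow_eq_pow_val, map_pow]
  show conj (conj w) ^ i = w ^ i
  rw [Complex.conj_conj]

end Cfsg.Agent.Helper73
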