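import Mathlib
import Cfsg.Agent.Helper81.SectionChar
import Cfsg.Agent.Helper73.A7MULTAux

/-!
# CALL S0984 (helper82), piece MULT12
-/

set_option autoImplicit false
open Cfsg
open scoped ComplexConjugate

universe u

namespace Cfsg.Agent.Helper73

/-- PIECE MULT12 -/
theorem a7_mult12 {G : Type u} [Group G] [Finite G] (χ : Cfsg.IrrCharacter G) (d k k' : G)
    (hd : d ^ 3 = 1) (hk : k ^ 2 = 1) (hk' : k' ^ 2 = 1) (hdk : d * k = k * d)
    (hdk' : d * k' = k' * d) (hkk' : k * k' = k' * k) (w s s' : ℂ) (hw : w ^ 3 = 1)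
    (hs : s ^ 2 = 1) (hs' : s' ^ 2 = 1) :
    ∃ n : ℕ, ∑ i ∈ Finset.range 3, ∑ j ∈ Finset.range 2, ∑ l ∈ Finset.range 2,
      (χ : G → ℂ) (d ^ i * k ^ j * k' ^ l) * (w ^ i * s ^ j * s' ^ l) = 12 * (n : ℂ) := by
  classical
  have hc1 : Commute d k := hdk
  have hc2 : Commute d k' := hdk'
  have hc3 : Commute k k' := hkk'
  let ι₂ : Multiplicative (ZMod 2) × Multiplicative (ZMod 2) →* G :=
    (a7cyc 2 k hk).noncommCoprod (a7cyc 2 k' hk') (fun a b => hc3.pow_pow _ _)
  let ι : Multiplicative (ZMod 3) × Multiplicative (ZMod 2) × Multiplicative (ZMod 2) →* G :=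
    (a7cyc 3 d hd).noncommCoprod ι₂
      (fun a b => ((hc1.pow_pow _ _).mul_right (hc2.pow_pow _ _)))
  let lam : Multiplicative (ZMod 3) × Multiplicative (ZMod 2) × Multiplicative (ZMod 2) →* ℂˣ :=
    (a7cyc 3 (a7unit 3 w hw) (a7unit_pow 3 w hw)).coprod
      ((a7cyc 2 (a7unit 2 s hs) (a7unit_pow 2 s hs)).coprod
        (a7cyc 2 (a7unit 2 s' hs') (a7unit_pow 2 s' hs')))
  obtain ⟨n, hn⟩ := Helper81.exists_linMult χ ι lam
  refine ⟨n, ?_⟩
  have hcard : (Fintype.card
      (Multiplicative (ZMod 3) × Multiplicative (ZMod 2) × Multiplicative (ZMod 2)) : ℂ) = 12 := by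
    rw [Fintype.card_prod, Fintype.card_prod, Fintype.card_multiplicative,
      Fintype.card_multiplicative, ZMod.card, ZMod.card]
    norm_num
  rw [hcard] at hn
  have key : ∀ (a : Multiplicative (ZMod 3)) (b c : Multiplicative (ZMod 2)),
      (χ : G → ℂ) (ι (a, b, c)) * conj ((lam (a, b, c) : ℂˣ) : ℂ) =
      (χ : G → ℂ) (d ^ (Multiplicative.toAdd a).val * k ^ (Multiplicative.toAdd b).val *
          k' ^ (Multiplicative.toAdd c).val) *
        (w ^ (Multiplicative.toAdd a).val * s ^ (Multiplicative.toAdd b).val *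
          s' ^ (Multiplicative.toAdd c).val) := by
    intro a b c
    have h1 : ι (a, b, c) = d ^ (Multiplicative.toAdd a).val *
        (k ^ (Multiplicative.toAdd b).val * k' ^ (Multiplicative.toAdd c).val) := rfl
    have h2 : lam (a, b, c) = a7unit 3 w hw ^ (Multiplicative.toAdd a).val *
        (a7unit 2 s hs ^ (Multiplicative.toAdd b).val *
          a7unit 2 s' hs' ^ (Multiplicative.toAdd c).val) := rfl
    rw [h1, h2, Units.val_mul, Units.val_mul, map_mul, map_mul, a7unit_conj, a7unit_conj,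
      a7unit_conj, mul_assoc, mul_assoc (w ^ _)]
  rw [← hn, Fintype.sum_prod_type]
  simp only [Fintype.sum_prod_type, key]
  rw [a7_sum_cyc 3 (fun i => ∑ b : Multiplicative (ZMod 2), ∑ c : Multiplicative (ZMod 2),
    (χ : G → ℂ) (d ^ i * k ^ (Multiplicative.toAdd b).val * k' ^ (Multiplicative.toAdd c).val) *
      (w ^ i * s ^ (Multiplicative.toAdd b).val * s' ^ (Multiplicative.toAdd c).val))]
  refine Finset.sum_congr rfl (fun i _ => ?_)
  rw [a7_sum_cyc 2 (fun j => ∑ c : Multiplicative (ZMod 2),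
    (χ : G → ℂ) (d ^ i * k ^ j * k' ^ (Multiplicative.toAdd c).val) *
      (w ^ i * s ^ j * s' ^ (Multiplicative.toAdd c).val))]
  refine Finset.sum_congr rfl (fun j _ => ?_)
  rw [a7_sum_cyc 2 (fun l => (χ : G → ℂ) (d ^ i * k ^ j * k' ^ l) * (w ^ i * s ^ j * s' ^ l))]

end Cfsg.Agent.Helper73
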