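import Mathlib
import Cfsg.Agent.Helper81.SectionChar
import Cfsg.Agent.Helper73.A7MULTAux

/-!
# CALL S0984 (helper82), piece MULT9
-/

set_option autoImplicit false
open Cfsg
open scoped ComplexConjugate

universe u

namespace Cfsg.Agent.Helper73

/-- PIECE MULT9 -/
theorem a7_mult9 {G : Type u} [Group G] [Finite G] (χ : Cfsg.IrrCharacter G) (d e : G)
    (hd : d ^ 3 = 1) (he : e ^ 3 = 1) (hde : d * e = e * d) (w w' : ℂ) (hw : w ^ 3 = 1)
    (hw' : w' ^ 3 = 1) :
    ∃ n : ℕ, ∑ i ∈ Finset.range 3, ∑ j ∈ Finset.range 3,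
      (χ : G → ℂ) (d ^ i * e ^ j) * (w ^ i * w' ^ j) = 9 * (n : ℂ) := by
  classical
  have hcomm : Commute d e := hde
  let ι : Multiplicative (ZMod 3) × Multiplicative (ZMod 3) →* G :=
    (a7cyc 3 d hd).noncommCoprod (a7cyc 3 e he) (fun a b => hcomm.pow_pow _ _)
  let lam : Multiplicative (ZMod 3) × Multiplicative (ZMod 3) →* ℂˣ :=
    (a7cyc 3 (a7unit 3 w hw) (a7unit_pow 3 w hw)).coprod
      (a7cyc 3 (a7unit 3 w' hw') (a7unit_pow 3 w' hw'))
  obtain ⟨n, hn⟩ := Helper81.exists_linMult χ ι lam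
  refine ⟨n, ?_⟩
  have hcard : (Fintype.card (Multiplicative (ZMod 3) × Multiplicative (ZMod 3)) : ℂ) = 9 := by
    rw [Fintype.card_prod, Fintype.card_multiplicative, ZMod.card]
    norm_num
  rw [hcard] at hn
  have key : ∀ (a b : Multiplicative (ZMod 3)),
      (χ : G → ℂ) (ι (a, b)) * conj ((lam (a, b) : ℂˣ) : ℂ) =
      (χ : G → ℂ) (d ^ (Multiplicative.toAdd a).val * e ^ (Multiplicative.toAdd b).val) *
        (w ^ (Multiplicative.toAdd a).val * w' ^ (Multiplicative.toAdd b).val) := by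
    intro a b
    have h1 : ι (a, b) = d ^ (Multiplicative.toAdd a).val * e ^ (Multiplicative.toAdd b).val := rfl
    have h2 : lam (a, b) = a7unit 3 w hw ^ (Multiplicative.toAdd a).val *
        a7unit 3 w' hw' ^ (Multiplicative.toAdd b).val := rfl
    rw [h1, h2, Units.val_mul, map_mul, a7unit_conj, a7unit_conj]
  rw [← hn, Fintype.sum_prod_type]
  simp only [key]
  rw [a7_sum_cyc 3 (fun i => ∑ b : Multiplicative (ZMod 3),
    (χ : G → ℂ) (d ^ i * e ^ (Multiplicative.toAdd b).val) *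
      (w ^ i * w' ^ (Multiplicative.toAdd b).val))]
  refine Finset.sum_congr rfl (fun i _ => ?_)
  rw [a7_sum_cyc 3 (fun j => (χ : G → ℂ) (d ^ i * e ^ j) * (w ^ i * w' ^ j))]

end Cfsg.Agent.Helper73
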