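import Mathlib
import Cfsg.Agent.Helper9.BRDefs
import Cfsg.Agent.Helper9.OrdTools
import Cfsg.Agent.Helper75.BRT1
import Cfsg.Agent.Helper75.BRT3
import Cfsg.Agent.Helper78.StructConst

/-!
# CALL S0984 (helper82), piece SCB: the class multiplication constant of two involutions and an
element of order 7
-/

set_option autoImplicit false
set_option linter.style.haveILetI false
open Cfsg
open scoped ComplexConjugate

universe u

namespace Cfsg.Agent.Helper73

/-- PIECE SCB -/
theorem a7_struct_const {G : Type u} [Group G] [Fintype G]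
    {M : Ideal Cfsg.AlgInt} (hM : Cfsg.IsPModular 7 M) (P : Sylow 7 G)
    (hP : Nat.card (P : Subgroup G) = 7)
    (hC : Nat.card (Subgroup.centralizer ((P : Subgroup G) : Set G)) = 7)
    (hN : Nat.card (Subgroup.normalizer ((P : Subgroup G) : Set G)) = 21)
    (T : Cfsg.Agent.Helper9.BRTab 7 M P 3) (t : G) (ht : orderOf t = 2)
    (θ : Cfsg.IrrCharacter G) (hθ : θ ∈ T.Y) :
    1 + ∑ χ ∈ T.X1, (χ : G → ℂ) t ^ 2 / (χ : G → ℂ) 1
      - ∑ χ ∈ T.X2, (χ : G → ℂ) t ^ 2 / (χ : G → ℂ) 1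
      - (T.ε : ℂ) * (θ : G → ℂ) t ^ 2 / (θ : G → ℂ) 1 = 0 := by
  classical
  haveI : Fact (Nat.Prime 7) := ⟨by norm_num⟩
  letI : Fintype (Cfsg.IrrCharacter G) := Fintype.ofFinite _
  -- a nontrivial element of `P`
  obtain ⟨y, hyP, hy1⟩ : ∃ y : G, y ∈ (P : Subgroup G) ∧ y ≠ 1 := by
    have h1 : 1 < Nat.card (P : Subgroup G) := by rw [hP]; norm_num
    haveI : Nontrivial (P : Subgroup G) := Finite.one_lt_card_iff_nontrivial.mp h1
    obtain ⟨y, hy⟩ := exists_ne (1 : (P : Subgroup G))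
    exact ⟨y.1, y.2, fun h => hy (Subtype.ext h)⟩
  have hyi : y⁻¹ ∈ (P : Subgroup G) := inv_mem hyP
  have hyi1 : y⁻¹ ≠ 1 := fun h => hy1 (inv_eq_one.mp h)
  have ht2 : t ^ 2 = 1 := by rw [← ht]; exact pow_orderOf_eq_one t
  have ht1 : t ≠ 1 := by
    rintro rfl
    rw [orderOf_one] at ht
    norm_num at ht
  have hzp : Subgroup.zpowers y = (P : Subgroup G) :=
    Cfsg.Agent.Helper9.OrdTools.zpowers_eq_sylow P hP hyP hy1
  have hmain := Helper78.sum_irr_omega_mul_mul_inv (Helper81.classInd_isClassFunction t) t y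
  simp only [Helper81.omega_classInd] at hmain
  -- the right-hand side vanishes
  have hRHS : ∑ g : G, Helper81.classInd t g *
      ((Finset.univ.filter (fun x : G => x * (g * t) * x⁻¹ = y)).card : ℂ) = 0 := by
    apply Finset.sum_eq_zero
    intro g _
    by_cases hg : IsConj t g
    · have hempty : (Finset.univ.filter (fun x : G => x * (g * t) * x⁻¹ = y)) = ∅ := by
        rw [Finset.filter_eq_empty_iff]
        intro x _ hx
        obtain ⟨c, hc⟩ := isConj_iff.mp hg
        have hg2 : g ^ 2 = 1 := by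
          rw [← hc, conj_pow, ht2, mul_one, mul_inv_cancel]
        have hg1 : g ≠ 1 := by
          intro h
          rw [h] at hc
          exact ht1 (conj_eq_one_iff.mp hc)
        obtain ⟨a, ha⟩ : ∃ a : G, a = x * g * x⁻¹ := ⟨_, rfl⟩
        obtain ⟨b, hb⟩ : ∃ b : G, b = x * t * x⁻¹ := ⟨_, rfl⟩
        have ha2 : a ^ 2 = 1 := by rw [ha, conj_pow, hg2, mul_one, mul_inv_cancel]
        have hb2 : b ^ 2 = 1 := by rw [hb, conj_pow, ht2, mul_one, mul_inv_cancel]
        have ha1 : a ≠ 1 := by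
          intro h
          rw [ha] at h
          exact hg1 (conj_eq_one_iff.mp h)
        have hab : a * b = y := by
          rw [← hx, ha, hb]
          group
        have ha' : a⁻¹ = a := inv_eq_of_mul_eq_one_left (by rw [← pow_two]; exact ha2)
        have hb' : b⁻¹ = b := inv_eq_of_mul_eq_one_left (by rw [← pow_two]; exact hb2)
        have hinv : a * y * a⁻¹ = y⁻¹ := by
          rw [← hab, mul_inv_rev, ha', hb', ← mul_assoc, ← pow_two, ha2, one_mul]
        have hfwd : ∀ z ∈ (P : Subgroup G), a * z * a⁻¹ ∈ (P : Subgroup G) := by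
          intro z hz
          rw [← hzp] at hz ⊢
          obtain ⟨k, rfl⟩ := Subgroup.mem_zpowers_iff.mp hz
          rw [← conj_zpow, hinv]
          exact Subgroup.zpow_mem _ (Subgroup.inv_mem _ (Subgroup.mem_zpowers y)) k
        have haN : a ∈ Subgroup.normalizer ((P : Subgroup G) : Set G) := by
          rw [Subgroup.mem_normalizer_iff]
          intro z
          constructor
          · exact hfwd z
          · intro hz
            have h3 := hfwd _ hz
            have e : a * (a * z * a⁻¹) * a⁻¹ = z := by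
              rw [ha']
              calc a * (a * z * a) * a = (a * a) * z * (a * a) := by simp only [mul_assoc]
                _ = z := by rw [← pow_two, ha2, one_mul, mul_one]
            rwa [e] at h3
        have hord : orderOf a = 2 := orderOf_eq_prime ha2 ha1
        have hdvd := Subgroup.orderOf_dvd_natCard _ haN
        rw [hord, hN] at hdvd
        norm_num at hdvd
      rw [hempty]
      simp
    · have h0 : Helper81.classInd t g = 0 := by
        unfold Helper81.classInd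
        exact if_neg hg
      rw [h0, zero_mul]
  rw [hRHS] at hmain
  have hc0 : ((Subgroup.centralizer ({t} : Set G)).index : ℂ) ≠ 0 := by
    exact_mod_cast Subgroup.index_ne_zero_of_finite
  let F : Cfsg.IrrCharacter G → ℂ :=
    fun χ => (χ : G → ℂ) t ^ 2 * (χ : G → ℂ) y⁻¹ / (χ : G → ℂ) 1
  have hsum : ∑ χ : Cfsg.IrrCharacter G, F χ = 0 := by
    have h1 : ∑ χ : Cfsg.IrrCharacter G,
        Cfsg.centralChar (χ : G → ℂ) t * (χ : G → ℂ) t * (χ : G → ℂ) y⁻¹ =
        ((Subgroup.centralizer ({t} : Set G)).index : ℂ) * ∑ χ : Cfsg.IrrCharacter G, F χ := by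
      rw [Finset.mul_sum]
      refine Finset.sum_congr rfl (fun χ _ => ?_)
      simp only [F, Cfsg.centralChar]
      ring
    rw [h1] at hmain
    exact (mul_eq_zero.mp hmain).resolve_left hc0
  have hvan : ∀ χ : Cfsg.IrrCharacter G,
      χ ∉ insert (Helper81.trivIrr G) (T.X1 ∪ (T.X2 ∪ T.Y)) → (χ : G → ℂ) y⁻¹ = 0 := by
    intro χ hχ
    apply Helper75.br_vanish hM P hP hC χ _ y⁻¹ hyi hyi1
    intro hmem
    apply hχ
    rw [T.hB χ] at hmem
    simp only [Finset.mem_insert, Finset.mem_union]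
    exact hmem
  have hsum2 : ∑ χ ∈ insert (Helper81.trivIrr G) (T.X1 ∪ (T.X2 ∪ T.Y)), F χ = 0 := by
    rw [← hsum]
    apply Finset.sum_subset (Finset.subset_univ _)
    intro χ _ hχ
    simp only [F]
    rw [hvan χ hχ, mul_zero, zero_div]
  have h1 : Helper81.trivIrr G ∉ T.X1 ∪ (T.X2 ∪ T.Y) := by
    simp only [Finset.mem_union, not_or]
    exact ⟨T.h1X1, T.h1X2, T.h1Y⟩
  have h2 : Disjoint T.X1 (T.X2 ∪ T.Y) := by
    rw [Finset.disjoint_union_right]
    exact ⟨T.hX12, T.hX1Y⟩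
  rw [Finset.sum_insert h1, Finset.sum_union h2, Finset.sum_union T.hX2Y] at hsum2
  have e0 : F (Helper81.trivIrr G) = 1 := by
    simp [F, Helper81.trivIrr_apply]
  have e1 : ∑ χ ∈ T.X1, F χ = ∑ χ ∈ T.X1, (χ : G → ℂ) t ^ 2 / (χ : G → ℂ) 1 := by
    refine Finset.sum_congr rfl (fun χ hχ => ?_)
    simp only [F]
    rw [Helper75.br_X1_val T χ hχ y⁻¹ hyi hyi1, mul_one]
  have e2 : ∑ χ ∈ T.X2, F χ = -∑ χ ∈ T.X2, (χ : G → ℂ) t ^ 2 / (χ : G → ℂ) 1 := by
    rw [← Finset.sum_neg_distrib]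
    refine Finset.sum_congr rfl (fun χ hχ => ?_)
    simp only [F]
    rw [Helper75.br_X2_val T χ hχ y⁻¹ hyi hyi1]
    ring
  have e3 : ∑ θ' ∈ T.Y, F θ' = -((T.ε : ℂ) * (θ : G → ℂ) t ^ 2 / (θ : G → ℂ) 1) := by
    have hreg_t : ¬ 7 ∣ orderOf t := by rw [ht]; norm_num
    have hreg_1 : ¬ 7 ∣ orderOf (1 : G) := Helper75.br_one_reg
    have h3 : ∀ θ' ∈ T.Y, F θ' = (θ : G → ℂ) t ^ 2 / (θ : G → ℂ) 1 * (θ' : G → ℂ) y⁻¹ := by
      intro θ' hθ'
      simp only [F]
      rw [T.hYreg θ' hθ' θ hθ t hreg_t, T.hYreg θ' hθ' θ hθ 1 hreg_1]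
      ring
    rw [Finset.sum_congr rfl h3, ← Finset.mul_sum,
      Helper75.br_theta_sum hM T ⟨θ, hθ⟩ y⁻¹ hyi hyi1]
    ring
  rw [e0, e1, e2, e3] at hsum2
  linear_combination hsum2

end Cfsg.Agent.Helper73
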