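import Cfsg.Agent.Helper73.HeightZero
import Cfsg.Agent.Helper76.CentralChar
import Cfsg.Agent.Helper77.Defect
import Cfsg.Agent.Helper77.ClassSum

/-!
# Characters of "defect zero modulo a central `p`-subgroup"

Let `D` be a central `p`-subgroup of `G` and `χ` irreducible with `ν_p(χ(1)) = ν_p(|G:D|)`. Then
`χ` vanishes at every element whose `p`-part is not in `D`, `χ` has height zero in its block, and
`D` is a defect group of that block.
-/

set_option autoImplicit false
open Cfsg
open scoped ComplexConjugate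

namespace Cfsg.Agent.Helper73

universe u

variable {G : Type u} [Group G]

/-- If `h` is `p`-regular, `w` a `p`-element commuting with `h`, and `h * w` is `p`-regular, then
`w = 1`. -/
theorem eq_one_of_pRegular_mul {p : ℕ} (hp : p.Prime) {h w : G} (hcomm : Commute h w)
    (hh : ¬ p ∣ orderOf h) (hw : ∃ k : ℕ, orderOf w = p ^ k) (hhw : ¬ p ∣ orderOf (h * w)) :
    w = 1 := by
  obtain ⟨k, hk⟩ := hw
  have hco : (orderOf h).Coprime (orderOf w) := by
    rw [hk]
    exact Nat.Coprime.pow_right k ((Nat.Prime.coprime_iff_not_dvd hp).mpr hh).symm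
  rw [hcomm.orderOf_mul_eq_mul_orderOf_of_coprime hco, hk] at hhw
  by_contra hne
  have hk0 : k ≠ 0 := by
    rintro rfl
    rw [pow_zero, orderOf_eq_one_iff] at hk
    exact hne hk
  exact hhw (Dvd.dvd.mul_left (dvd_pow_self p hk0) _)

variable [Fintype G]

theorem central_defect_key {p : ℕ} {M : Ideal Cfsg.AlgInt} (hM : Cfsg.IsPModular p M)
    (D : Subgroup G) (hD : IsPGroup p D) (hDZ : D ≤ Subgroup.center G)
    (χ : Cfsg.IrrCharacter G)
    (hdeg : (Cfsg.charDegree (χ : G → ℂ)).factorization p = D.index.factorization p) :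
    Cfsg.blockHeight p (Cfsg.blockOf M (χ : G → ℂ)) (χ : G → ℂ) = 0 ∧
      ∀ g x : G, Cfsg.IsPPart p g x → x ∉ D → (χ : G → ℂ) g = 0 := by
  classical
  have hp := hM.1
  have hpf : Fact p.Prime := ⟨hp⟩
  have hMm := hM.2.1
  have hMp : M.IsPrime := hMm.isPrime
  have : Fintype D := Fintype.ofFinite D
  have hG : (Nat.card G : ℂ) ≠ 0 := by exact_mod_cast Nat.card_pos.ne'
  have hB : Cfsg.IsPBlock M (Cfsg.blockOf M (χ : G → ℂ)) := ⟨χ, rfl⟩
  have hχ : χ ∈ Cfsg.blockOf M (χ : G → ℂ) := Helper81.mem_blockOf_self χ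
  -- the central scalars
  obtain ⟨c, hc⟩ := Helper76.exists_central_scalar D.subtype (fun z => hDZ z.2) χ
  have hc1 := Helper76.scalar_mul D.subtype (χ : G → ℂ) (Helper81.irr_one_ne_zero χ) c hc
  have hcn : ∀ z : D, Complex.normSq (c z) = 1 := by
    intro z
    have h1 := Helper76.scalar_norm c hc1.1 hc1.2 z
    rw [Complex.mul_conj] at h1
    exact_mod_cast h1
  obtain ⟨F, hF⟩ : ∃ F : G → ℝ, ∀ g, F g = Complex.normSq ((χ : G → ℂ) g) := ⟨_, fun _ => rfl⟩
  have hFnn : ∀ g, 0 ≤ F g := fun g => by rw [hF]; exact Complex.normSq_nonneg _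
  have hFc : ∀ g, (χ : G → ℂ) g * conj ((χ : G → ℂ) g) = ((F g : ℝ) : ℂ) := fun g => by
    rw [hF, Complex.mul_conj]
  have hFz : ∀ (z : D) (h : G), F (h * (z : G)) = F h := by
    intro z h
    have h1 := hc z h
    rw [Subgroup.coe_subtype] at h1
    rw [hF, hF, h1, Complex.normSq_mul, hcn, one_mul]
  obtain ⟨Q, hQ⟩ : ∃ Q : ℝ, Q = ∑ h : G, if ¬ p ∣ orderOf h then F h else 0 := ⟨_, rfl⟩
  have hQc : Helper77.pregInner p (χ : G → ℂ) (χ : G → ℂ) = (Q : ℂ) := by
    unfold Helper77.pregInner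
    rw [hQ, Complex.ofReal_sum]
    refine Finset.sum_congr rfl fun x _ => ?_
    by_cases hx : p ∣ orderOf x
    · simp [hx]
    · simp only [hx, not_false_eq_true, if_true]
      exact hFc x
  have hFsum : ∑ g : G, F g = (Nat.card G : ℝ) := by
    have h1 := Helper15.irr_inner χ χ
    rw [if_pos rfl] at h1
    unfold Cfsg.classInner at h1
    rw [inv_mul_eq_iff_eq_mul₀ hG, mul_one] at h1
    have h2 : ((∑ g : G, F g : ℝ) : ℂ) = ((Nat.card G : ℝ) : ℂ) := by
      rw [Complex.ofReal_sum, Complex.ofReal_natCast, ← h1]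
      exact Finset.sum_congr rfl fun g _ => (hFc g).symm
    exact_mod_cast h2
  -- double counting
  have hdc : ∀ z : D, ∑ g : G, (if ¬ p ∣ orderOf (g * (z : G)⁻¹) then F g else 0) = Q := by
    intro z
    rw [hQ]
    apply Fintype.sum_equiv (Equiv.mulRight (z : G)⁻¹)
    intro g
    simp only [Equiv.coe_mulRight]
    by_cases h : p ∣ orderOf (g * (z : G)⁻¹)
    · simp [h]
    · simp only [h, not_false_eq_true, if_true]
      have h1 := hFz z (g * (z : G)⁻¹)
      rw [inv_mul_cancel_right] at h1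
      exact h1
  have hDp : ∀ w : D, ∃ k : ℕ, orderOf (w : G) = p ^ k := fun w => by
    rw [Subgroup.orderOf_coe]
    exact IsPGroup.iff_orderOf.mp hD w
  have huniq : ∀ g : G, ∀ z z' : D, ¬ p ∣ orderOf (g * (z : G)⁻¹) →
      ¬ p ∣ orderOf (g * (z' : G)⁻¹) → z = z' := by
    intro g z z' hz hz'
    have hw := hDp (z * z'⁻¹)
    have hcomm : Commute (g * (z : G)⁻¹) ((z * z'⁻¹ : D) : G) :=
      (Subgroup.mem_center_iff.mp (hDZ (z * z'⁻¹).2) _)
    have hprod : g * (z : G)⁻¹ * ((z * z'⁻¹ : D) : G) = g * (z' : G)⁻¹ := by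
      push_cast
      group
    have h1 := eq_one_of_pRegular_mul hp hcomm hz hw (by rw [hprod]; exact hz')
    have h2 : z * z'⁻¹ = 1 := Subtype.ext h1
    exact mul_inv_eq_one.mp h2
  have hinner : ∀ g : G,
      ∑ z : D, (if ¬ p ∣ orderOf (g * (z : G)⁻¹) then F g else 0) ≤ F g := by
    intro g
    rw [← Finset.sum_filter, Finset.sum_const, nsmul_eq_mul]
    have hcard : (Finset.univ.filter (fun z : D => ¬ p ∣ orderOf (g * (z : G)⁻¹))).card ≤ 1 := by
      rw [Finset.card_le_one]
      intro a ha b hb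
      simp only [Finset.mem_filter, Finset.mem_univ, true_and] at ha hb
      exact huniq g a b ha hb
    have h1 : ((Finset.univ.filter (fun z : D => ¬ p ∣ orderOf (g * (z : G)⁻¹))).card : ℝ)
        ≤ 1 := by exact_mod_cast hcard
    exact mul_le_of_le_one_left (hFnn g) h1
  have hDQ : (Nat.card D : ℝ) * Q = ∑ g : G, ∑ z : D,
      (if ¬ p ∣ orderOf (g * (z : G)⁻¹) then F g else 0) := by
    rw [Finset.sum_comm, Finset.sum_congr rfl fun z _ => hdc z, Finset.sum_const,
      Finset.card_univ, nsmul_eq_mul, Nat.card_eq_fintype_card]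
  -- the lower bound
  obtain ⟨s, hs⟩ : ∃ s, s = (Cfsg.charDegree (χ : G → ℂ)).factorization p := ⟨_, rfl⟩
  obtain ⟨N, hN⟩ : ∃ N, N = Nat.card G / p ^ (Nat.card G).factorization p := ⟨_, rfl⟩
  have hpN : ¬ p ∣ N := by
    rw [hN]
    exact Nat.not_dvd_ordCompl hp Nat.card_pos.ne'
  have hN0 : 0 < N := Nat.pos_of_ne_zero (fun h => hpN (h ▸ dvd_zero p))
  obtain ⟨m, hm⟩ := pregTilde_classInner_int hp χ χ
  have hQm : Q = (N : ℝ) * (m : ℝ) := by
    have h1 := pregInner_eq_ordCompl_mul p hp (χ : G → ℂ) (χ : G → ℂ)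
    rw [hQc, hm, ← hN] at h1
    exact_mod_cast h1
  have h1reg : ¬ p ∣ orderOf (1 : G) := by
    rw [orderOf_one]
    exact hp.one_lt.ne' ∘ Nat.dvd_one.mp
  have hQpos : 0 < Q := by
    have h1 : (if ¬ p ∣ orderOf (1 : G) then F 1 else 0) ≤ Q := by
      rw [hQ]
      exact Finset.single_le_sum (f := fun h : G => if ¬ p ∣ orderOf h then F h else 0)
        (fun h _ => by split_ifs <;> simp [hFnn]) (Finset.mem_univ 1)
    rw [if_pos h1reg] at h1
    have h2 : 0 < F 1 := by
      rw [hF]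
      exact Complex.normSq_pos.mpr (Helper81.irr_one_ne_zero χ)
    linarith
  have hmpos : 0 < m := by
    have h1 : (0 : ℝ) < (N : ℝ) * (m : ℝ) := hQm ▸ hQpos
    have h2 : (0 : ℝ) < (N : ℝ) := by exact_mod_cast hN0
    have h3 : (0 : ℝ) < (m : ℝ) := by
      by_contra h
      push Not at h
      nlinarith
    exact_mod_cast h3
  have hmdvd : ((p : ℤ) ^ s) ∣ m := by
    have h1 := (classInner_val_iff hM χ χ m hm).1 hmpos.ne'
    rw [← hs] at h1
    exact (padicValInt_dvd_iff s m).mpr (Or.inr h1)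
  have hmle : ((p : ℤ) ^ s) ≤ m := Int.le_of_dvd hmpos hmdvd
  obtain ⟨n, hn⟩ := IsPGroup.iff_card.mp hD
  have hidx : D.index ≠ 0 := Subgroup.index_ne_zero_of_finite
  have hcardG : Nat.card G = p ^ n * p ^ s * N := by
    have h1 : Nat.card D * D.index = Nat.card G := Subgroup.card_mul_index D
    have h2 : (Nat.card G).factorization p = n + s := by
      rw [← h1, Nat.factorization_mul Nat.card_pos.ne' hidx, hn, hs, hdeg]
      simp [hp.factorization_pow]
    rw [← pow_add, ← h2, hN]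
    exact (Nat.ordProj_mul_ordCompl_eq_self _ p).symm
  have hlow : (Nat.card G : ℝ) ≤ (Nat.card D : ℝ) * Q := by
    rw [hQm, hcardG, hn]
    push_cast
    have h1 : ((p : ℝ) ^ s) ≤ (m : ℝ) := by exact_mod_cast hmle
    have h2 : (0 : ℝ) ≤ (p : ℝ) ^ n * (N : ℝ) := by positivity
    nlinarith
  have hupp : (Nat.card D : ℝ) * Q ≤ (Nat.card G : ℝ) := by
    rw [hDQ, ← hFsum]
    exact Finset.sum_le_sum fun g _ => hinner g
  have hDQeq : (Nat.card D : ℝ) * Q = (Nat.card G : ℝ) := le_antisymm hupp hlow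
  constructor
  · -- height zero
    apply (hzc_not_memLocalIdeal_iff hM hB hχ hχ).mp
    intro hmem
    obtain ⟨u, hu⟩ : ∃ u, u = Cfsg.charDegree (χ : G → ℂ) / p ^ s := ⟨_, rfl⟩
    have hdegu : Cfsg.charDegree (χ : G → ℂ) = p ^ s * u := by
      rw [hu, hs]
      exact (Nat.ordProj_mul_ordCompl_eq_self _ p).symm
    have hQN : Q = (N : ℝ) * (p : ℝ) ^ s := by
      have h1 : (Nat.card D : ℝ) ≠ 0 := by exact_mod_cast Nat.card_pos.ne'
      apply mul_left_cancel₀ h1
      rw [hDQeq, hcardG, hn]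
      push_cast
      ring
    have hps : ((p : ℂ) ^ s) ≠ 0 := pow_ne_zero s (by exact_mod_cast hp.ne_zero)
    have hu0 : (u : ℂ) ≠ 0 := by
      intro h
      have h1 : u = 0 := by exact_mod_cast h
      rw [h1, mul_zero] at hdegu
      exact (Helper81.charDegree_pos χ).ne' hdegu
    have h1 : hzc p (χ : G → ℂ) (χ : G → ℂ) * (u : ℂ) = (N : ℂ) := by
      rw [hzc_eq, hQc, hQN, Helper81.irr_one_eq_charDegree, hdegu]
      push_cast
      field_simp
    have h2 := Helper77.memLocalIdeal_mul' hMm hmem (Helper81.memLocalRing_natCast hMm.ne_top u)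
    rw [h1] at h2
    exact Helper77.not_memLocalIdeal_natCast hM hpN h2
  · -- vanishing
    intro g x hpart hxD
    obtain ⟨y, hxy, hcomm, ⟨k, hk⟩, hy⟩ := hpart
    have hbad : ∑ z : D, (if ¬ p ∣ orderOf (g * (z : G)⁻¹) then F g else 0) = 0 := by
      apply Finset.sum_eq_zero
      intro z _
      rw [if_neg]
      intro hz
      apply hxD
      -- `g * z⁻¹ = y * (x * z⁻¹)`
      have hzc' : ∀ t : G, t * (z : G) = (z : G) * t := fun t =>
        Subgroup.mem_center_iff.mp (hDZ z.2) t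
      have hcomm2 : Commute y (x * (z : G)⁻¹) := by
        have h1 : Commute y x := hcomm.symm
        have h2 : Commute y (z : G)⁻¹ := (Commute.inv_right (hzc' y))
        exact h1.mul_right h2
      have hprod : y * (x * (z : G)⁻¹) = g * (z : G)⁻¹ := by
        rw [← hxy, ← mul_assoc, hcomm.symm.eq]
      obtain ⟨k', hk'⟩ := hDp z
      have hw : ∃ j : ℕ, orderOf (x * (z : G)⁻¹) = p ^ j := by
        have hxz : Commute x (z : G)⁻¹ := Commute.inv_right (hzc' x)
        have h1 : (x * (z : G)⁻¹) ^ (p ^ (k + k')) = 1 := by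
          have e1 : x ^ (p ^ (k + k')) = 1 :=
            orderOf_dvd_iff_pow_eq_one.mp (hk ▸ pow_dvd_pow p (Nat.le_add_right k k'))
          have e2 : (z : G) ^ (p ^ (k + k')) = 1 :=
            orderOf_dvd_iff_pow_eq_one.mp (hk' ▸ pow_dvd_pow p (Nat.le_add_left k' k))
          rw [hxz.mul_pow, e1, inv_pow, e2, inv_one, one_mul]
        obtain ⟨j, -, hj⟩ := (Nat.dvd_prime_pow hp).mp (orderOf_dvd_of_pow_eq_one h1)
        exact ⟨j, hj⟩
      have h1 := eq_one_of_pRegular_mul hp hcomm2 hy hw (by rw [hprod]; exact hz)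
      have h2 : x = (z : G) := by
        rw [mul_inv_eq_one] at h1
        exact h1
      rw [h2]
      exact z.2
    have h1 : (Nat.card D : ℝ) * Q + F g ≤ (Nat.card G : ℝ) := by
      rw [hDQ, ← hFsum, ← Finset.add_sum_erase _ _ (Finset.mem_univ g),
        ← Finset.add_sum_erase (f := F) _ (Finset.mem_univ g), hbad, zero_add, add_comm]
      have h2 : ∑ x ∈ Finset.univ.erase g, ∑ z : D,
          (if ¬ p ∣ orderOf (x * (z : G)⁻¹) then F x else 0)
          ≤ ∑ x ∈ Finset.univ.erase g, F x := Finset.sum_le_sum fun x _ => hinner x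
      linarith
    have h2 : F g = 0 := by
      have := hFnn g
      linarith
    rw [hF] at h2
    exact Complex.normSq_eq_zero.mp h2

/-- A central `p`-subgroup `D` with `ν_p(χ(1)) = ν_p(|G:D|)` is a defect group of the block of
`χ`. -/
theorem central_defect_group {p : ℕ} {M : Ideal Cfsg.AlgInt} (hM : Cfsg.IsPModular p M)
    (D : Subgroup G) (hD : IsPGroup p D) (hDZ : D ≤ Subgroup.center G)
    (χ : Cfsg.IrrCharacter G)
    (hdeg : (Cfsg.charDegree (χ : G → ℂ)).factorization p = D.index.factorization p) :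
    Cfsg.IsDefectGroup p M (Cfsg.blockOf M (χ : G → ℂ)) D := by
  classical
  have hp := hM.1
  have hpf : Fact p.Prime := ⟨hp⟩
  have hMm := hM.2.1
  have hMp : M.IsPrime := hMm.isPrime
  have hB : Cfsg.IsPBlock M (Cfsg.blockOf M (χ : G → ℂ)) := ⟨χ, rfl⟩
  have hχ : χ ∈ Cfsg.blockOf M (χ : G → ℂ) := Helper81.mem_blockOf_self χ
  have h0 := (central_defect_key hM D hD hDZ χ hdeg).1
  have hadd := Helper16.factorization_charDegree_add_blockDefect hχ h0
  obtain ⟨g, hg⟩ := Helper77.exists_isDefectClass hMm hB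
  have hDC : D ≤ Subgroup.centralizer ({g} : Set G) := by
    intro z hz
    rw [Subgroup.mem_centralizer_iff]
    intro y hy
    rw [Set.mem_singleton_iff] at hy
    subst hy
    exact Subgroup.mem_center_iff.mp (hDZ hz) y
  have hD' : IsPGroup p (D.subgroupOf (Subgroup.centralizer ({g} : Set G))) := hD.comap_subtype
  obtain ⟨Q, hQ⟩ := hD'.exists_le_sylow
  have hDG : Cfsg.IsDefectGroup p M (Cfsg.blockOf M (χ : G → ℂ))
      ((Q : Subgroup (Subgroup.centralizer ({g} : Set G))).map
        (Subgroup.centralizer ({g} : Set G)).subtype) := ⟨g, hg, Q, rfl⟩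
  have hcard := Helper77.card_of_isDefectGroup hM hB hDG
  have hle : D ≤ (Q : Subgroup (Subgroup.centralizer ({g} : Set G))).map
      (Subgroup.centralizer ({g} : Set G)).subtype := by
    intro z hz
    exact ⟨⟨z, hDC hz⟩, hQ (Subgroup.mem_subgroupOf.mpr hz), rfl⟩
  have hcardD : Nat.card D = p ^ Cfsg.blockDefect p (Cfsg.blockOf M (χ : G → ℂ)) := by
    obtain ⟨n, hn⟩ := IsPGroup.iff_card.mp hD
    have hidx : D.index ≠ 0 := Subgroup.index_ne_zero_of_finite
    have h1 : Nat.card D * D.index = Nat.card G := Subgroup.card_mul_index D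
    have h2 : (Nat.card G).factorization p = n + D.index.factorization p := by
      rw [← h1, Nat.factorization_mul Nat.card_pos.ne' hidx, hn]
      simp [hp.factorization_pow]
    rw [hn]
    congr 1
    omega
  have heq : D = (Q : Subgroup (Subgroup.centralizer ({g} : Set G))).map
      (Subgroup.centralizer ({g} : Set G)).subtype :=
    Subgroup.eq_of_le_of_card_ge hle (by rw [hcard, hcardD])
  rw [heq]
  exact hDG

end Cfsg.Agent.Helper73
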