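import Mathlib
import Cfsg.Agent.Helper73.ElemAb2

set_option autoImplicit false

namespace Cfsg.Agent.Helper73

open scoped commutatorElement

/-- The chain `C, [C, F], [C, F, F], ...`. -/
def commChain {Γ : Type*} [Group Γ] (C F : Subgroup Γ) : ℕ → Subgroup Γ
  | 0 => C
  | (k + 1) => ⁅commChain C F k, F⁆

/-- In a group `Γ = F I` with `F` a normal nilpotent subgroup of odd order and `I` an elementary
abelian 2-subgroup, a maximal abelian subgroup of `F` normal in `Γ` is self-centralizing in `F`. -/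
theorem exists_selfCentralizing {Γ : Type*} [Group Γ] [Finite Γ] (F I : Subgroup Γ) [F.Normal]
    (hFnil : Group.IsNilpotent F) (hFodd : Odd (Nat.card F))
    (hI2 : ∀ t ∈ I, t ^ 2 = 1) (hIc : ∀ s ∈ I, ∀ t ∈ I, s * t = t * s) (hFI : F ⊔ I = ⊤) :
    ∃ A : Subgroup Γ, A ≤ F ∧ A.Normal ∧ (∀ a ∈ A, ∀ b ∈ A, a * b = b * a) ∧
      F ⊓ Subgroup.centralizer (A : Set Γ) ≤ A := by
  classical
  let P : Subgroup Γ → Prop := fun A => A ≤ F ∧ A.Normal ∧ ∀ a ∈ A, ∀ b ∈ A, a * b = b * a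
  have hP0 : P ⊥ := by
    refine ⟨bot_le, inferInstance, ?_⟩
    intro a ha b hb
    rw [Subgroup.mem_bot] at ha hb
    rw [ha, hb]
  obtain ⟨A, -, hA⟩ := Finite.exists_le_maximal hP0
  obtain ⟨⟨hAF, hAn, hAc⟩, hmax⟩ := hA
  refine ⟨A, hAF, hAn, hAc, ?_⟩
  by_contra hCA
  have := hAn
  -- the chain X k = [C, F, ..., F]
  let C : Subgroup Γ := F ⊓ Subgroup.centralizer (A : Set Γ)
  have hCn : C.Normal := inferInstance
  let X : ℕ → Subgroup Γ := commChain C F
  have hX0 : X 0 = C := rfl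
  have hXs : ∀ k, X (k + 1) = ⁅X k, F⁆ := fun k => rfl
  have hXC : ∀ k, X k ≤ C := by
    intro k
    induction k with
    | zero => exact le_refl _
    | succ k ih =>
      rw [hXs]
      exact (Subgroup.commutator_mono ih (le_refl F)).trans (Subgroup.commutator_le_left C F)
  have hXY : ∀ k, X k ≤ F.lowerCentralSeries k := by
    intro k
    induction k with
    | zero =>
      rw [hX0, Subgroup.lowerCentralSeries_zero]
      exact inf_le_left
    | succ k ih =>
      rw [hXs, Subgroup.lowerCentralSeries_succ]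
      exact Subgroup.commutator_mono ih (le_refl F)
  obtain ⟨n, hn⟩ := (Subgroup.isNilpotent_iff_lowerCentralSeries F).1 hFnil
  have hex : ∃ k, X k ≤ A := by
    refine ⟨n, ?_⟩
    have := hXY n
    rw [hn] at this
    exact this.trans bot_le
  have hstep : ∀ j, X j ≤ A → X 0 ≤ A ∨ ∃ k, ¬ X k ≤ A ∧ X (k + 1) ≤ A := by
    intro j
    induction j with
    | zero => exact fun h => Or.inl h
    | succ j ih =>
      intro h
      rcases Classical.em (X j ≤ A) with hj | hj
      · exact ih hj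
      · exact Or.inr ⟨j, hj, h⟩
  obtain ⟨n', hn'⟩ := hex
  obtain ⟨k, hXk, hXk1'⟩ : ∃ k, ¬ X k ≤ A ∧ X (k + 1) ≤ A := by
    rcases hstep n' hn' with h | h
    · exact absurd h hCA
    · exact h
  have hXk1 : ⁅X k, F⁆ ≤ A := hXk1'
  -- the subgroup W
  let π : Γ →* Γ ⧸ A := QuotientGroup.mk' A
  have hπs : Function.Surjective π := QuotientGroup.mk'_surjective A
  have hFπn : (F.map π).Normal := Subgroup.Normal.map inferInstance π hπs
  let Z : Subgroup Γ := (Subgroup.centralizer ((F.map π : Subgroup (Γ ⧸ A)) : Set (Γ ⧸ A))).comap π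
  have hZn : Z.Normal := inferInstance
  let W : Subgroup Γ := C ⊓ Z
  have hWn : W.Normal := inferInstance
  have hWF : W ≤ F := inf_le_left.trans inf_le_left
  have hWcentA : ∀ x ∈ W, ∀ a ∈ A, a * x = x * a := by
    intro x hx a ha
    exact Subgroup.mem_centralizer_iff.1 hx.1.2 a ha
  have hWcomm : ∀ x ∈ W, ∀ f ∈ F, x⁻¹ * f⁻¹ * x * f ∈ A := by
    intro x hx f hf
    have h1 : π x ∈ Subgroup.centralizer ((F.map π : Subgroup (Γ ⧸ A)) : Set (Γ ⧸ A)) := hx.2
    have h2 := Subgroup.mem_centralizer_iff.1 h1 (π f) (Subgroup.mem_map_of_mem π hf)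
    have h3 : π (x⁻¹ * f⁻¹ * x * f) = 1 := by
      rw [map_mul, map_mul, map_mul, map_inv, map_inv]
      calc (π x)⁻¹ * (π f)⁻¹ * π x * π f = (π x)⁻¹ * (π f)⁻¹ * (π x * π f) := by group
        _ = (π x)⁻¹ * (π f)⁻¹ * (π f * π x) := by rw [h2]
        _ = 1 := by group
    exact (QuotientGroup.eq_one_iff _).1 h3
  have hXW : X k ≤ W := by
    refine le_inf (hXC k) ?_
    intro x hx
    change π x ∈ Subgroup.centralizer ((F.map π : Subgroup (Γ ⧸ A)) : Set (Γ ⧸ A))
    rw [Subgroup.mem_centralizer_iff]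
    rintro _ ⟨f, hf, rfl⟩
    have h1 : ⁅x⁻¹, f⁻¹⁆ ∈ A :=
      hXk1 (Subgroup.commutator_mem_commutator ((X k).inv_mem hx) (F.inv_mem hf))
    rw [commutatorElement_def, inv_inv, inv_inv] at h1
    have h2 : π (x⁻¹ * f⁻¹ * x * f) = 1 := (QuotientGroup.eq_one_iff _).2 h1
    rw [map_mul, map_mul, map_mul, map_inv, map_inv] at h2
    have h3 : (π f * π x)⁻¹ * (π x * π f) = 1 := by
      rw [← h2]; group
    exact inv_mul_eq_one.1 h3
  have hWA : ¬ W ≤ A := fun h => hXk (hXW.trans h)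
  -- eigenvector in W / A
  have hMne : W.map π ≠ ⊥ := by
    rw [Ne, Subgroup.map_eq_bot_iff, QuotientGroup.ker_mk']
    exact hWA
  have hMn : (W.map π).Normal := Subgroup.Normal.map hWn π hπs
  have hMc : ∀ a ∈ W.map π, ∀ b ∈ W.map π, a * b = b * a := by
    rintro _ ⟨x, hx, rfl⟩ _ ⟨y, hy, rfl⟩
    have h1 := hWcomm x hx y (hWF hy)
    have h2 : π (x⁻¹ * y⁻¹ * x * y) = 1 := (QuotientGroup.eq_one_iff _).2 h1
    rw [map_mul, map_mul, map_mul, map_inv, map_inv] at h2
    have h3 : (π y * π x)⁻¹ * (π x * π y) = 1 := by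
      rw [← h2]; group
    exact (inv_mul_eq_one.1 h3).symm
  have hModd : Odd (Nat.card (W.map π)) :=
    Odd.of_dvd_nat hFodd ((Subgroup.card_map_dvd W π).trans (Subgroup.card_dvd_of_le hWF))
  have hIπ2 : ∀ t ∈ I.map π, t ^ 2 = 1 := by
    rintro _ ⟨t, ht, rfl⟩
    rw [← map_pow, hI2 t ht, map_one]
  have hIπc : ∀ s ∈ I.map π, ∀ t ∈ I.map π, s * t = t * s := by
    rintro _ ⟨s, hs, rfl⟩ _ ⟨t, ht, rfl⟩
    rw [← map_mul, ← map_mul, hIc s hs t ht]
  have hIπM : I.map π ≤ Subgroup.normalizer ((W.map π : Subgroup (Γ ⧸ A)) : Set (Γ ⧸ A)) := by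
    rw [Subgroup.normalizer_eq_top_iff.2 hMn]
    exact le_top
  obtain ⟨wbar, hwM, hwp, hweig⟩ :=
    exists_eigen_conj (W.map π) (I.map π) hMc hModd hMne hIπM hIπ2 hIπc
  obtain ⟨w, hwW, rfl⟩ := hwM
  have hwA : w ∉ A := by
    intro h
    have : π w = 1 := (QuotientGroup.eq_one_iff _).2 h
    rw [this, orderOf_one] at hwp
    exact Nat.not_prime_one hwp
  -- the bigger subgroup
  let B : Subgroup Γ := A ⊔ Subgroup.zpowers w
  have hwB : w ∈ B := Subgroup.mem_sup_right (Subgroup.mem_zpowers w)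
  have hAB : A ≤ B := le_sup_left
  have hBF : B ≤ F := sup_le hAF ((Subgroup.zpowers_le).2 (hWF hwW))
  have hBc : ∀ a ∈ B, ∀ b ∈ B, a * b = b * a :=
    comm_sup_zpowers A w hAc (fun a ha => hWcentA w hwW a ha)
  have hFB : F ≤ Subgroup.normalizer (B : Set Γ) := by
    apply le_normalizer_of_conj_mem
    intro g hg
    apply conj_mem_of_sup_zpowers
    · intro a ha
      exact hAB (hAn.conj_mem a ha g)
    · have h1 := hWcomm w hwW g⁻¹ (F.inv_mem hg)
      rw [inv_inv] at h1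
      have h2 : g * w * g⁻¹ = w * (w⁻¹ * g * w * g⁻¹) := by group
      rw [h2]
      exact B.mul_mem hwB (hAB h1)
  have hIB : I ≤ Subgroup.normalizer (B : Set Γ) := by
    apply le_normalizer_of_conj_mem
    intro t ht
    apply conj_mem_of_sup_zpowers
    · intro a ha
      exact hAB (hAn.conj_mem a ha t)
    · rcases hweig (π t) (Subgroup.mem_map_of_mem π ht) with h | h
      · have h1 : π (w⁻¹ * (t * w * t⁻¹)) = 1 := by
          rw [map_mul, map_mul, map_mul, map_inv, map_inv, h, inv_mul_cancel]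
        have h2 := (QuotientGroup.eq_one_iff _).1 h1
        have h3 : t * w * t⁻¹ = w * (w⁻¹ * (t * w * t⁻¹)) := by group
        rw [h3]
        exact B.mul_mem hwB (hAB h2)
      · have h1 : π (w * (t * w * t⁻¹)) = 1 := by
          rw [map_mul, map_mul, map_mul, map_inv, h, mul_inv_cancel]
        have h2 := (QuotientGroup.eq_one_iff _).1 h1
        have h3 : t * w * t⁻¹ = w⁻¹ * (w * (t * w * t⁻¹)) := by group
        rw [h3]
        exact B.mul_mem (B.inv_mem hwB) (hAB h2)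
  have hBn : B.Normal := by
    rw [← Subgroup.normalizer_eq_top_iff, eq_top_iff, ← hFI]
    exact sup_le hFB hIB
  exact hwA (hmax ⟨hBF, hBn, hBc⟩ hAB hwB)

end Cfsg.Agent.Helper73
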