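import Mathlib
import Cfsg.Agent.Helper73.SelfCent

set_option autoImplicit false

namespace Cfsg.Agent.Helper73

open scoped commutatorElement

/-- In a subgroup of odd order, an element with square one is trivial. -/
theorem eq_one_of_sq_eq_one_of_odd {Γ : Type*} [Group Γ] [Finite Γ] (H : Subgroup Γ)
    (hodd : Odd (Nat.card H)) (a : Γ) (ha : a ∈ H) (ha2 : a * a = 1) : a = 1 := by
  have h1 : orderOf a ∣ 2 := orderOf_dvd_of_pow_eq_one (by rw [pow_two]; exact ha2)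
  have h2 : orderOf a ∣ Nat.card H := Subgroup.orderOf_dvd_natCard H ha
  have hcop : Nat.Coprime (Nat.card H) 2 := Nat.Coprime.symm (Nat.coprime_two_left.2 hodd)
  have h3 : orderOf a ∣ 1 := by
    have := Nat.dvd_gcd h2 h1
    rwa [hcop.gcd_eq_one] at this
  exact orderOf_eq_one_iff.1 (Nat.dvd_one.1 h3)

/-- An involution centralizing a self-centralizing normal subgroup `A` of a normal subgroup `F`
of odd order centralizes `F`. -/
theorem faithful_on_selfCentralizing {Γ : Type*} [Group Γ] [Finite Γ] (F I A : Subgroup Γ)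
    [F.Normal] [A.Normal] (hFodd : Odd (Nat.card F)) (hAF : A ≤ F)
    (hCA : F ⊓ Subgroup.centralizer (A : Set Γ) ≤ A) (hI2 : ∀ t ∈ I, t ^ 2 = 1)
    (hfaith : ∀ t ∈ I, (∀ x ∈ F, t * x = x * t) → t = 1) :
    ∀ t ∈ I, (∀ a ∈ A, t * a = a * t) → t = 1 := by
  intro t ht hA
  apply hfaith t ht
  intro x hx
  have htt : t * t = 1 := by rw [← pow_two]; exact hI2 t ht
  have hAn : A.Normal := inferInstance
  have hFn : F.Normal := inferInstance
  have haF : x⁻¹ * (t * x * t⁻¹) ∈ F := F.mul_mem (F.inv_mem hx) (hFn.conj_mem x hx t)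
  have hacent : x⁻¹ * (t * x * t⁻¹) ∈ Subgroup.centralizer (A : Set Γ) := by
    rw [Subgroup.mem_centralizer_iff]
    intro b hb
    have e1 : t⁻¹ * b * t = b := by
      rw [mul_assoc, ← hA b hb, inv_mul_cancel_left]
    have e2 : t * (x * b * x⁻¹) * t⁻¹ = x * b * x⁻¹ := by
      rw [hA _ (hAn.conj_mem b hb x), mul_inv_cancel_right]
    have e3 : (x⁻¹ * (t * x * t⁻¹)) * b * (x⁻¹ * (t * x * t⁻¹))⁻¹ = b := by
      calc (x⁻¹ * (t * x * t⁻¹)) * b * (x⁻¹ * (t * x * t⁻¹))⁻¹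
          = x⁻¹ * (t * (x * (t⁻¹ * b * t) * x⁻¹) * t⁻¹) * x := by group
        _ = x⁻¹ * (t * (x * b * x⁻¹) * t⁻¹) * x := by rw [e1]
        _ = x⁻¹ * (x * b * x⁻¹) * x := by rw [e2]
        _ = b := by group
    have e4 := mul_inv_eq_iff_eq_mul.1 e3
    exact e4.symm
  have haA : x⁻¹ * (t * x * t⁻¹) ∈ A := hCA ⟨haF, hacent⟩
  have hcomm := hA _ haA
  have hinv : t * (x⁻¹ * (t * x * t⁻¹)) * t⁻¹ = (x⁻¹ * (t * x * t⁻¹))⁻¹ := by
    have htinv : t⁻¹ = t := inv_eq_of_mul_eq_one_left htt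
    calc t * (x⁻¹ * (t * x * t⁻¹)) * t⁻¹ = t * x⁻¹ * (t * x) * (t⁻¹ * t⁻¹) := by group
      _ = t * x⁻¹ * (t * x) * (t * t) := by rw [htinv]
      _ = t * x⁻¹ * t * x := by rw [htt]; group
      _ = t * x⁻¹ * t⁻¹ * x := by rw [htinv]
      _ = (x⁻¹ * (t * x * t⁻¹))⁻¹ := by group
  rw [hcomm, mul_inv_cancel_right] at hinv
  have hsq : (x⁻¹ * (t * x * t⁻¹)) * (x⁻¹ * (t * x * t⁻¹)) = 1 := by
    nth_rewrite 2 [hinv]
    exact mul_inv_cancel _
  have h1 := eq_one_of_sq_eq_one_of_odd F hFodd _ haF hsq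
  have h2 : t * x * t⁻¹ = x := by
    have := congrArg (fun z => x * z) h1
    simpa using this
  exact (mul_inv_eq_iff_eq_mul.1 h2)

/-- An involution of `I` acting nontrivially on the abelian odd-order subgroup `A` inverts an
`I`-eigenvector of prime order. -/
theorem exists_inverted_prime {Γ : Type*} [Group Γ] [Finite Γ] (A I : Subgroup Γ)
    (hAc : ∀ a ∈ A, ∀ b ∈ A, a * b = b * a) (hAodd : Odd (Nat.card A))
    (hIA : I ≤ Subgroup.normalizer (A : Set Γ))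
    (hI2 : ∀ t ∈ I, t ^ 2 = 1) (hIc : ∀ s ∈ I, ∀ t ∈ I, s * t = t * s)
    (t : Γ) (ht : t ∈ I) (htA : ¬ ∀ a ∈ A, t * a = a * t) :
    ∃ w ∈ A, (orderOf w).Prime ∧ (∀ s ∈ I, s * w * s⁻¹ = w ∨ s * w * s⁻¹ = w⁻¹) ∧
      t * w * t⁻¹ = w⁻¹ ∧ w ≠ w⁻¹ := by
  have htt : t * t = 1 := by rw [← pow_two]; exact hI2 t ht
  have htinv : t⁻¹ = t := inv_eq_of_mul_eq_one_left htt
  have hconjA : ∀ s ∈ I, ∀ a ∈ A, s * a * s⁻¹ ∈ A := by
    intro s hs a ha
    exact (Subgroup.mem_normalizer_iff.1 (hIA hs) a).1 ha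
  let D : Subgroup Γ :=
    { carrier := {a | a ∈ A ∧ t * a * t⁻¹ = a⁻¹}
      mul_mem' := by
        rintro a b ⟨ha, hta⟩ ⟨hb, htb⟩
        refine ⟨A.mul_mem ha hb, ?_⟩
        have : t * (a * b) * t⁻¹ = (t * a * t⁻¹) * (t * b * t⁻¹) := by group
        rw [this, hta, htb, ← mul_inv_rev, hAc b hb a ha]
      one_mem' := ⟨A.one_mem, by simp⟩
      inv_mem' := by
        rintro a ⟨ha, hta⟩
        refine ⟨A.inv_mem ha, ?_⟩
        have : t * a⁻¹ * t⁻¹ = (t * a * t⁻¹)⁻¹ := by group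
        rw [this, hta] }
  have hDA : D ≤ A := fun a ha => ha.1
  have hDmem : ∀ a, a ∈ D ↔ a ∈ A ∧ t * a * t⁻¹ = a⁻¹ := fun a => Iff.rfl
  have hDne : D ≠ ⊥ := by
    push Not at htA
    obtain ⟨x, hx, hxt⟩ := htA
    intro hbot
    have hy : x⁻¹ * (t * x * t⁻¹) ∈ D := by
      rw [hDmem]
      refine ⟨A.mul_mem (A.inv_mem hx) (hconjA t ht x hx), ?_⟩
      calc t * (x⁻¹ * (t * x * t⁻¹)) * t⁻¹ = t * x⁻¹ * (t * x) * (t⁻¹ * t⁻¹) := by group
        _ = t * x⁻¹ * (t * x) * (t * t) := by rw [htinv]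
        _ = t * x⁻¹ * t * x := by rw [htt]; group
        _ = t * x⁻¹ * t⁻¹ * x := by rw [htinv]
        _ = (x⁻¹ * (t * x * t⁻¹))⁻¹ := by group
    rw [hbot, Subgroup.mem_bot] at hy
    apply hxt
    have h2 : t * x * t⁻¹ = x := by
      have := congrArg (fun z => x * z) hy
      simpa using this
    exact (mul_inv_eq_iff_eq_mul.1 h2)
  have hID : I ≤ Subgroup.normalizer (D : Set Γ) := by
    apply le_normalizer_of_conj_mem
    intro s hs a ha
    rw [hDmem] at ha ⊢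
    refine ⟨hconjA s hs a ha.1, ?_⟩
    calc t * (s * a * s⁻¹) * t⁻¹ = (t * s) * a * (t * s)⁻¹ := by group
      _ = (s * t) * a * (s * t)⁻¹ := by rw [hIc t ht s hs]
      _ = s * (t * a * t⁻¹) * s⁻¹ := by group
      _ = s * a⁻¹ * s⁻¹ := by rw [ha.2]
      _ = (s * a * s⁻¹)⁻¹ := by group
  have hDc : ∀ a ∈ D, ∀ b ∈ D, a * b = b * a := fun a ha b hb => hAc a (hDA ha) b (hDA hb)
  have hDodd : Odd (Nat.card D) := Odd.of_dvd_nat hAodd (Subgroup.card_dvd_of_le hDA)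
  obtain ⟨w, hwD, hwp, hweig⟩ := exists_eigen_conj D I hDc hDodd hDne hID hI2 hIc
  refine ⟨w, hDA hwD, hwp, hweig, ((hDmem w).1 hwD).2, ?_⟩
  intro hww
  have hsq : w * w = 1 := by
    nth_rewrite 2 [hww]
    exact mul_inv_cancel w
  have := eq_one_of_sq_eq_one_of_odd A hAodd w (hDA hwD) hsq
  rw [this, orderOf_one] at hwp
  exact Nat.not_prime_one hwp

end Cfsg.Agent.Helper73
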