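import Mathlib
import Cfsg.Agent.Helper73.ElemAb2Main

set_option autoImplicit false

namespace Cfsg.Agent.Helper73

theorem iSup_snoc {Γ : Type*} [Group Γ] {j : ℕ} (f : Fin j → Subgroup Γ) (B : Subgroup Γ) :
    (⨆ i, (Fin.snoc f B : Fin (j + 1) → Subgroup Γ) i) = (⨆ i, f i) ⊔ B := by
  apply le_antisymm
  · apply iSup_le
    intro i
    induction i using Fin.lastCases with
    | last => rw [Fin.snoc_last]; exact le_sup_right
    | cast i => rw [Fin.snoc_castSucc]; exact le_sup_of_le_left (le_iSup f i)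
  · apply sup_le
    · apply iSup_le
      intro i
      have := le_iSup (Fin.snoc f B : Fin (j + 1) → Subgroup Γ) i.castSucc
      rwa [Fin.snoc_castSucc] at this
    · have := le_iSup (Fin.snoc f B : Fin (j + 1) → Subgroup Γ) (Fin.last j)
      rwa [Fin.snoc_last] at this

theorem card_mul_relIndex' {Γ : Type*} [Group Γ] {H K : Subgroup Γ} (h : H ≤ K) :
    Nat.card H * H.relIndex K = Nat.card K := by
  have := Subgroup.relIndex_mul_relIndex ⊥ H K bot_le h
  simpa using this

/-- Selection of `n` independent eigen-subgroups of prime order. -/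
theorem exists_prime_family_abelian {Γ : Type*} [Group Γ] [Finite Γ] (A I : Subgroup Γ)
    (hAc : ∀ a ∈ A, ∀ b ∈ A, a * b = b * a) (hAodd : Odd (Nat.card A))
    (hIA : I ≤ Subgroup.normalizer (A : Set Γ))
    (hI2 : ∀ t ∈ I, t ^ 2 = 1) (hIc : ∀ s ∈ I, ∀ t ∈ I, s * t = t * s)
    (hfaith : ∀ t ∈ I, (∀ a ∈ A, t * a = a * t) → t = 1) (n : ℕ) (hn : Nat.card I = 2 ^ n) :
    ∃ f : Fin n → Subgroup Γ, (∀ i, (Nat.card (f i)).Prime) ∧ (∀ i, f i ≤ A) ∧
      (∀ i, I ≤ Subgroup.normalizer ((f i) : Set Γ)) ∧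
      Nat.card ↥(⨆ i, f i) = ∏ i, Nat.card ↥(f i) ∧
      I ⊓ Subgroup.centralizer ((⨆ i, f i : Subgroup Γ) : Set Γ) = ⊥ := by
  classical
  let Good : Subgroup Γ → Prop := fun B =>
    ∃ w ∈ A, (orderOf w).Prime ∧ (∀ s ∈ I, s * w * s⁻¹ = w ∨ s * w * s⁻¹ = w⁻¹) ∧
      B = Subgroup.zpowers w
  have key : ∀ j : ℕ, j ≤ n → ∃ f : Fin j → Subgroup Γ, (∀ i, Good (f i)) ∧
      Nat.card ↥(⨆ i, f i) = ∏ i, Nat.card ↥(f i) ∧
      Nat.card ↥(I ⊓ Subgroup.centralizer ((⨆ i, f i : Subgroup Γ) : Set Γ)) = 2 ^ (n - j) := by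
    intro j
    induction j with
    | zero =>
      intro _
      have e : (⨆ i : Fin 0, (Fin.elim0 i : Subgroup Γ)) = ⊥ := iSup_of_empty _
      have e2 : Subgroup.centralizer (((⊥ : Subgroup Γ)) : Set Γ) = ⊤ := by
        rw [Subgroup.centralizer_eq_top_iff_subset]
        intro x hx
        have : x = 1 := by simpa using hx
        rw [this]; exact Subgroup.one_mem _
      refine ⟨Fin.elim0, fun i => Fin.elim0 i, ?_, ?_⟩
      · rw [e]; simp
      · rw [e, e2, inf_top_eq, Nat.sub_zero]; exact hn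
    | succ j ih =>
      intro hj
      obtain ⟨f, hfG, hfcard, hfJ⟩ := ih (by omega)
      set J : Subgroup Γ := I ⊓ Subgroup.centralizer ((⨆ i, f i : Subgroup Γ) : Set Γ) with hJ
      have hJne : J ≠ ⊥ := by
        intro hb
        rw [hb, Subgroup.card_bot] at hfJ
        have : 2 ≤ 2 ^ (n - j) := by
          calc 2 = 2 ^ 1 := by norm_num
            _ ≤ 2 ^ (n - j) := Nat.pow_le_pow_right (by norm_num) (by omega)
        omega
      obtain ⟨⟨t, htJ⟩, ht1'⟩ := (Subgroup.ne_bot_iff_exists_ne_one).1 hJne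
      have ht1 : t ≠ 1 := fun h => ht1' (Subtype.ext h)
      have htI : t ∈ I := htJ.1
      have htA : ¬ ∀ a ∈ A, t * a = a * t := fun h => ht1 (hfaith t htI h)
      obtain ⟨w, hwA, hwp, hweig, htw, hww⟩ :=
        exists_inverted_prime A I hAc hAodd hIA hI2 hIc t htI htA
      have hsupA : (⨆ i, f i) ≤ A := by
        apply iSup_le
        intro i
        obtain ⟨w', hw'A, -, -, hB⟩ := hfG i
        rw [hB, Subgroup.zpowers_le]
        exact hw'A
      have hzA : Subgroup.zpowers w ≤ A := (Subgroup.zpowers_le).2 hwA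
      -- t does not commute with w
      have htw' : t * w ≠ w * t := by
        intro h
        apply hww
        rw [← htw, h, mul_inv_cancel_right]
      have hwsup : w ∉ (⨆ i, f i) := by
        intro h
        exact htw' (Subgroup.mem_centralizer_iff.1 htJ.2 w h).symm
      have hdisj : (⨆ i, f i) ⊓ Subgroup.zpowers w = ⊥ := by
        have hle : (⨆ i, f i) ⊓ Subgroup.zpowers w ≤ Subgroup.zpowers w := inf_le_right
        have hdvd := Subgroup.card_dvd_of_le hle
        rw [Nat.card_zpowers] at hdvd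
        rcases (Nat.dvd_prime hwp).1 hdvd with h1 | hp
        · exact Subgroup.eq_bot_of_card_eq _ h1
        · exfalso
          have : (⨆ i, f i) ⊓ Subgroup.zpowers w = Subgroup.zpowers w :=
            Subgroup.eq_of_le_of_card_ge hle (by rw [Nat.card_zpowers, hp])
          apply hwsup
          have hmem : w ∈ (⨆ i, f i) ⊓ Subgroup.zpowers w := by
            rw [this]; exact Subgroup.mem_zpowers w
          exact hmem.1
      refine ⟨Fin.snoc f (Subgroup.zpowers w), ?_, ?_, ?_⟩
      · intro i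
        induction i using Fin.lastCases with
        | last => rw [Fin.snoc_last]; exact ⟨w, hwA, hwp, hweig, rfl⟩
        | cast i => rw [Fin.snoc_castSucc]; exact hfG i
      · rw [iSup_snoc, card_sup_of_commute _ _ (fun h hh k hk => hAc h (hsupA hh) k (hzA hk)) hdisj,
          Fin.prod_univ_castSucc, hfcard]
        simp [Fin.snoc_castSucc, Fin.snoc_last]
      · rw [iSup_snoc, centralizer_sup, ← inf_assoc, ← hJ]
        have hle : J ⊓ Subgroup.centralizer ((Subgroup.zpowers w : Subgroup Γ) : Set Γ) ≤ J :=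
          inf_le_left
        have hcz : ∀ b : Γ, b * w = w * b →
            b ∈ Subgroup.centralizer ((Subgroup.zpowers w : Subgroup Γ) : Set Γ) := by
          intro b hb
          rw [Subgroup.zpowers_eq_closure, Subgroup.centralizer_closure,
            Subgroup.mem_centralizer_iff]
          intro h hh
          rw [Set.mem_singleton_iff] at hh
          rw [hh]; exact hb.symm
        have hcz' : ∀ b : Γ, b ∈ Subgroup.centralizer ((Subgroup.zpowers w : Subgroup Γ) : Set Γ) →
            b * w = w * b := by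
          intro b hb
          exact (Subgroup.mem_centralizer_iff.1 hb w (Subgroup.mem_zpowers w)).symm
        have hidx : (J ⊓ Subgroup.centralizer ((Subgroup.zpowers w : Subgroup Γ) : Set Γ)).relIndex J
            = 2 := by
          rw [Subgroup.relIndex, Subgroup.index_eq_two_iff_exists_notMem_and]
          refine ⟨⟨t, htJ⟩, ?_, ?_⟩
          · rw [Subgroup.mem_subgroupOf]
            intro h
            exact htw' (hcz' t h.2)
          · rintro ⟨b, hbJ⟩
            rw [Subgroup.mem_subgroupOf, Subgroup.mem_subgroupOf]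
            by_cases hbw : b * w = w * b
            · right
              exact ⟨hbJ, hcz b hbw⟩
            · left
              refine ⟨J.mul_mem hbJ htJ, hcz _ ?_⟩
              have hb1 : b * w * b⁻¹ = w⁻¹ := by
                rcases hweig b hbJ.1 with h | h
                · exact absurd (mul_inv_eq_iff_eq_mul.1 h) hbw
                · exact h
              change b * t * w = w * (b * t)
              have e1 : b * t * w * (b * t)⁻¹ = b * (t * w * t⁻¹) * b⁻¹ := by group
              have e2 : b * t * w * (b * t)⁻¹ = w := by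
                rw [e1, htw]
                have : b * w⁻¹ * b⁻¹ = (b * w * b⁻¹)⁻¹ := by group
                rw [this, hb1, inv_inv]
              exact mul_inv_eq_iff_eq_mul.1 e2
        have hcard := card_mul_relIndex' hle
        rw [hidx, hfJ] at hcard
        have hpow : 2 ^ (n - j) = 2 ^ (n - (j + 1)) * 2 := by
          rw [← pow_succ]; congr 1; omega
        rw [hpow] at hcard
        exact Nat.eq_of_mul_eq_mul_right (by norm_num) hcard
  obtain ⟨f, hfG, hfcard, hfJ⟩ := key n le_rfl
  refine ⟨f, ?_, ?_, ?_, hfcard, ?_⟩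
  · intro i
    obtain ⟨w, -, hwp, -, hB⟩ := hfG i
    rw [hB, Nat.card_zpowers]; exact hwp
  · intro i
    obtain ⟨w, hwA, -, -, hB⟩ := hfG i
    rw [hB, Subgroup.zpowers_le]; exact hwA
  · intro i
    obtain ⟨w, -, -, hweig, hB⟩ := hfG i
    rw [hB]
    apply le_normalizer_of_conj_mem
    intro s hs
    have := conj_mem_of_sup_zpowers (⊥ : Subgroup Γ) (Subgroup.zpowers w) w s
      (by
        intro a ha
        rw [Subgroup.mem_bot] at ha
        rw [ha]; simp)
      (by
        rcases hweig s hs with h | h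
        · rw [h]; exact Subgroup.mem_zpowers w
        · rw [h]; exact Subgroup.inv_mem _ (Subgroup.mem_zpowers w))
    rw [bot_sup_eq] at this
    exact this
  · apply Subgroup.eq_bot_of_card_eq
    rw [hfJ, Nat.sub_self, pow_zero]

/-- Main abstract theorem: `Γ = F I`, `F` normal nilpotent of odd order, `I` an elementary abelian
2-subgroup of order `2 ^ n` acting faithfully on `F`. -/
theorem exists_prime_family {Γ : Type*} [Group Γ] [Finite Γ] (F I : Subgroup Γ) [F.Normal]
    (hFnil : Group.IsNilpotent F) (hFodd : Odd (Nat.card F))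
    (hI2 : ∀ t ∈ I, t ^ 2 = 1) (hIc : ∀ s ∈ I, ∀ t ∈ I, s * t = t * s) (hFI : F ⊔ I = ⊤)
    (hfaith : ∀ t ∈ I, (∀ x ∈ F, t * x = x * t) → t = 1) (n : ℕ) (hn : Nat.card I = 2 ^ n) :
    ∃ f : Fin n → Subgroup Γ, (∀ i, (Nat.card (f i)).Prime) ∧ (∀ i, f i ≤ F) ∧
      (∀ i, I ≤ Subgroup.normalizer ((f i) : Set Γ)) ∧
      (∀ i j, i ≠ j → ∀ a ∈ f i, ∀ b ∈ f j, a * b = b * a) ∧
      Nat.card ↥(⨆ i, f i) = ∏ i, Nat.card ↥(f i) ∧
      I ⊓ Subgroup.centralizer ((⨆ i, f i : Subgroup Γ) : Set Γ) = ⊥ := by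
  obtain ⟨A, hAF, hAn, hAc, hCA⟩ := exists_selfCentralizing F I hFnil hFodd hI2 hIc hFI
  have := hAn
  have hAodd : Odd (Nat.card A) := Odd.of_dvd_nat hFodd (Subgroup.card_dvd_of_le hAF)
  have hIA : I ≤ Subgroup.normalizer (A : Set Γ) := by
    rw [Subgroup.normalizer_eq_top_iff.2 hAn]; exact le_top
  have hfaithA := faithful_on_selfCentralizing F I A hFodd hAF hCA hI2 hfaith
  obtain ⟨f, h1, h2, h3, h4, h5⟩ :=
    exists_prime_family_abelian A I hAc hAodd hIA hI2 hIc hfaithA n hn
  exact ⟨f, h1, fun i => (h2 i).trans hAF, h3,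
    fun i j _ a ha b hb => hAc a (h2 i ha) b (h2 j hb), h4, h5⟩

end Cfsg.Agent.Helper73
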