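/-
Helper library of seat helper73 (towards S4840): a `p`-element of a finite solvable group with
`O_p = 1` that centralizes all the cores `O_q` is trivial.
-/
import Mathlib
import Cfsg.Agent.Helper71.Fitting
import Cfsg.Agent.Helper73.FittingSolvable

set_option autoImplicit false

namespace Cfsg.Agent.Helper73

/-- In a finite solvable group with `O_p = 1`, a `p`-element centralizing every `O_q` is trivial. -/
theorem pelt_centralizing_cores {Γ : Type*} [Group Γ] [Finite Γ] [Group.IsSolvable Γ] (p : ℕ)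
    [Fact p.Prime] (hOp : Cfsg.Agent.Helper71.sylowCore p Γ = ⊥) (g : Γ)
    (hg : ∃ k : ℕ, orderOf g = p ^ k)
    (hc : ∀ q : ℕ, q.Prime →
      g ∈ Subgroup.centralizer (Cfsg.Agent.Helper71.sylowCore q Γ : Set Γ)) :
    g = 1 := by
  have hp : p.Prime := Fact.out
  -- g centralizes the Fitting subgroup
  have h1 : Cfsg.Agent.Helper71.sylowCoreSup Γ ≤ Subgroup.centralizer (Subgroup.zpowers g : Set Γ) := by
    unfold Cfsg.Agent.Helper71.sylowCoreSup
    rw [iSup_le_iff]
    intro q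
    rw [Subgroup.le_centralizer_iff, Subgroup.zpowers_le]
    exact hc q (Nat.prime_of_mem_primeFactors q.2)
  have h2 : g ∈ Subgroup.centralizer (Cfsg.fittingSubgroup Γ : Set Γ) := by
    rw [Cfsg.Agent.Helper71.fittingSubgroup_eq_sylowCoreSup]
    have h3 := Subgroup.le_centralizer_iff.mp h1
    exact h3 (Subgroup.mem_zpowers g)
  have h3 : g ∈ Cfsg.Agent.Helper71.sylowCoreSup Γ := by
    rw [← Cfsg.Agent.Helper71.fittingSubgroup_eq_sylowCoreSup]
    exact centralizer_fittingSubgroup_le h2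
  -- the Sylow p-subgroup of the Fitting subgroup is trivial
  have hnil : Group.IsNilpotent (Cfsg.Agent.Helper71.sylowCoreSup Γ) :=
    Cfsg.Agent.Helper71.sylowCoreSup_isNilpotent Γ
  have hKn : (Cfsg.Agent.Helper71.sylowCoreSup Γ).Normal :=
    Cfsg.Agent.Helper71.sylowCoreSup_normal Γ
  obtain ⟨P⟩ : Nonempty (Sylow p (Cfsg.Agent.Helper71.sylowCoreSup Γ)) := inferInstance
  have hPn : (P : Subgroup (Cfsg.Agent.Helper71.sylowCoreSup Γ)).Normal := inferInstance
  have hPc : (P : Subgroup (Cfsg.Agent.Helper71.sylowCoreSup Γ)).Characteristic :=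
    Sylow.characteristic_of_normal P hPn
  have hmapn : ((P : Subgroup (Cfsg.Agent.Helper71.sylowCoreSup Γ)).map
      (Cfsg.Agent.Helper71.sylowCoreSup Γ).subtype).Normal := inferInstance
  have hmapp : IsPGroup p ((P : Subgroup (Cfsg.Agent.Helper71.sylowCoreSup Γ)).map
      (Cfsg.Agent.Helper71.sylowCoreSup Γ).subtype) := P.isPGroup'.map _
  have hle := Cfsg.Agent.Helper71.le_sylowCore_of_normal p _ hmapp
  rw [hOp] at hle
  -- g lies in P
  have hgP : (⟨g, h3⟩ : Cfsg.Agent.Helper71.sylowCoreSup Γ) ∈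
      (P : Subgroup (Cfsg.Agent.Helper71.sylowCoreSup Γ)) := by
    have hzp : IsPGroup p (Subgroup.zpowers (⟨g, h3⟩ : Cfsg.Agent.Helper71.sylowCoreSup Γ)) := by
      obtain ⟨k, hk⟩ := hg
      apply IsPGroup.of_card (n := k)
      rw [Nat.card_zpowers, Subgroup.orderOf_mk, hk]
    obtain ⟨Q, hQ⟩ := hzp.exists_le_sylow
    have hu := Sylow.unique_of_normal P hPn
    have hQP : Q = P := Subsingleton.elim _ _
    rw [hQP] at hQ
    exact hQ (Subgroup.mem_zpowers _)
  have hmem : g ∈ (P : Subgroup (Cfsg.Agent.Helper71.sylowCoreSup Γ)).map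
      (Cfsg.Agent.Helper71.sylowCoreSup Γ).subtype := ⟨⟨g, h3⟩, hgP, rfl⟩
  exact (Subgroup.mem_bot.mp (hle hmem))

end Cfsg.Agent.Helper73
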