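/-
Helper library of seat helper73 (towards S4840): the group-theoretic core of Gagola's theorem for
solvable groups.  A finite solvable group `Γ` with `O_p(Γ) = 1` acting on an elementary abelian
`p`-group `V` such that every element fixing a nonidentity vector is a `p`-element and
`|Γ| = (|V| - 1) p^m` has a normal `p`-complement and abelian Sylow `p`-subgroups.
Pieces by helper20 (GagA, GagB, GagF), helper84 (Q8Eigen), helper88 (UniqInvAut).
-/
import Mathlib
import Cfsg.Prelude.Def_Transfer
import Cfsg.Agent.Helper71.Fitting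
import Cfsg.Agent.Helper73.GagolaE
import Cfsg.Agent.Helper29.UniqueOrderP
import Cfsg.Agent.Helper20.GagA
import Cfsg.Agent.Helper20.GagB
import Cfsg.Agent.Helper20.GagF
import Cfsg.Agent.Helper84.Q8Eigen
import Cfsg.Agent.Helper88.UniqInvAut

set_option autoImplicit false


namespace Cfsg.Agent.Helper73

open Cfsg.Agent.Helper71

/-- Elements of a subgroup of order dividing `3` commute. -/
theorem gg_comm_of_card_dvd_three {A : Type*} [Group A] (Q : Subgroup A) (h : Nat.card Q ∣ 3)
    (x y : A) (hx : x ∈ Q) (hy : y ∈ Q) : x * y = y * x := by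
  have hne : Nat.card Q ≠ 0 := by
    intro h0; rw [h0] at h; omega
  have hfin : Finite Q := Nat.finite_of_card_ne_zero hne
  rcases (Nat.dvd_prime Nat.prime_three).mp h with h1 | h3
  · have hsub : Subsingleton Q := (Nat.card_eq_one_iff_unique.mp h1).1
    have hx1 : (⟨x, hx⟩ : Q) = ⟨y, hy⟩ := Subsingleton.elim _ _
    have hxy : x = y := congrArg Subtype.val hx1
    rw [hxy]
  · have : Fact (Nat.Prime 3) := ⟨Nat.prime_three⟩
    have hcyc : IsCyclic Q := isCyclic_of_prime_card h3
    obtain ⟨c, hc⟩ := IsCyclic.exists_generator (α := Q)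
    obtain ⟨i, hi⟩ := Subgroup.mem_zpowers_iff.mp (hc ⟨x, hx⟩)
    obtain ⟨j, hj⟩ := Subgroup.mem_zpowers_iff.mp (hc ⟨y, hy⟩)
    have hxy : (⟨x, hx⟩ : Q) * ⟨y, hy⟩ = ⟨y, hy⟩ * ⟨x, hx⟩ := by
      rw [← hi, ← hj, ← zpow_add, ← zpow_add, add_comm]
    exact congrArg Subtype.val hxy

/-- The kernel of the conjugation action on a normal subgroup is its centralizer. -/
theorem gg_conjNormal_eq_one_iff {Γ : Type*} [Group Γ] (S : Subgroup Γ) [S.Normal] (c : Γ) :
    (MulAut.conjNormal c : MulAut S) = 1 ↔ c ∈ Subgroup.centralizer (S : Set Γ) := by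
  rw [Subgroup.mem_centralizer_iff]
  constructor
  · intro h s hs
    have h1 : (MulAut.conjNormal c : MulAut S) ⟨s, hs⟩ = ⟨s, hs⟩ := by rw [h]; rfl
    have h2 := congrArg Subtype.val h1
    rw [MulAut.conjNormal_apply] at h2
    calc s * c = c * s * c⁻¹ * c := by rw [h2]
      _ = c * s := by group
  · intro h
    ext s
    rw [MulAut.conjNormal_apply, MulAut.one_apply]
    have h1 := h s s.2
    calc c * s * c⁻¹ = s * c * c⁻¹ := by rw [h1]
      _ = s := by group

/-- Commutators act trivially on a cyclic normal subgroup. -/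
theorem gg_comm_mem_centralizer_of_cyclic {Γ : Type*} [Group Γ] (S : Subgroup Γ) [S.Normal]
    [IsCyclic S] (g h : Γ) : g * h * g⁻¹ * h⁻¹ ∈ Subgroup.centralizer (S : Set Γ) := by
  rw [← gg_conjNormal_eq_one_iff]
  have hcomm : ∀ σ τ : MulAut S, σ * τ = τ * σ := by
    intro σ τ
    obtain ⟨m, hm⟩ := MonoidHom.map_cyclic σ.toMonoidHom
    obtain ⟨k, hk⟩ := MonoidHom.map_cyclic τ.toMonoidHom
    ext x
    have h1 : σ (τ x) = (x ^ k) ^ m := by
      have := hm (τ x)
      have h2 := hk x
      simp only [MulEquiv.toMonoidHom_eq_coe, MonoidHom.coe_coe] at this h2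
      rw [this, h2]
    have h2 : τ (σ x) = (x ^ m) ^ k := by
      have := hk (σ x)
      have h2 := hm x
      simp only [MulEquiv.toMonoidHom_eq_coe, MonoidHom.coe_coe] at this h2
      rw [this, h2]
    rw [MulAut.mul_apply, MulAut.mul_apply, h1, h2, ← zpow_mul, ← zpow_mul, mul_comm]
  rw [map_mul, map_mul, map_mul, map_inv, map_inv, hcomm (MulAut.conjNormal g) (MulAut.conjNormal h)]
  group

/-- Commutators lie in a normal subgroup of index dividing `3`. -/
theorem gg_comm_mem_of_index_dvd_three {Γ : Type*} [Group Γ] (L : Subgroup Γ) [L.Normal]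
    (h : L.index ∣ 3) (a b : Γ) : a * b * a⁻¹ * b⁻¹ ∈ L := by
  rw [← QuotientGroup.eq_one_iff]
  have hcard : Nat.card (⊤ : Subgroup (Γ ⧸ L)) ∣ 3 := by
    rw [Subgroup.card_top]; exact h
  have h1 := gg_comm_of_card_dvd_three (⊤ : Subgroup (Γ ⧸ L)) hcard (a : Γ ⧸ L) (b : Γ ⧸ L)
    (Subgroup.mem_top _) (Subgroup.mem_top _)
  rw [QuotientGroup.mk_mul, QuotientGroup.mk_mul, QuotientGroup.mk_mul, QuotientGroup.mk_inv,
    QuotientGroup.mk_inv, h1]
  group

/-- The core group-theoretic theorem behind Gagola's theorem for solvable groups. -/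
theorem gagola_gt {Γ V : Type*} [Group Γ] [Finite Γ] [CommGroup V] [Finite V] [Nontrivial V]
    (p : ℕ) [Fact p.Prime] [Group.IsSolvable Γ] (φ : Γ →* MulAut V)
    (hVp : ∀ v : V, v ^ p = 1)
    (hfix : ∀ g : Γ, ∀ v : V, v ≠ 1 → φ g v = v → ∃ k : ℕ, orderOf g = p ^ k)
    (hcard : ∃ m : ℕ, Nat.card Γ = (Nat.card V - 1) * p ^ m)
    (hOp : sylowCore p Γ = ⊥) :
    Cfsg.HasNormalPComplement p Γ ∧ ∀ P : Sylow p Γ, ∀ g ∈ P, ∀ h ∈ P, g * h = h * g := by
  classical
  have hp : p.Prime := Fact.out
  have hVpg : IsPGroup p V := fun v => ⟨1, by rw [pow_one]; exact hVp v⟩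
  obtain ⟨n, hn⟩ := hVpg.exists_card_eq
  -- p'-elements are fixed point free
  have hfpf : ∀ s : Γ, s ≠ 1 → (orderOf s).Coprime p → ∀ v : V, φ s v = v → v = 1 := by
    intro s hs hco v hv
    by_contra hv1
    obtain ⟨k, hk⟩ := hfix s v hv1 hv
    rw [hk] at hco
    have hk0 : k = 0 := by
      by_contra hk0
      rw [Nat.coprime_pow_left_iff (Nat.pos_of_ne_zero hk0), Nat.coprime_self] at hco
      exact hp.one_lt.ne' hco
    rw [hk0, pow_zero, orderOf_eq_one_iff] at hk
    exact hs hk
  -- the cores for q ≠ p have at most one subgroup of order q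
  have huniq : ∀ q : ℕ, q.Prime → q ≠ p → ∀ H K : Subgroup (sylowCore q Γ),
      Nat.card H = q → Nat.card K = q → H = K := by
    intro q hq hqp H K hH hK
    have : Fact q.Prime := ⟨hq⟩
    have hcop : (Nat.card V).Coprime q := by
      rw [hn]; exact Nat.Coprime.pow_left _ ((Nat.coprime_primes hp hq).mpr (Ne.symm hqp))
    refine Helper20.fpf_unique_subgroup φ q hcop (sylowCore q Γ) (sylowCore_isPGroup q Γ) ?_ H K hH hK
    intro s hs hs1 v hv
    apply hfpf s hs1 _ v hv
    obtain ⟨k, hk⟩ := (IsPGroup.iff_orderOf.mp (sylowCore_isPGroup q Γ)) ⟨s, hs⟩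
    rw [Subgroup.orderOf_mk] at hk
    rw [hk]; exact Nat.Coprime.pow_left _ ((Nat.coprime_primes hq hp).mpr hqp)
  -- odd cores are cyclic
  have hcyc : ∀ q : ℕ, q.Prime → q ≠ 2 → IsCyclic (sylowCore q Γ) := by
    intro q hq hq2
    have : Fact q.Prime := ⟨hq⟩
    by_cases hqp : q = p
    · have h1 : Nat.card (sylowCore q Γ) = 1 := by rw [hqp, hOp]; exact Subgroup.card_bot
      have hsub : Subsingleton (sylowCore q Γ) := (Nat.card_eq_one_iff_unique.mp h1).1
      exact isCyclic_of_subsingleton
    · obtain ⟨k, hk⟩ := (sylowCore_isPGroup q Γ).exists_card_eq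
      exact Helper29.isCyclic_of_unique_subgroup_odd hq2 k hk (huniq q hq hqp)
  have hnorm : ∀ q : ℕ, (sylowCore q Γ).Normal := fun q => sylowCore_normal q Γ
  have hcomm_odd : ∀ q : ℕ, q.Prime → q ≠ 2 → ∀ g h : Γ,
      g * h * g⁻¹ * h⁻¹ ∈ Subgroup.centralizer (sylowCore q Γ : Set Γ) := by
    intro q hq hq2 g h
    have := hcyc q hq hq2
    have := hnorm q
    exact gg_comm_mem_centralizer_of_cyclic (sylowCore q Γ) g h
  -- the 2-core and the conjugation action on it
  have hSn : (sylowCore 2 Γ).Normal := hnorm 2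
  have htriv2 : p = 2 → ∀ c : Γ, c ∈ Subgroup.centralizer (sylowCore 2 Γ : Set Γ) := by
    intro hp2 c
    rw [Subgroup.mem_centralizer_iff]
    intro s hs
    rw [← hp2, hOp] at hs
    have hs' : s = 1 := Subgroup.mem_bot.mp hs
    rw [hs', one_mul, mul_one]
  -- facts on the automorphisms of the 2-core
  have hD : p ≠ 2 → _ := fun hp2 =>
    Helper88.two_group_unique_invol_aut (sylowCore_isPGroup 2 Γ) (huniq 2 Nat.prime_two (Ne.symm hp2))
  -- a p-element of a subgroup of MulAut of order prime to p, etc.
  have hpelt : ∀ g : Γ, (∃ k : ℕ, orderOf g = p ^ k) →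
      (∀ q : ℕ, q.Prime → q ≠ 2 → g ∈ Subgroup.centralizer (sylowCore q Γ : Set Γ)) →
      g ∈ Subgroup.centralizer (sylowCore 2 Γ : Set Γ) → g = 1 := by
    intro g hg hodd h2
    apply pelt_centralizing_cores p hOp g hg
    intro q hq
    by_cases hq2 : q = 2
    · rw [hq2]; exact h2
    · exact hodd q hq hq2
  refine ⟨?_, ?_⟩
  · -- normal p-complement
    have hKn : (⨆ q : {q : ℕ // q.Prime ∧ q ≠ 2}, sylowCore (q : ℕ) Γ).Normal := by
      have : ∀ q : {q : ℕ // q.Prime ∧ q ≠ 2}, (sylowCore (q : ℕ) Γ).Normal := fun q => hnorm q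
      infer_instance
    obtain ⟨K, hKdef⟩ : ∃ K : Subgroup Γ,
        K = ⨆ q : {q : ℕ // q.Prime ∧ q ≠ 2}, sylowCore (q : ℕ) Γ := ⟨_, rfl⟩
    rw [← hKdef] at hKn
    have hDmem : ∀ g : Γ, g ∈ Subgroup.centralizer (K : Set Γ) ↔
        ∀ q : ℕ, q.Prime → q ≠ 2 → g ∈ Subgroup.centralizer (sylowCore q Γ : Set Γ) := by
      intro g
      constructor
      · intro hg q hq hq2
        have hle : sylowCore q Γ ≤ K := by
          rw [hKdef]
          exact le_iSup (fun q : {q : ℕ // q.Prime ∧ q ≠ 2} => sylowCore (q : ℕ) Γ) ⟨q, hq, hq2⟩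
        exact Subgroup.centralizer_le hle hg
      · intro hg
        have h1 : K ≤ Subgroup.centralizer (Subgroup.zpowers g : Set Γ) := by
          rw [hKdef]
          apply iSup_le
          intro q
          rw [Subgroup.le_centralizer_iff, Subgroup.zpowers_le]
          exact hg q q.2.1 q.2.2
        exact (Subgroup.le_centralizer_iff.mp h1) (Subgroup.mem_zpowers g)
    have hDn : (Subgroup.centralizer (K : Set Γ)).Normal := inferInstance
    have hDcomm : ∀ a b : Γ, a * b * a⁻¹ * b⁻¹ ∈ Subgroup.centralizer (K : Set Γ) := by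
      intro a b
      rw [hDmem]
      intro q hq hq2
      exact hcomm_odd q hq hq2 a b
    by_cases hp2 : p = 2
    · apply Helper20.npc_of_abelian_quotient p (Subgroup.centralizer (K : Set Γ)) _ hDcomm
      intro g hg hgp
      exact hpelt g hgp ((hDmem g).mp hg) (htriv2 hp2 g)
    · obtain ⟨d1, d2, d3, d4⟩ := hD hp2
      obtain ⟨κ, hκ⟩ : ∃ κ : Γ →* MulAut (sylowCore 2 Γ), κ = MulAut.conjNormal := ⟨_, rfl⟩
      have hker : ∀ c : Γ, κ c = 1 ↔ c ∈ Subgroup.centralizer (sylowCore 2 Γ : Set Γ) := by
        intro c; rw [hκ]; exact gg_conjNormal_eq_one_iff _ c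
      by_cases hpd : p ∣ Nat.card κ.range
      · -- the exceptional situation
        obtain ⟨τ, hτ⟩ := exists_prime_orderOf_dvd_card' (G := κ.range) p hpd
        have hτ' : orderOf (τ : MulAut (sylowCore 2 Γ)) = p := by
          rw [Subgroup.orderOf_coe]; exact hτ
        have hp3 : p = 3 := by
          have hz : IsPGroup p (Subgroup.zpowers (τ : MulAut (sylowCore 2 Γ))) := by
            apply IsPGroup.of_card (n := 1); rw [Nat.card_zpowers, hτ', pow_one]
          have h1 := d1 p _ hp hp2 hz
          rw [Nat.card_zpowers, hτ'] at h1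
          exact (Nat.prime_dvd_prime_iff_eq hp Nat.prime_three).mp h1
        subst hp3
        have hS8 : Nat.card (sylowCore 2 Γ) = 8 := by
          by_contra h8
          have h1 := d2 h8 (τ : MulAut _) (by rw [hτ']; decide)
          rw [h1, orderOf_one] at hτ'
          omega
        have hA24 : Nat.card κ.range ∣ 24 := (Subgroup.card_subgroup_dvd_card _).trans (d3 hS8)
        obtain ⟨a, b, z, haa, hbb, hab, hz2, hcen⟩ := d4 hS8 ⟨(τ : MulAut _), hτ'⟩
        -- the image of the 2-core under κ has order 4
        have hmap4 : Nat.card ((sylowCore 2 Γ).map κ) = 4 := by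
          have hrange : (κ.comp (sylowCore 2 Γ).subtype).range = (sylowCore 2 Γ).map κ := by
            rw [MonoidHom.range_eq_map, ← Subgroup.map_map, ← MonoidHom.range_eq_map,
              Subgroup.range_subtype]
          have hkc : (κ.comp (sylowCore 2 Γ).subtype).ker = Subgroup.center (sylowCore 2 Γ) := by
            ext x
            rw [MonoidHom.mem_ker, MonoidHom.comp_apply, Subgroup.coe_subtype, hker,
              Subgroup.mem_centralizer_iff, Subgroup.mem_center_iff]
            constructor
            · intro h s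
              exact Subtype.ext (h s s.2)
            · intro h s hs
              exact congrArg Subtype.val (h ⟨s, hs⟩)
          have h1 := Subgroup.index_ker (κ.comp (sylowCore 2 Γ).subtype)
          rw [hrange, hkc] at h1
          have h2 := Subgroup.card_mul_index (Subgroup.center (sylowCore 2 Γ))
          rw [hcen, hS8, h1] at h2
          omega
        by_cases h8 : 8 ∣ Nat.card κ.range
        · exfalso
          have h24 : Nat.card κ.range = 24 := by
            have h1 : 24 ∣ Nat.card κ.range := by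
              have := Nat.Coprime.mul_dvd_of_dvd_of_dvd (by norm_num : Nat.Coprime 8 3) h8 hpd
              simpa using this
            exact Nat.dvd_antisymm hA24 h1
          have hGcard : Nat.card Γ = Nat.card κ.ker * 24 := by
            rw [← h24, ← Subgroup.index_ker]; exact (Subgroup.card_mul_index κ.ker).symm
          have haa' : (a : Γ) * (a : Γ) = (z : Γ) := congrArg Subtype.val haa
          have hbb' : (b : Γ) * (b : Γ) = (z : Γ) := congrArg Subtype.val hbb
          have hab' : (a : Γ) * (b : Γ) = (b : Γ) * (a : Γ) * (z : Γ) := congrArg Subtype.val hab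
          have hzo : orderOf (z : Γ) = 2 := by rw [Subgroup.orderOf_coe]; exact hz2
          have hz1 : (z : Γ) ≠ 1 := by
            intro h; rw [h, orderOf_one] at hzo; omega
          have hzz : (z : Γ) * (z : Γ) = 1 := by
            have h1 := pow_orderOf_eq_one (z : Γ)
            rw [hzo, sq] at h1
            exact h1
          have hzinv : ∀ v : V, φ (z : Γ) v = v⁻¹ := by
            intro v
            have hfixv : φ (z : Γ) (v * φ (z : Γ) v) = v * φ (z : Γ) v := by
              rw [map_mul, ← MulAut.mul_apply, ← map_mul, hzz, map_one, MulAut.one_apply, mul_comm]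
            have h1 := hfpf (z : Γ) hz1 (by rw [hzo]; decide) _ hfixv
            exact eq_inv_of_mul_eq_one_right h1
          obtain ⟨U, hUcard, hUinv⟩ :=
            Helper84.q8_eigen φ hVp (a : Γ) (b : Γ) (z : Γ) haa' hbb' hab' hzinv
          have hkerU : ∀ c ∈ κ.ker, ∀ u ∈ U, φ c u ∈ U := by
            intro c hc u hu
            have hcc : c ∈ Subgroup.centralizer (sylowCore 2 Γ : Set Γ) :=
              (hker c).mp (MonoidHom.mem_ker.mp hc)
            rw [Subgroup.mem_centralizer_iff] at hcc
            exact hUinv c (hcc a a.2).symm (hcc b b.2).symm u hu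
          obtain ⟨m', hm'⟩ := Helper20.semireg_card_dvd 3 φ hfix κ.ker U hkerU
          have hzcen : z ∈ Subgroup.center (sylowCore 2 Γ) := by
            have : Fact (Nat.Prime 2) := ⟨Nat.prime_two⟩
            obtain ⟨w, hw⟩ := exists_prime_orderOf_dvd_card'
              (G := Subgroup.center (sylowCore 2 Γ)) 2 (by rw [hcen])
            have hw' : orderOf (w : sylowCore 2 Γ) = 2 := by rw [Subgroup.orderOf_coe]; exact hw
            have heq := huniq 2 Nat.prime_two (Ne.symm hp2)
              (Subgroup.zpowers (w : sylowCore 2 Γ)) (Subgroup.zpowers z)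
              (by rw [Nat.card_zpowers, hw']) (by rw [Nat.card_zpowers, hz2])
            have hz_mem : z ∈ Subgroup.zpowers (w : sylowCore 2 Γ) := by
              rw [heq]; exact Subgroup.mem_zpowers z
            exact (Subgroup.zpowers_le.mpr w.2) hz_mem
          have hzker : (z : Γ) ∈ κ.ker := by
            rw [MonoidHom.mem_ker, hker, Subgroup.mem_centralizer_iff]
            intro s hs
            exact congrArg Subtype.val (Subgroup.mem_center_iff.mp hzcen ⟨s, hs⟩)
          have h2ker : 2 ∣ Nat.card κ.ker := by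
            have h1 := Subgroup.orderOf_dvd_natCard _ hzker
            rw [hzo] at h1
            exact h1
          -- arithmetic
          obtain ⟨m, hm⟩ := hcard
          obtain ⟨j, hjn, hj⟩ : ∃ j, j ≤ n ∧ Nat.card U = 3 ^ j := by
            apply (Nat.dvd_prime_pow Nat.prime_three).mp
            rw [← hn, hUcard]
            exact Dvd.intro_left _ (by ring)
          have hV1 : 1 < Nat.card V := Finite.one_lt_card
          have hj1 : 1 ≤ j := by
            by_contra hj0
            have : j = 0 := by omega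
            rw [this, pow_zero] at hj
            rw [hUcard, hj] at hV1
            omega
          obtain ⟨u, hu⟩ : ∃ u, u = Nat.card U := ⟨_, rfl⟩
          obtain ⟨ck, hck⟩ : ∃ ck, ck = Nat.card κ.ker := ⟨_, rfl⟩
          rw [← hu] at hUcard hj hm'
          rw [← hck] at hGcard hm' h2ker
          rw [hUcard] at hm
          rw [hm] at hGcard
          have hu3 : 3 ≤ u := by
            rw [hj]
            calc 3 = 3 ^ 1 := by norm_num
              _ ≤ 3 ^ j := Nat.pow_le_pow_right (by norm_num) hj1
          have hfac : u ^ 2 - 1 = (u - 1) * (u + 1) := by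
            obtain ⟨w, rfl⟩ : ∃ w, u = w + 1 := ⟨u - 1, by omega⟩
            simp only [Nat.add_sub_cancel]
            have e0 : (w + 1) ^ 2 = w * (w + 1 + 1) + 1 := by ring
            rw [e0, Nat.add_sub_cancel]
          have hdvd1 : (u - 1) * ((u + 1) * 3 ^ m) ∣ (u - 1) * (3 ^ m' * 24) := by
            have h1 : ck * 24 ∣ (u - 1) * 3 ^ m' * 24 := Nat.mul_dvd_mul_right hm' 24
            rw [← hGcard, hfac] at h1
            have e1 : (u - 1) * (u + 1) * 3 ^ m = (u - 1) * ((u + 1) * 3 ^ m) := by ring
            have e2 : (u - 1) * 3 ^ m' * 24 = (u - 1) * (3 ^ m' * 24) := by ring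
            rw [e1, e2] at h1
            exact h1
          have hdvd2 : (u + 1) * 3 ^ m ∣ 3 ^ m' * 24 :=
            Nat.dvd_of_mul_dvd_mul_left (by omega) hdvd1
          have hdvd3 : (u + 1) ∣ 3 ^ (m' + 1) * 8 := by
            have e3 : 3 ^ m' * 24 = 3 ^ (m' + 1) * 8 := by ring
            rw [← e3]
            exact (Dvd.intro _ rfl).trans hdvd2
          have hcop : Nat.Coprime (u + 1) (3 ^ (m' + 1)) := by
            apply Nat.Coprime.pow_right
            rw [Nat.coprime_comm]
            apply (Nat.Prime.coprime_iff_not_dvd Nat.prime_three).mpr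
            intro h3
            have h3u : 3 ∣ u := by rw [hj]; exact dvd_pow_self 3 (by omega)
            have h31 : 3 ∣ 1 := (Nat.dvd_add_right h3u).mp h3
            omega
          have hdvd4 : (u + 1) ∣ 8 := hcop.dvd_of_dvd_mul_left hdvd3
          have hu7 : u ≤ 7 := by
            have := Nat.le_of_dvd (by norm_num) hdvd4
            omega
          have hj_eq : j = 1 := by
            by_contra hj2
            have hj2' : 2 ≤ j := by omega
            have h9 : 3 ^ 2 ≤ 3 ^ j := Nat.pow_le_pow_right (by norm_num) hj2'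
            rw [← hj] at h9
            omega
          rw [hj_eq, pow_one] at hj
          rw [hj] at hGcard
          obtain ⟨t, ht⟩ : ∃ t, t = 3 ^ m := ⟨_, rfl⟩
          rw [← ht] at hGcard
          norm_num at hGcard
          have h5 : t = ck * 3 := by omega
          have h6 : ck ∣ 3 ^ m := by rw [← ht, h5]; exact Dvd.intro _ rfl
          have h7 : 2 ∣ 3 ^ m := h2ker.trans h6
          have h8' := Nat.Prime.dvd_of_dvd_pow Nat.prime_two h7
          omega
        · -- the quotient by S ⊔ ker κ has order dividing 3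
          have hLeq : ((sylowCore 2 Γ).map κ).comap κ = sylowCore 2 Γ ⊔ κ.ker :=
            Subgroup.comap_map_eq κ _
          have hLn : (((sylowCore 2 Γ).map κ).comap κ).Normal := by rw [hLeq]; infer_instance
          have hLidx : (((sylowCore 2 Γ).map κ).comap κ).index ∣ 3 := by
            rw [Subgroup.index_comap]
            have h1 := Helper71.card_mul_relIndex_of_le (Subgroup.map_le_range κ (sylowCore 2 Γ))
            rw [hmap4] at h1
            obtain ⟨r, hr⟩ : ∃ r, r = ((sylowCore 2 Γ).map κ).relIndex κ.range := ⟨_, rfl⟩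
            rw [← hr] at h1 ⊢
            have hr6 : r ∣ 3 * 2 := by
              have h2 : 4 * r ∣ 4 * 6 := by rw [h1]; exact hA24
              exact Nat.dvd_of_mul_dvd_mul_left (by norm_num) h2
            have hr_odd : ¬ 2 ∣ r := by
              intro h2
              apply h8
              rw [← h1]
              obtain ⟨t, ht⟩ := h2
              exact ⟨t, by rw [ht]; ring⟩
            have hcop : Nat.Coprime r 2 :=
              Nat.coprime_comm.mp ((Nat.Prime.coprime_iff_not_dvd Nat.prime_two).mpr hr_odd)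
            exact hcop.dvd_of_dvd_mul_right hr6
          apply Helper20.npc_of_abelian_quotient 3
            (Subgroup.centralizer (K : Set Γ) ⊓ ((sylowCore 2 Γ).map κ).comap κ)
          · intro g hg hgp
            apply hpelt g hgp ((hDmem g).mp hg.1)
            rw [← hker]
            have hmem : κ g ∈ (sylowCore 2 Γ).map κ := hg.2
            have h2g : IsPGroup 2 ((sylowCore 2 Γ).map κ) := (sylowCore_isPGroup 2 Γ).map κ
            obtain ⟨j, hj⟩ := (IsPGroup.iff_orderOf.mp h2g) ⟨κ g, hmem⟩
            rw [Subgroup.orderOf_mk] at hj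
            obtain ⟨k, hk⟩ := hgp
            have h1 : orderOf (κ g) ∣ 3 ^ k := by rw [← hk]; exact orderOf_map_dvd κ g
            rw [hj] at h1
            have hj0 : j = 0 := by
              by_contra hj0
              have h2 : 2 ∣ 3 ^ k := (dvd_pow_self 2 hj0).trans h1
              have h3 := Nat.Prime.dvd_of_dvd_pow Nat.prime_two h2
              omega
            rw [hj0, pow_zero] at hj
            exact orderOf_eq_one_iff.mp hj
          · intro a' b'
            exact ⟨hDcomm a' b', gg_comm_mem_of_index_dvd_three _ hLidx a' b'⟩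
      · apply Helper20.npc_of_abelian_quotient p (Subgroup.centralizer (K : Set Γ)) _ hDcomm
        intro g hg hgp
        apply hpelt g hgp ((hDmem g).mp hg)
        rw [← hker]
        obtain ⟨k, hk⟩ := hgp
        have h1 : orderOf (κ g) ∣ p ^ k := by rw [← hk]; exact orderOf_map_dvd κ g
        have h2 : orderOf (κ g) ∣ Nat.card κ.range := Subgroup.orderOf_dvd_natCard _ ⟨g, rfl⟩
        have h3 : (p ^ k).Coprime (Nat.card κ.range) :=
          Nat.Coprime.pow_left _ ((Nat.Prime.coprime_iff_not_dvd hp).mpr hpd)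
        have h4 : orderOf (κ g) = 1 := Nat.eq_one_of_dvd_coprimes h3 h1 h2
        exact orderOf_eq_one_iff.mp h4
  · -- Sylow p-subgroups are abelian
    intro P g hg h hh
    have hc1 : g * h * g⁻¹ * h⁻¹ = 1 := by
      apply hpelt
      · have hmem : g * h * g⁻¹ * h⁻¹ ∈ (P : Subgroup Γ) :=
          mul_mem (mul_mem (mul_mem hg hh) (inv_mem hg)) (inv_mem hh)
        obtain ⟨k, hk⟩ := (IsPGroup.iff_orderOf.mp P.isPGroup') ⟨_, hmem⟩
        rw [Subgroup.orderOf_mk] at hk
        exact ⟨k, hk⟩
      · intro q hq hq2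
        exact hcomm_odd q hq hq2 g h
      · by_cases hp2 : p = 2
        · exact htriv2 hp2 _
        · rw [← gg_conjNormal_eq_one_iff]
          have hPP : IsPGroup p ((P : Subgroup Γ).map
              (MulAut.conjNormal : Γ →* MulAut (sylowCore 2 Γ))) := P.isPGroup'.map _
          have h3 := (hD hp2).1 p _ hp hp2 hPP
          have h4 := gg_comm_of_card_dvd_three _ h3
            ((MulAut.conjNormal : Γ →* MulAut (sylowCore 2 Γ)) g)
            ((MulAut.conjNormal : Γ →* MulAut (sylowCore 2 Γ)) h)
            (Subgroup.mem_map_of_mem _ hg) (Subgroup.mem_map_of_mem _ hh)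
          rw [map_mul, map_mul, map_mul, map_inv, map_inv, h4]
          group
    calc g * h = (g * h * g⁻¹ * h⁻¹) * h * g := by group
      _ = h * g := by rw [hc1, one_mul]

end Cfsg.Agent.Helper73
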