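/-
Helper library of seat helper73: a faithful irreducible character `χ` whose product with a Galois
conjugate `χ^(k)` is irreducible (towards S4843).
-/
import Cfsg.Agent.Helper75.Clifford
import Cfsg.Agent.Helper75.Galois
import Cfsg.Agent.Helper15.CharInner
import Cfsg.Agent.Helper80.CharIrr
import Cfsg.Agent.Helper3.Burnside2
import Cfsg.Agent.Helper76.CentralChar
import Cfsg.Prelude.Def_Solvable

set_option autoImplicit false

namespace Cfsg.Agent.Helper73

open Cfsg Representation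
open scoped ComplexConjugate TensorProduct

/-- An endomorphism commuting with a representation whose character is irreducible is scalar. -/
theorem gp_scalar_of_irr_character {H : Type*} [Group H] [Fintype H] {V : Type*} [AddCommGroup V]
    [Module ℂ V] [FiniteDimensional ℂ V] (τ : Representation ℂ H V)
    (h : IsIrrCharacter H τ.character) (T : Module.End ℂ V)
    (hT : ∀ g, T * τ g = τ g * T) : ∃ c : ℂ, T = c • (1 : Module.End ℂ V) := by
  have hfin : Module.finrank ℂ (IntertwiningMap τ τ) = 1 := by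
    have h1 := Helper75.classInner_character_eq_finrank τ τ
    rw [Helper15.irr_inner_self h] at h1
    exact_mod_cast h1.symm
  have hid : IntertwiningMap.id τ ≠ 0 := by
    intro h0
    have hV : ∀ v : V, v = 0 := fun v => by
      have h1 := congrArg (fun f : IntertwiningMap τ τ => f v) h0
      simpa using h1
    have h1 := Helper80.irr_one_ne_zero ⟨τ.character, h⟩
    apply h1
    change τ.character 1 = 0
    rw [Representation.char_one]
    have : Subsingleton V := ⟨fun a b => by rw [hV a, hV b]⟩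
    simp [Module.finrank_zero_of_subsingleton]
  let F : IntertwiningMap τ τ := ⟨T, hT⟩
  obtain ⟨c, hc⟩ := (finrank_eq_one_iff_of_nonzero' (IntertwiningMap.id τ) hid).mp hfin F
  refine ⟨c, ?_⟩
  have h1 : (c • IntertwiningMap.id τ).toLinearMap = F.toLinearMap :=
    congrArg (fun f : IntertwiningMap τ τ => f.toLinearMap) hc
  change _ = T at h1
  rw [← h1]
  rfl

/-- The generalized orthogonality relation for an irreducible product of two characters, summed
over a normal subgroup `U` along the twisted diagonal `u ↦ (u, u⁻ʲ)`. -/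
theorem gp_core {G : Type*} [Group G] [Fintype G] {n m : ℕ}
    (ρ : Representation ℂ G (Fin n → ℂ)) (ρ' : Representation ℂ G (Fin m → ℂ))
    (hirr : IsIrrCharacter G (ρ.character * ρ'.character))
    (U : Subgroup G) [U.Normal] [Fintype U] (j : ℕ) (x y : G) :
    (∑ u : U, ρ.character (x * u) * ρ'.character (y * ((u : G)⁻¹) ^ j)) *
        (ρ.character 1 * ρ'.character 1) =
      (∑ u : U, ρ.character u * ρ'.character (((u : G)⁻¹) ^ j)) *
        (ρ.character x * ρ'.character y) := by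
  classical
  have hchar : (ρ.tprod ρ').character = ρ.character * ρ'.character :=
    Representation.char_tensor ρ ρ'
  have hsc := gp_scalar_of_irr_character (ρ.tprod ρ') (by rw [hchar]; exact hirr)
  let I : Module.End ℂ ((Fin n → ℂ) ⊗[ℂ] (Fin m → ℂ)) :=
    ∑ u : U, TensorProduct.map (ρ (u : G)) (ρ' (((u : G)⁻¹) ^ j))
  have hcomm : ∀ g, I * (ρ.tprod ρ') g = (ρ.tprod ρ') g * I := by
    intro g
    simp only [I, Representation.tprod_apply, Finset.sum_mul, Finset.mul_sum,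
      ← TensorProduct.map_mul, ← map_mul]
    symm
    refine Fintype.sum_equiv (MulAut.conjNormal g : U ≃* U).toEquiv _ _ (fun u => ?_)
    have e1 : ((MulAut.conjNormal g : U ≃* U).toEquiv u : G) = g * u * g⁻¹ := by
      simp [MulAut.conjNormal_apply]
    rw [e1]
    have e2 : g * (u : G) * g⁻¹ * g = g * u := by group
    have e3 : ((g * (u : G) * g⁻¹)⁻¹) ^ j * g = g * ((u : G)⁻¹) ^ j := by
      have : (g * (u : G) * g⁻¹)⁻¹ = g * (u : G)⁻¹ * g⁻¹ := by group
      rw [this, conj_pow]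
      group
    rw [e2, e3]
  obtain ⟨c, hc⟩ := hsc I hcomm
  have hkey : ∀ x y : G, ∑ u : U, ρ.character (x * u) * ρ'.character (y * ((u : G)⁻¹) ^ j) =
      c * (ρ.character x * ρ'.character y) := by
    intro x y
    have h1 : LinearMap.trace ℂ _ (TensorProduct.map (ρ x) (ρ' y) * I) =
        ∑ u : U, ρ.character (x * u) * ρ'.character (y * ((u : G)⁻¹) ^ j) := by
      simp only [I, Finset.mul_sum, ← TensorProduct.map_mul, ← map_mul, map_sum,
        LinearMap.trace_tensorProduct']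
      rfl
    rw [← h1, hc, mul_smul_comm, mul_one, map_smul, smul_eq_mul, LinearMap.trace_tensorProduct']
    rfl
  have h11 := hkey 1 1
  simp only [one_mul] at h11
  rw [hkey x y, h11]
  ring

/-- Key consequence: a normal subgroup `U` on which the twisted product is "diagonal" is
central. -/
theorem gp_central {G : Type*} [Group G] [Finite G] (χ : IrrCharacter G)
    (hfaith : ∀ g : G, (χ : G → ℂ) g = (χ : G → ℂ) 1 → g = 1) (k j : ℕ)
    (hk : Nat.Coprime k (Nat.card G)) (hj : ∀ g : G, (g ^ j) ^ k = g)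
    (hirr : IsIrrCharacter G (fun g => (χ : G → ℂ) g * (χ : G → ℂ) (g ^ k)))
    (U : Subgroup G) [U.Normal]
    (hU : ∀ u₀ ∈ U, ∀ u ∈ U,
      (χ : G → ℂ) (u₀⁻¹ * u) * (χ : G → ℂ) ((u₀ ^ j * (u⁻¹) ^ j) ^ k) =
        (χ : G → ℂ) (u₀⁻¹ * u) * conj ((χ : G → ℂ) (u₀⁻¹ * u))) :
    U ≤ Subgroup.center G := by
  classical
  have : Fintype G := Fintype.ofFinite G
  have : Fintype U := Fintype.ofFinite U
  obtain ⟨n, ρ, hρ, hχ⟩ := χ.2
  obtain ⟨m, ρ', hρ', hχ'⟩ := Helper75.isIrrCharacter_pow k hk χ.2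
  have hirr' : IsIrrCharacter G (ρ.character * ρ'.character) := by
    rw [hχ, hχ']; exact hirr
  have hcharinv : ∀ g : G, (χ : G → ℂ) g⁻¹ = conj ((χ : G → ℂ) g) :=
    Helper80.isCharacter_inv (Helper80.isCharacter_of_irr χ.2)
  intro u₀ hu₀
  have h := gp_core ρ ρ' hirr' U j u₀⁻¹ (u₀ ^ j)
  rw [hχ, hχ'] at h
  simp only [one_pow, hj, hcharinv] at h
  have hsum1 : ∑ u : U, (χ : G → ℂ) (u₀⁻¹ * u) *
      (χ : G → ℂ) ((u₀ ^ j * ((u : G)⁻¹) ^ j) ^ k) =
      ∑ u : U, (χ : G → ℂ) u * conj ((χ : G → ℂ) u) := by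
    rw [Finset.sum_congr rfl (fun (u : U) _ => hU u₀ hu₀ (u : G) u.2)]
    exact Fintype.sum_equiv (Equiv.mulLeft (⟨u₀, hu₀⟩⁻¹ : U)) _ _ (fun u => rfl)
  rw [hsum1] at h
  have hS : (∑ u : U, (χ : G → ℂ) u * conj ((χ : G → ℂ) u)) ≠ 0 := by
    have h1 : ∑ u : U, (χ : G → ℂ) u * conj ((χ : G → ℂ) u) =
        ((∑ u : U, Complex.normSq ((χ : G → ℂ) u) : ℝ) : ℂ) := by
      push_cast
      exact Finset.sum_congr rfl (fun u _ => Complex.mul_conj _)
    rw [h1]
    have h2 : 0 < ∑ u : U, Complex.normSq ((χ : G → ℂ) u) := by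
      have h3 : Complex.normSq ((χ : G → ℂ) ((1 : U) : G)) ≤
          ∑ u : U, Complex.normSq ((χ : G → ℂ) u) :=
        Finset.single_le_sum (f := fun u : U => Complex.normSq ((χ : G → ℂ) u))
          (fun u _ => Complex.normSq_nonneg _) (Finset.mem_univ (1 : U))
      have h4 : 0 < Complex.normSq ((χ : G → ℂ) ((1 : U) : G)) :=
        Complex.normSq_pos.mpr (Helper80.irr_one_ne_zero χ)
      linarith
    exact_mod_cast h2.ne'
  have h5 : (χ : G → ℂ) 1 * (χ : G → ℂ) 1 = conj ((χ : G → ℂ) u₀) * (χ : G → ℂ) u₀ :=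
    mul_left_cancel₀ hS h
  have h1n : (χ : G → ℂ) 1 = (n : ℂ) := by
    rw [← hχ, Representation.char_one]; simp
  have hnorm : ‖ρ.character u₀‖ = (Module.finrank ℂ (Fin n → ℂ) : ℝ) := by
    rw [hχ]
    have h6 : Complex.normSq ((χ : G → ℂ) u₀) = (n : ℝ) ^ 2 := by
      have : ((Complex.normSq ((χ : G → ℂ) u₀) : ℝ) : ℂ) = (((n : ℝ) ^ 2 : ℝ) : ℂ) := by
        rw [← Complex.mul_conj, mul_comm, ← h5, h1n]; push_cast; ring
      exact_mod_cast this
    rw [Complex.normSq_eq_norm_sq] at h6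
    have h7 : ‖(χ : G → ℂ) u₀‖ = (n : ℝ) :=
      (sq_eq_sq₀ (norm_nonneg _) (Nat.cast_nonneg n)).mp h6
    rw [h7]; simp
  obtain ⟨ω, hω⟩ := Helper3.rep_scalar_of_norm_eq ρ u₀ hnorm
  rw [Subgroup.mem_center_iff]
  intro g
  have hcomm : ρ g * ρ u₀ = ρ u₀ * ρ g := by
    rw [hω]; ext v; simp
  have hw : g * u₀ * g⁻¹ * u₀⁻¹ = 1 := by
    apply hfaith
    rw [← hχ]
    unfold Representation.character
    have : ρ (g * u₀ * g⁻¹ * u₀⁻¹) = ρ 1 := by
      rw [map_mul, map_mul, map_mul, hcomm, mul_assoc (ρ u₀), ← map_mul ρ g, mul_inv_cancel,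
        map_one, mul_one, ← map_mul, mul_inv_cancel, map_one]
    rw [this]
  calc g * u₀ = (g * u₀ * g⁻¹ * u₀⁻¹) * (u₀ * g) := by group
    _ = u₀ * g := by rw [hw, one_mul]

/-- An abelian normal subgroup is central. -/
theorem gp_abelian_le_center {G : Type*} [Group G] [Finite G] (χ : IrrCharacter G)
    (hfaith : ∀ g : G, (χ : G → ℂ) g = (χ : G → ℂ) 1 → g = 1) (k j : ℕ)
    (hk : Nat.Coprime k (Nat.card G)) (hj : ∀ g : G, (g ^ j) ^ k = g)
    (hirr : IsIrrCharacter G (fun g => (χ : G → ℂ) g * (χ : G → ℂ) (g ^ k)))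
    (U : Subgroup G) [U.Normal] (hab : ∀ a ∈ U, ∀ b ∈ U, a * b = b * a) :
    U ≤ Subgroup.center G := by
  have hcharinv : ∀ g : G, (χ : G → ℂ) g⁻¹ = conj ((χ : G → ℂ) g) :=
    Helper80.isCharacter_inv (Helper80.isCharacter_of_irr χ.2)
  apply gp_central χ hfaith k j hk hj hirr U
  intro u₀ hu₀ u hu
  have hc : Commute u₀ u⁻¹ := hab u₀ hu₀ u⁻¹ (U.inv_mem hu)
  have e1 : u₀ ^ j * (u⁻¹) ^ j = (u₀ * u⁻¹) ^ j := (hc.mul_pow j).symm
  have e2 : u₀ * u⁻¹ = (u₀⁻¹ * u)⁻¹ := by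
    rw [mul_inv_rev, inv_inv]; exact hc
  rw [e1, hj, e2, hcharinv]

/-- A normal subgroup whose commutators are central in `G` is central. -/
theorem gp_class_two_le_center {G : Type*} [Group G] [Finite G] (χ : IrrCharacter G)
    (hfaith : ∀ g : G, (χ : G → ℂ) g = (χ : G → ℂ) 1 → g = 1) (k j : ℕ)
    (hk : Nat.Coprime k (Nat.card G)) (hj : ∀ g : G, (g ^ j) ^ k = g)
    (hirr : IsIrrCharacter G (fun g => (χ : G → ℂ) g * (χ : G → ℂ) (g ^ k)))
    (U : Subgroup G) [U.Normal]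
    (hU2 : ∀ a ∈ U, ∀ b ∈ U, a * b * a⁻¹ * b⁻¹ ∈ Subgroup.center G) :
    U ≤ Subgroup.center G := by
  have hcharinv : ∀ g : G, (χ : G → ℂ) g⁻¹ = conj ((χ : G → ℂ) g) :=
    Helper80.isCharacter_inv (Helper80.isCharacter_of_irr χ.2)
  have hA : U ⊓ Subgroup.centralizer (U : Set G) ≤ Subgroup.center G := by
    have : (U ⊓ Subgroup.centralizer (U : Set G)).Normal := inferInstance
    apply gp_abelian_le_center χ hfaith k j hk hj hirr
    intro a ha b hb
    exact (Subgroup.mem_centralizer_iff.mp ha.2 b hb.1).symm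
  obtain ⟨c, hc⟩ := Helper76.exists_central_scalar (Subgroup.center G).subtype (fun z => z.2) χ
  have hvan : ∀ x ∈ U, x ∉ Subgroup.center G → (χ : G → ℂ) x = 0 := by
    intro x hx hxZ
    have hxc : x ∉ Subgroup.centralizer (U : Set G) := fun h => hxZ (hA ⟨hx, h⟩)
    rw [Subgroup.mem_centralizer_iff] at hxc
    push Not at hxc
    obtain ⟨y, hy, hyx⟩ := hxc
    have hw : x⁻¹ * y * x⁻¹⁻¹ * y⁻¹ ∈ Subgroup.center G := hU2 x⁻¹ (U.inv_mem hx) y hy
    rw [inv_inv] at hw
    have hw1 : x⁻¹ * y * x * y⁻¹ ≠ 1 := by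
      intro h1
      apply hyx
      calc y * x = x * (x⁻¹ * y * x * y⁻¹) * y := by group
        _ = x * y := by rw [h1, mul_one]
    have h2 : (χ : G → ℂ) x = c ⟨_, hw⟩ * (χ : G → ℂ) x := by
      have h3 := hc ⟨_, hw⟩ x
      rw [← h3]
      have : x * (Subgroup.center G).subtype ⟨_, hw⟩ = y * x * y⁻¹ := by
        simp only [Subgroup.coe_subtype]; group
      rw [this, Helper80.isCharacter_conj (Helper80.isCharacter_of_irr χ.2)]
    have h4 : c ⟨_, hw⟩ ≠ 1 := by
      intro h5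
      apply hw1
      apply hfaith
      have h3 := hc ⟨_, hw⟩ 1
      rw [one_mul, h5, one_mul] at h3
      exact h3
    have h6 : (1 - c ⟨_, hw⟩) * (χ : G → ℂ) x = 0 := by rw [sub_mul, one_mul, ← h2, sub_self]
    rcases mul_eq_zero.mp h6 with h | h
    · exact absurd (sub_eq_zero.mp h).symm h4
    · exact h
  apply gp_central χ hfaith k j hk hj hirr U
  intro u₀ hu₀ u hu
  by_cases hz : u₀⁻¹ * u ∈ Subgroup.center G
  · have e1 : (u₀ ^ j * (u⁻¹) ^ j) ^ k = (u₀⁻¹ * u)⁻¹ := by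
      have hu' : u⁻¹ = (u₀⁻¹ * u)⁻¹ * u₀⁻¹ := by group
      have hzi : (u₀⁻¹ * u)⁻¹ ∈ Subgroup.center G := inv_mem hz
      have hcz : Commute (u₀⁻¹ * u)⁻¹ u₀⁻¹ := (Subgroup.mem_center_iff.mp hzi u₀⁻¹).symm
      have hzj : ((u₀⁻¹ * u)⁻¹) ^ j ∈ Subgroup.center G := pow_mem hzi j
      have e2 : u₀ ^ j * (u⁻¹) ^ j = ((u₀⁻¹ * u)⁻¹) ^ j := by
        calc u₀ ^ j * (u⁻¹) ^ j = u₀ ^ j * (((u₀⁻¹ * u)⁻¹) ^ j * (u₀⁻¹) ^ j) := by
              conv_lhs => rw [hu', hcz.mul_pow]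
          _ = ((u₀⁻¹ * u)⁻¹) ^ j * (u₀ ^ j * (u₀⁻¹) ^ j) := by
              rw [← mul_assoc, Subgroup.mem_center_iff.mp hzj (u₀ ^ j), mul_assoc]
          _ = ((u₀⁻¹ * u)⁻¹) ^ j := by rw [inv_pow u₀, mul_inv_cancel, mul_one]
      rw [e2, hj]
    rw [e1, hcharinv]
  · rw [hvan _ (U.mul_mem (U.inv_mem hu₀) hu) hz, zero_mul, zero_mul]

/-- Every normal nilpotent subgroup is central. -/
theorem gp_nilpotent_le_center {G : Type*} [Group G] [Finite G] (χ : IrrCharacter G)
    (hfaith : ∀ g : G, (χ : G → ℂ) g = (χ : G → ℂ) 1 → g = 1) (k j : ℕ)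
    (hk : Nat.Coprime k (Nat.card G)) (hj : ∀ g : G, (g ^ j) ^ k = g)
    (hirr : IsIrrCharacter G (fun g => (χ : G → ℂ) g * (χ : G → ℂ) (g ^ k)))
    (N : Subgroup G) [hN : N.Normal] (hnil : Group.IsNilpotent N) :
    N ≤ Subgroup.center G := by
  have key : ∀ i : ℕ, (Subgroup.upperCentralSeries N i).map N.subtype ≤ Subgroup.center G := by
    intro i
    induction i with
    | zero =>
      rw [Subgroup.upperCentralSeries_zero, Subgroup.map_bot]
      exact bot_le
    | succ i ih =>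
      apply gp_class_two_le_center χ hfaith k j hk hj hirr
      rintro a ⟨a', ha', rfl⟩ b ⟨b', hb', rfl⟩
      apply ih
      refine ⟨a' * b' * a'⁻¹ * b'⁻¹, ?_, by simp⟩
      exact Subgroup.mem_upperCentralSeries_succ_iff.mp ha' b'
  obtain ⟨i, hi⟩ := hnil.nilpotent
  have h := key i
  rw [hi, ← MonoidHom.range_eq_map, Subgroup.range_subtype] at h
  exact h

/-- The Fitting subgroup equals the centre. -/
theorem gp_fitting_eq_center {G : Type*} [Group G] [Finite G] (χ : IrrCharacter G)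
    (hfaith : ∀ g : G, (χ : G → ℂ) g = (χ : G → ℂ) 1 → g = 1) (k : ℕ)
    (hk : Nat.Coprime k (Nat.card G))
    (hirr : IsIrrCharacter G (fun g => (χ : G → ℂ) g * (χ : G → ℂ) (g ^ k))) :
    Cfsg.fittingSubgroup G = Subgroup.center G := by
  have hj : ∃ j : ℕ, ∀ g : G, (g ^ j) ^ k = g := by
    by_cases h1 : 1 < Nat.card G
    · obtain ⟨j, -, hj⟩ := Nat.exists_mul_mod_eq_one_of_coprime hk h1
      refine ⟨j, fun g => ?_⟩
      rw [← pow_mul, mul_comm, ← pow_mod_natCard, hj, pow_one]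
    · have h2 : Nat.card G = 1 := le_antisymm (not_lt.mp h1) Nat.card_pos
      have : Subsingleton G := (Nat.card_eq_one_iff_unique.mp h2).1
      exact ⟨0, fun g => Subsingleton.elim _ _⟩
  obtain ⟨j, hj⟩ := hj
  apply le_antisymm
  · apply sSup_le
    rintro N ⟨hN, hnil⟩
    exact gp_nilpotent_le_center χ hfaith k j hk hj hirr N hnil
  · have hnil : Group.IsNilpotent (Subgroup.center G) := by
      refine ⟨⟨1, ?_⟩⟩
      rw [Subgroup.upperCentralSeries_one, eq_top_iff]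
      rintro ⟨z, hz⟩ -
      rw [Subgroup.mem_center_iff]
      rintro ⟨g, hg⟩
      exact Subtype.ext (Subgroup.mem_center_iff.mp hz g)
    exact le_sSup ⟨inferInstance, hnil⟩

end Cfsg.Agent.Helper73
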