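import Mathlib
import Cfsg.Agent.Helper75.GaloisMean

/-!
# Real Galois means and local divisibility (helper73)

* `maj_prod_galois_int`: the product of the Galois conjugates of an algebraic integer of a
  cyclotomic field is a rational integer.
* `majRe n σ w`: the real part of the Galois mean; additive, `ℤ`-linear, `≥ 1` on `x conj x` for
  nonzero algebraic integers `x` (`majRe_normSq_ge_one`).
* `majRe_ge_pow`: if all conjugates of the nonzero algebraic integer `w` are nonnegative reals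
  divisible by `p^e` in the local ring, then the mean is at least `p^e`.
-/

set_option autoImplicit false
open Cfsg
open scoped ComplexConjugate

namespace Cfsg.Agent.Helper73

/-- The product of the Galois conjugates of an algebraic integer of a cyclotomic field is a
rational integer. -/
theorem maj_prod_galois_int (n : ℕ) [NeZero n] (σ : (ZMod n)ˣ → (ℂ ≃+* ℂ))
    (hσ : ∀ (u : (ZMod n)ˣ) (z : ℂ), z ^ n = 1 → σ u z = z ^ (u : ZMod n).val) (m : ℂ)
    (hmem : m ∈ Helper75.cycField n) (hint : IsIntegral ℤ m) :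
    ∃ j : ℤ, ∏ u : (ZMod n)ˣ, σ u m = (j : ℂ) := by
  have hn : n ≠ 0 := NeZero.ne n
  set P : ℂ := ∏ u : (ZMod n)ˣ, σ u m with hP
  have hmemP : P ∈ Helper75.cycField n :=
    prod_mem (fun u _ => Helper75.ringEquiv_mem_cycField (σ u) n hmem)
  have hintP : IsIntegral ℤ P := IsIntegral.prod _ (fun u _ => map_isIntegral_int (σ u) hint)
  have hfix : ∀ τ : ℂ ≃+* ℂ, τ P = P := by
    intro τ
    obtain ⟨k, hk, hτ⟩ := Helper75.exists_pow_of_ringEquiv τ n hn
    set v : (ZMod n)ˣ := ZMod.unitOfCoprime k hk with hv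
    rw [hP, map_prod]
    rw [← Equiv.prod_comp (Equiv.mulLeft v) (fun u : (ZMod n)ˣ => σ u m)]
    apply Finset.prod_congr rfl
    intro u _
    rw [Equiv.coe_mulLeft]
    have key := Helper75.ringHom_eqOn_cycField n ((τ : ℂ →+* ℂ).comp (σ u : ℂ →+* ℂ))
      (σ (v * u) : ℂ →+* ℂ) (fun ζ hζ => ?_) hmem
    · simpa using key
    · simp only [RingHom.comp_apply, RingHom.coe_coe]
      rw [hσ u ζ hζ, hσ (v * u) ζ hζ, map_pow, hτ ζ hζ, ← pow_mul]
      rw [pow_eq_pow_mod (k * (u : ZMod n).val) hζ]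
      congr 1
      rw [Units.val_mul, ZMod.val_mul, hv, ZMod.coe_unitOfCoprime, ZMod.val_natCast]
      rw [Nat.mod_mul_mod]
  exact Helper75.int_of_fixed n hn P hmemP hintP hfix

theorem maj_gmean_normSq (n : ℕ) [NeZero n] (σ : (ZMod n)ˣ → (ℂ ≃+* ℂ)) {x : ℂ}
    (hx : x ∈ Helper75.cycField n) :
    Helper75.gmean n σ (x * conj x)
      = (((Fintype.card (ZMod n)ˣ : ℝ)⁻¹ * ∑ u : (ZMod n)ˣ, ‖σ u x‖ ^ 2 : ℝ) : ℂ) := by
  have hn : n ≠ 0 := NeZero.ne n
  unfold Helper75.gmean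
  push_cast
  congr 1
  refine Finset.sum_congr rfl fun u _ => ?_
  rw [map_mul, Helper75.ringEquiv_conj_comm (σ u) n hn hx, Complex.mul_conj,
    Complex.normSq_eq_norm_sq]
  push_cast
  rfl

/-- The real part of the Galois mean. -/
noncomputable def majRe (n : ℕ) [NeZero n] (σ : (ZMod n)ˣ → (ℂ ≃+* ℂ)) (w : ℂ) : ℝ :=
  (Helper75.gmean n σ w).re

theorem majRe_add (n : ℕ) [NeZero n] (σ : (ZMod n)ˣ → (ℂ ≃+* ℂ)) (x y : ℂ) :
    majRe n σ (x + y) = majRe n σ x + majRe n σ y := by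
  unfold majRe
  rw [Helper75.gmean_add, Complex.add_re]

theorem majRe_sum (n : ℕ) [NeZero n] (σ : (ZMod n)ˣ → (ℂ ≃+* ℂ)) {ι : Type*} (s : Finset ι)
    (f : ι → ℂ) : majRe n σ (∑ i ∈ s, f i) = ∑ i ∈ s, majRe n σ (f i) := by
  unfold majRe
  rw [Helper75.gmean_sum, Complex.re_sum]

theorem majRe_intCast_mul (n : ℕ) [NeZero n] (σ : (ZMod n)ˣ → (ℂ ≃+* ℂ)) (c : ℤ) (x : ℂ) :
    majRe n σ ((c : ℂ) * x) = (c : ℝ) * majRe n σ x := by
  unfold majRe
  rw [Helper75.gmean_intCast_mul]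
  have h1 : (c : ℂ) = ((c : ℝ) : ℂ) := by push_cast; rfl
  rw [h1, Complex.re_ofReal_mul]

theorem majRe_natCast (n : ℕ) [NeZero n] (σ : (ZMod n)ˣ → (ℂ ≃+* ℂ)) (c : ℕ) :
    majRe n σ (c : ℂ) = (c : ℝ) := by
  unfold majRe
  rw [Helper75.gmean_natCast]
  simp

theorem majRe_normSq_nonneg (n : ℕ) [NeZero n] (σ : (ZMod n)ˣ → (ℂ ≃+* ℂ)) {x : ℂ}
    (hx : x ∈ Helper75.cycField n) : 0 ≤ majRe n σ (x * conj x) := by
  unfold majRe
  rw [maj_gmean_normSq n σ hx, Complex.ofReal_re]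
  positivity

theorem majRe_normSq_ge_one (n : ℕ) [NeZero n] (σ : (ZMod n)ˣ → (ℂ ≃+* ℂ))
    (hσ : ∀ (u : (ZMod n)ˣ) (z : ℂ), z ^ n = 1 → σ u z = z ^ (u : ZMod n).val) {x : ℂ}
    (hx : x ∈ Helper75.cycField n) (hint : IsIntegral ℤ x) (hne : x ≠ 0) :
    1 ≤ majRe n σ (x * conj x) := by
  unfold majRe
  rw [maj_gmean_normSq n σ hx, Complex.ofReal_re]
  have h1 := Helper75.one_le_norm_prod_galois n σ hσ x hx hint hne
  have h2 : (1 : ℝ) ≤ ∏ u : (ZMod n)ˣ, ‖σ u x‖ ^ 2 := by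
    rw [Finset.prod_pow, ← norm_prod]
    nlinarith
  have key := Helper75.card_le_sum_of_one_le_prod Finset.univ
    (fun u : (ZMod n)ˣ => ‖σ u x‖ ^ 2) (fun _ _ => by positivity) h2
  rw [Finset.card_univ] at key
  have hφ : (0 : ℝ) < Fintype.card (ZMod n)ˣ := by exact_mod_cast Fintype.card_pos
  rw [inv_mul_eq_div, le_div_iff₀ hφ, one_mul]
  exact key

/-- An integer divisible by `p^E` in the local ring is divisible by `p^E`. -/
theorem maj_pow_dvd_of_memLocalRing {p : ℕ} {M : Ideal Cfsg.AlgInt} (hM : Cfsg.IsPModular p M)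
    (E : ℕ) : ∀ j : ℤ, Cfsg.MemLocalRing M ((j : ℂ) / (p : ℂ) ^ E) → (p : ℤ) ^ E ∣ j := by
  have hMm := hM.2.1
  have hPrime := hMm.isPrime
  have hp := hM.1
  have hpc : (p : ℂ) ≠ 0 := by exact_mod_cast hp.ne_zero
  induction E with
  | zero => intro j _; simp
  | succ E ih =>
    intro j hj
    have h1 : Cfsg.MemLocalRing M ((j : ℂ) / (p : ℂ)) := by
      have h2 := Helper77.memLocalRing_mul hMm
        (Helper81.memLocalRing_pow (M := M) (Helper81.memLocalRing_natCast hMm.ne_top p) E) hj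
      have e : ((p : ℕ) : ℂ) ^ E * ((j : ℂ) / (p : ℂ) ^ (E + 1)) = (j : ℂ) / (p : ℂ) := by
        rw [pow_succ]
        field_simp
      rwa [e] at h2
    have hdvd : (p : ℤ) ∣ j := by
      by_contra hnd
      have hnd' : ¬ p ∣ j.natAbs := fun h => hnd (Int.natCast_dvd.mpr h)
      have h3 : Cfsg.MemLocalIdeal M (j : ℂ) := by
        have h4 := Helper77.memLocalIdeal_mul hMm h1 (Helper77.memLocalIdeal_prime hM)
        have e : (j : ℂ) / (p : ℂ) * (p : ℂ) = (j : ℂ) := by field_simp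
        rwa [e] at h4
      have h5 : Cfsg.MemLocalIdeal M ((j.natAbs : ℕ) : ℂ) := by
        rcases Int.natAbs_eq j with h | h
        · have e : ((j.natAbs : ℕ) : ℂ) = (j : ℂ) := by
            have h' : ((j.natAbs : ℕ) : ℤ) = j := h.symm
            rw [← Int.cast_natCast, h']
          rw [e]
          exact h3
        · have e : ((j.natAbs : ℕ) : ℂ) = -(j : ℂ) := by
            have h' : ((j.natAbs : ℕ) : ℤ) = -j := by omega
            rw [← Int.cast_natCast, h', Int.cast_neg]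
          rw [e]
          exact Helper77.memLocalIdeal_neg h3
      exact Helper77.not_memLocalIdeal_natCast hM hnd' h5
    obtain ⟨j', rfl⟩ := hdvd
    have h6 : Cfsg.MemLocalRing M ((j' : ℂ) / (p : ℂ) ^ E) := by
      have e : (((p : ℤ) * j' : ℤ) : ℂ) / (p : ℂ) ^ (E + 1) = (j' : ℂ) / (p : ℂ) ^ E := by
        push_cast
        rw [pow_succ]
        field_simp
      rwa [e] at hj
    obtain ⟨c, hc⟩ := ih j' h6
    exact ⟨c, by rw [hc, pow_succ]; ring⟩

/-- If all Galois conjugates of the nonzero algebraic integer `w` are nonnegative reals divisible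
by `p^e` in the local ring, then the mean of the conjugates is at least `p^e`. -/
theorem majRe_ge_pow (n : ℕ) [NeZero n] (σ : (ZMod n)ˣ → (ℂ ≃+* ℂ))
    (hσ : ∀ (u : (ZMod n)ˣ) (z : ℂ), z ^ n = 1 → σ u z = z ^ (u : ZMod n).val)
    {p : ℕ} {M : Ideal Cfsg.AlgInt} (hM : Cfsg.IsPModular p M) (w : ℂ)
    (hw : w ∈ Helper75.cycField n) (hint : IsIntegral ℤ w) (hne : w ≠ 0) (e : ℕ)
    (hreal : ∀ u, ∃ r : ℝ, 0 ≤ r ∧ σ u w = (r : ℂ))
    (hloc : ∀ u, Cfsg.MemLocalRing M (σ u w / (p : ℂ) ^ e)) :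
    (p : ℝ) ^ e ≤ majRe n σ w := by
  classical
  have hMm := hM.2.1
  have hPrime := hMm.isPrime
  have hp := hM.1
  have hppos : (0 : ℝ) < (p : ℝ) := by exact_mod_cast hp.pos
  choose r hr0 hr using hreal
  obtain ⟨j, hj⟩ := maj_prod_galois_int n σ hσ w hw hint
  have hprod : ((∏ u, r u : ℝ) : ℂ) = (j : ℂ) := by
    rw [← hj]
    push_cast
    exact Finset.prod_congr rfl fun u _ => (hr u).symm
  have hjr : (j : ℝ) = ∏ u, r u := by exact_mod_cast hprod.symm
  have hrne : ∀ u, r u ≠ 0 := by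
    intro u h0
    have h1 := hr u
    rw [h0, Complex.ofReal_zero] at h1
    exact hne ((map_eq_zero_iff (σ u) (σ u).injective).mp h1)
  have hrpos : ∀ u, 0 < r u := fun u => lt_of_le_of_ne (hr0 u) (Ne.symm (hrne u))
  have hjpos : 0 < j := by
    have h1 : (0 : ℝ) < (j : ℝ) := by
      rw [hjr]
      exact Finset.prod_pos fun u _ => hrpos u
    exact_mod_cast h1
  have hloc' : Cfsg.MemLocalRing M ((j : ℂ) / (p : ℂ) ^ (e * Fintype.card (ZMod n)ˣ)) := by
    have h1 := Helper81.memLocalRing_prod (M := M) Finset.univ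
      (fun u : (ZMod n)ˣ => σ u w / (p : ℂ) ^ e) (fun u _ => hloc u)
    rw [Finset.prod_div_distrib, hj, Finset.prod_const, Finset.card_univ, ← pow_mul] at h1
    exact h1
  obtain ⟨c, hc⟩ := maj_pow_dvd_of_memLocalRing hM _ j hloc'
  have hpp : (0 : ℤ) < (p : ℤ) ^ (e * Fintype.card (ZMod n)ˣ) := by
    have : (0 : ℤ) < (p : ℤ) := by exact_mod_cast hp.pos
    positivity
  have hcpos : 1 ≤ c := by
    by_contra hcon
    have h1 : c ≤ 0 := by omega
    nlinarith
  have hge : ((p : ℝ) ^ e) ^ (Fintype.card (ZMod n)ˣ) ≤ ∏ u, r u := by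
    rw [← hjr, ← pow_mul, hc]
    push_cast
    have h1 : (1 : ℝ) ≤ (c : ℝ) := by exact_mod_cast hcpos
    have h2 : (0 : ℝ) ≤ (p : ℝ) ^ (e * Fintype.card (ZMod n)ˣ) := by positivity
    nlinarith
  have hpe : (0 : ℝ) < (p : ℝ) ^ e := by positivity
  have h2 : (1 : ℝ) ≤ ∏ u, r u / (p : ℝ) ^ e := by
    rw [Finset.prod_div_distrib, Finset.prod_const, Finset.card_univ,
      le_div_iff₀ (by positivity), one_mul]
    exact hge
  have key := Helper75.card_le_sum_of_one_le_prod Finset.univ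
    (fun u : (ZMod n)ˣ => r u / (p : ℝ) ^ e) (fun u _ => div_nonneg (hr0 u) hpe.le) h2
  rw [Finset.card_univ, ← Finset.sum_div, le_div_iff₀ hpe] at key
  have hre : majRe n σ w = (Fintype.card (ZMod n)ˣ : ℝ)⁻¹ * ∑ u, r u := by
    unfold majRe Helper75.gmean
    simp only [hr]
    rw [← Complex.ofReal_sum, ← Complex.ofReal_natCast, ← Complex.ofReal_inv,
      ← Complex.ofReal_mul, Complex.ofReal_re]
  rw [hre]
  have hφ : (0 : ℝ) < Fintype.card (ZMod n)ˣ := by exact_mod_cast Fintype.card_pos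
  rw [inv_mul_eq_div, le_div_iff₀ hφ]
  linarith

end Cfsg.Agent.Helper73
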