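import Mathlib
import Cfsg.Agent.Helper73.MajGalois
import Cfsg.Agent.Helper75.GaloisAMGM

/-!
# Contribution matrices of binary-form type (helper73)

`maj_card_le`: a Hermitian matrix `a χ ψ = α x x̄' + β (x ȳ' + y x̄') + γ y ȳ'` over the integers
of a cyclotomic field (`0 ≤ 2β ≤ α ≤ γ`, `1 ≤ α`) on a finite set `BF`, with
`Σ_ψ |a χ ψ|² = p^d a χ χ`, trace `p^d l` (`l ≤ 2`), nonvanishing rows at "height zero" indices
and Galois means of the diagonal entries at least `p^{h χ}`, has `|BF| ≤ p^d`.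
-/

set_option autoImplicit false
open Cfsg
open scoped ComplexConjugate

namespace Cfsg.Agent.Helper73

theorem maj_card_le (n : ℕ) [NeZero n] (σ : (ZMod n)ˣ → (ℂ ≃+* ℂ))
    (hσ : ∀ (u : (ZMod n)ˣ) (z : ℂ), z ^ n = 1 → σ u z = z ^ (u : ZMod n).val)
    {ι : Type*} (BF : Finset ι) (h : ι → ℕ) (p d l : ℕ) (hp : 2 ≤ p) (hl : l ≤ 2)
    (α β γ : ℤ) (hα : 1 ≤ α) (hβ0 : 0 ≤ 2 * β) (hβ : 2 * β ≤ α) (hle : α ≤ γ)
    (x y : ι → ℂ)
    (hx : ∀ χ, x χ ∈ Helper75.cycField n) (hxi : ∀ χ, IsIntegral ℤ (x χ))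
    (hy : ∀ χ, y χ ∈ Helper75.cycField n) (hyi : ∀ χ, IsIntegral ℤ (y χ))
    (a : ι → ι → ℂ)
    (ha : ∀ χ ψ, a χ ψ = (α : ℂ) * (x χ * conj (x ψ))
      + (β : ℂ) * (x χ * conj (y ψ) + y χ * conj (x ψ)) + (γ : ℂ) * (y χ * conj (y ψ)))
    (hrow : ∀ χ ∈ BF, ∑ ψ ∈ BF, a χ ψ * conj (a χ ψ) = (p : ℂ) ^ d * a χ χ)
    (htrace : ∑ χ ∈ BF, a χ χ = (p : ℂ) ^ d * (l : ℂ))
    (hP : ∀ χ ∈ BF, a χ χ ≠ 0 → ((p : ℝ) ^ h χ) ≤ majRe n σ (a χ χ))
    (hnv : ∀ ψ₀ ∈ BF, h ψ₀ = 0 → ∀ χ ∈ BF, a ψ₀ χ ≠ 0)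
    (hex : ∃ ψ₀ ∈ BF, h ψ₀ = 0) :
    BF.card ≤ p ^ d := by
  classical
  have hn : n ≠ 0 := NeZero.ne n
  have hpR : (2 : ℝ) ≤ (p : ℝ) := by exact_mod_cast hp
  have hlR : (l : ℝ) ≤ 2 := by exact_mod_cast hl
  have hαR : (1 : ℝ) ≤ (α : ℝ) := by exact_mod_cast hα
  have hβ0R : (0 : ℝ) ≤ (β : ℝ) := by
    have : (0 : ℤ) ≤ β := by omega
    exact_mod_cast this
  have hβR : 2 * (β : ℝ) ≤ (α : ℝ) := by exact_mod_cast hβ
  have hleR : (α : ℝ) ≤ (γ : ℝ) := by exact_mod_cast hle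
  have hzero : majRe n σ 0 = 0 := by
    have := majRe_natCast n σ 0
    simpa using this
  have hherm : ∀ χ ψ, a ψ χ = conj (a χ ψ) := by
    intro χ ψ
    rw [ha, ha]
    simp only [map_add, map_mul, map_intCast, Complex.conj_conj]
    ring
  have hdiag : ∀ χ, a χ χ = ((α - β : ℤ) : ℂ) * (x χ * conj (x χ))
      + ((γ - β : ℤ) : ℂ) * (y χ * conj (y χ))
      + ((β : ℤ) : ℂ) * ((x χ + y χ) * conj (x χ + y χ)) := by
    intro χ
    rw [ha, map_add]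
    push_cast
    ring
  have hS : ∀ χ, majRe n σ (a χ χ) = ((α : ℝ) - β) * majRe n σ (x χ * conj (x χ))
      + ((γ : ℝ) - β) * majRe n σ (y χ * conj (y χ))
      + (β : ℝ) * majRe n σ ((x χ + y χ) * conj (x χ + y χ)) := by
    intro χ
    rw [hdiag, majRe_add, majRe_add, majRe_intCast_mul, majRe_intCast_mul, majRe_intCast_mul]
    push_cast
    ring
  have hX1 : ∀ χ, x χ ≠ 0 → 1 ≤ majRe n σ (x χ * conj (x χ)) :=
    fun χ h => majRe_normSq_ge_one n σ hσ (hx χ) (hxi χ) h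
  have hY1 : ∀ χ, y χ ≠ 0 → 1 ≤ majRe n σ (y χ * conj (y χ)) :=
    fun χ h => majRe_normSq_ge_one n σ hσ (hy χ) (hyi χ) h
  have hZ0 : ∀ χ, 0 ≤ majRe n σ ((x χ + y χ) * conj (x χ + y χ)) :=
    fun χ => majRe_normSq_nonneg n σ (add_mem (hx χ) (hy χ))
  have htr : ∑ χ ∈ BF, majRe n σ (a χ χ) = (p : ℝ) ^ d * (l : ℝ) := by
    rw [← majRe_sum, htrace]
    have h1 : (p : ℂ) ^ d * (l : ℂ) = ((p ^ d * l : ℕ) : ℂ) := by push_cast; ring
    rw [h1, majRe_natCast]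
    push_cast
    ring
  have hanz : ∀ χ ∈ BF, a χ χ ≠ 0 := by
    intro χ hχ h0
    obtain ⟨ψ₀, hψ₀, hh⟩ := hex
    have h1 := hrow χ hχ
    rw [h0, mul_zero] at h1
    have h2 : ∑ ψ ∈ BF, Complex.normSq (a χ ψ) = 0 := by
      have h3 : ∑ ψ ∈ BF, a χ ψ * conj (a χ ψ)
          = ((∑ ψ ∈ BF, Complex.normSq (a χ ψ) : ℝ) : ℂ) := by
        push_cast
        exact Finset.sum_congr rfl fun ψ _ => Complex.mul_conj _
      rw [h3] at h1
      exact_mod_cast h1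
    have h4 := (Finset.sum_eq_zero_iff_of_nonneg (fun ψ _ => Complex.normSq_nonneg _)).mp h2
      ψ₀ hψ₀
    have h5 : a χ ψ₀ = 0 := Complex.normSq_eq_zero.mp h4
    have h6 : a ψ₀ χ = 0 := by rw [hherm χ ψ₀, h5, map_zero]
    exact hnv ψ₀ hψ₀ hh χ hχ h6
  have hfin : (∀ χ ∈ BF, (2 : ℝ) ≤ majRe n σ (a χ χ)) → BF.card ≤ p ^ d := by
    intro h2
    have h3 : (2 : ℝ) * BF.card ≤ ∑ χ ∈ BF, majRe n σ (a χ χ) := by
      calc (2 : ℝ) * BF.card = ∑ χ ∈ BF, (2 : ℝ) := by simp [mul_comm]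
        _ ≤ _ := Finset.sum_le_sum h2
    rw [htr] at h3
    have h4 : (0 : ℝ) ≤ (p : ℝ) ^ d := by positivity
    have h5 : (BF.card : ℝ) ≤ (p : ℝ) ^ d := by nlinarith
    exact_mod_cast h5
  by_cases hα2 : 2 ≤ α
  · apply hfin
    intro χ hχ
    have hα2R : (2 : ℝ) ≤ (α : ℝ) := by exact_mod_cast hα2
    rw [hS]
    by_cases hx0 : x χ = 0
    · have hy0 : y χ ≠ 0 := by
        intro hy0
        apply hanz χ hχ
        rw [ha, hx0, hy0]
        simp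
      have h1 := hY1 χ hy0
      rw [hx0, zero_mul, hzero, zero_add]
      nlinarith
    · by_cases hy0 : y χ = 0
      · have h1 := hX1 χ hx0
        rw [hy0, zero_mul, hzero, add_zero]
        nlinarith
      · have h1 := hX1 χ hx0
        have h2 := hY1 χ hy0
        have h3 := hZ0 χ
        have t1 : ((α : ℝ) - β) * 1 ≤ ((α : ℝ) - β) * majRe n σ (x χ * conj (x χ)) :=
          mul_le_mul_of_nonneg_left h1 (by linarith)
        have t2 : ((γ : ℝ) - β) * 1 ≤ ((γ : ℝ) - β) * majRe n σ (y χ * conj (y χ)) :=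
          mul_le_mul_of_nonneg_left h2 (by linarith)
        have t3 : 0 ≤ (β : ℝ) * majRe n σ ((x χ + y χ) * conj (x χ + y χ)) :=
          mul_nonneg hβ0R h3
        linarith
  · have hα1 : α = 1 := by omega
    have hβ1 : β = 0 := by omega
    subst hα1 hβ1
    have ha' : ∀ χ ψ, a χ ψ = x χ * conj (x ψ) + (γ : ℂ) * (y χ * conj (y ψ)) := by
      intro χ ψ
      rw [ha]
      push_cast
      ring
    have hS' : ∀ χ, majRe n σ (a χ χ) = majRe n σ (x χ * conj (x χ))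
        + (γ : ℝ) * majRe n σ (y χ * conj (y χ)) := by
      intro χ
      rw [hS]
      push_cast
      ring
    have hγR : (1 : ℝ) ≤ (γ : ℝ) := by exact_mod_cast hle
    by_cases hA2 : ∃ ψ₀ ∈ BF, h ψ₀ = 0 ∧ y ψ₀ = 0
    · obtain ⟨ψ₀, hψ₀, h0, hy0⟩ := hA2
      have haψ : ∀ χ, a ψ₀ χ = x ψ₀ * conj (x χ) := by
        intro χ
        rw [ha', hy0]
        ring
      have hx0 : x ψ₀ ≠ 0 := by
        intro h'
        apply hnv ψ₀ hψ₀ h0 ψ₀ hψ₀
        rw [haψ, h', zero_mul]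
      have hxne : ∀ χ ∈ BF, x χ ≠ 0 := by
        intro χ hχ h'
        apply hnv ψ₀ hψ₀ h0 χ hχ
        rw [haψ, h', map_zero, mul_zero]
      have h1 := hrow ψ₀ hψ₀
      have h2 : ∑ χ ∈ BF, a ψ₀ χ * conj (a ψ₀ χ)
          = (x ψ₀ * conj (x ψ₀)) * ∑ χ ∈ BF, x χ * conj (x χ) := by
        rw [Finset.mul_sum]
        refine Finset.sum_congr rfl fun χ _ => ?_
        rw [haψ, map_mul, Complex.conj_conj]
        ring
      rw [h2, haψ] at h1
      have h3 : x ψ₀ * conj (x ψ₀) ≠ 0 := mul_ne_zero hx0 ((map_ne_zero _).mpr hx0)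
      have h4 : ∑ χ ∈ BF, x χ * conj (x χ) = ((p ^ d : ℕ) : ℂ) := by
        push_cast
        apply mul_left_cancel₀ h3
        rw [h1]
        ring
      exact Helper75.card_le_of_galois n hn BF x (fun χ _ => hx χ) (fun χ _ => hxi χ) hxne
        (p ^ d) h4
    · by_cases hA3 : ∃ ψ₀ ∈ BF, h ψ₀ = 0 ∧ x ψ₀ = 0
      · obtain ⟨ψ₀, hψ₀, h0, hx0⟩ := hA3
        have haψ : ∀ χ, a ψ₀ χ = (γ : ℂ) * (y ψ₀ * conj (y χ)) := by
          intro χ
          rw [ha', hx0]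
          ring
        have hγ0 : (γ : ℂ) ≠ 0 := by
          have : γ ≠ 0 := by omega
          exact_mod_cast this
        have hy0 : y ψ₀ ≠ 0 := by
          intro h'
          apply hnv ψ₀ hψ₀ h0 ψ₀ hψ₀
          rw [haψ, h', zero_mul, mul_zero]
        have hyne : ∀ χ ∈ BF, y χ ≠ 0 := by
          intro χ hχ h'
          apply hnv ψ₀ hψ₀ h0 χ hχ
          rw [haψ, h', map_zero, mul_zero, mul_zero]
        have h1 := hrow ψ₀ hψ₀
        have h2 : ∑ χ ∈ BF, a ψ₀ χ * conj (a ψ₀ χ)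
            = ((γ : ℂ) * (y ψ₀ * conj (y ψ₀))) * ((γ : ℂ) * ∑ χ ∈ BF, y χ * conj (y χ)) := by
          rw [Finset.mul_sum, Finset.mul_sum]
          refine Finset.sum_congr rfl fun χ _ => ?_
          rw [haψ, map_mul, map_mul, Complex.conj_conj, map_intCast]
          ring
        rw [h2, haψ] at h1
        have h3 : (γ : ℂ) * (y ψ₀ * conj (y ψ₀)) ≠ 0 :=
          mul_ne_zero hγ0 (mul_ne_zero hy0 ((map_ne_zero _).mpr hy0))
        have h4 : (γ : ℂ) * ∑ χ ∈ BF, y χ * conj (y χ) = ((p ^ d : ℕ) : ℂ) := by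
          push_cast
          apply mul_left_cancel₀ h3
          rw [h1]
          ring
        have h5 := congrArg (majRe n σ) h4
        rw [majRe_intCast_mul, majRe_sum, majRe_natCast] at h5
        have h6 : (BF.card : ℝ) ≤ ∑ χ ∈ BF, majRe n σ (y χ * conj (y χ)) := by
          calc (BF.card : ℝ) = ∑ χ ∈ BF, (1 : ℝ) := by simp
            _ ≤ _ := Finset.sum_le_sum fun χ hχ => hY1 χ (hyne χ hχ)
        have h7 : (BF.card : ℝ) ≤ ((p ^ d : ℕ) : ℝ) := by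
          rw [← h5]
          have h8 : (0 : ℝ) ≤ (BF.card : ℝ) := Nat.cast_nonneg _
          nlinarith
        exact_mod_cast h7
      · push Not at hA2 hA3
        apply hfin
        intro χ hχ
        by_cases hh : h χ = 0
        · rw [hS']
          have h1 := hX1 χ (hA3 χ hχ hh)
          have h2 := hY1 χ (hA2 χ hχ hh)
          nlinarith
        · have h1 := hP χ hχ (hanz χ hχ)
          have h2 : (p : ℝ) ^ 1 ≤ (p : ℝ) ^ h χ :=
            pow_le_pow_right₀ (by linarith) (Nat.one_le_iff_ne_zero.mpr hh)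
          rw [pow_one] at h2
          linarith

end Cfsg.Agent.Helper73
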