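import Mathlib

/-!
# Reduction of positive definite integral lattices of rank at most two (helper73)

* `maj_lattice`: an abelian group with a positive definite integral symmetric bilinear form all of
  whose `3 × 3` Gram determinants vanish has a reduced "basis": the form is
  `α N N' + β (N M' + M N') + γ M M'` with `0 ≤ 2β ≤ α ≤ γ`, `1 ≤ α`.
* `maj_gram_det_zero`: three vectors of a subspace of dimension at most two have vanishing Gram
  determinant.
* `maj_lattice_fun`: the version for a set of complex functions with integral inner products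
  spanning a space of dimension at most two.
-/

set_option autoImplicit false
open scoped ComplexConjugate

namespace Cfsg.Agent.Helper73

/-- Balanced division. -/
theorem maj_balanced_div (A Δ : ℤ) (hΔ : 0 < Δ) :
    ∃ q r : ℤ, A = q * Δ + r ∧ -Δ ≤ 2 * r ∧ 2 * r ≤ Δ := by
  refine ⟨(2 * A + Δ) / (2 * Δ), A - (2 * A + Δ) / (2 * Δ) * Δ, by ring, ?_, ?_⟩
  · have h1 := Int.emod_nonneg (2 * A + Δ) (by omega : (2 * Δ) ≠ 0)
    have h2 := Int.emod_add_mul_ediv (2 * A + Δ) (2 * Δ)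
    nlinarith
  · have h1 := Int.emod_lt_of_pos (2 * A + Δ) (by omega : 0 < 2 * Δ)
    have h2 := Int.emod_add_mul_ediv (2 * A + Δ) (2 * Δ)
    nlinarith

theorem maj_disc_pos (α β γ : ℤ) (hα : 1 ≤ α) (hβ0 : 0 ≤ β) (hβ : 2 * β ≤ α) (hle : α ≤ γ) :
    0 < α * γ - β * β := by
  have h1 : α * α ≤ α * γ := mul_le_mul_of_nonneg_left hle (by linarith)
  have h2 : (2 * β) * (2 * β) ≤ α * α := mul_self_le_mul_self (by linarith) hβ
  have h3 : 1 * 1 ≤ α * α := mul_self_le_mul_self (by norm_num) hα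
  nlinarith

theorem maj_core1 (α β γ Δ A B ν ω : ℤ) (hΔ : Δ = α * γ - β * β) (hα : 1 ≤ α) (hβ0 : 0 ≤ β)
    (hβ : 2 * β ≤ α) (hle : α ≤ γ) (hA1 : -Δ ≤ 2 * A) (hA2 : 2 * A ≤ Δ) (hB1 : -Δ ≤ 2 * B)
    (hB2 : 2 * B ≤ Δ) (hν : Δ * ν = A * α + B * β)
    (hω : Δ * Δ * ω = A * A * α + 2 * A * B * β + B * B * γ)
    (hmin : α * ω - ν * ν ≠ 0 → γ ≤ ω) : B = 0 := by
  by_contra hB0
  have hΔpos : 0 < Δ := by rw [hΔ]; exact maj_disc_pos α β γ hα hβ0 hβ hle
  have e : Δ * Δ * (α * ω - ν * ν) = B * B * Δ := by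
    subst hΔ
    linear_combination α * hω - ((α * γ - β * β) * ν + (A * α + B * β)) * hν
  have hne : α * ω - ν * ν ≠ 0 := by
    intro h0
    rw [h0, mul_zero] at e
    exact (mul_ne_zero (mul_self_ne_zero.mpr hB0) hΔpos.ne') e.symm
  have h1 := hmin hne
  have hAA : 4 * (A * A) ≤ Δ * Δ := by nlinarith
  have hBB : 4 * (B * B) ≤ Δ * Δ := by nlinarith
  have hAB : 4 * (A * B) ≤ Δ * Δ := by nlinarith
  have hα0 : 0 ≤ α := by linarith
  have hγ0 : 0 ≤ γ := by linarith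
  have t1 : 4 * (A * A) * α ≤ Δ * Δ * α := mul_le_mul_of_nonneg_right hAA hα0
  have t2 : 4 * (A * B) * (2 * β) ≤ Δ * Δ * (2 * β) :=
    mul_le_mul_of_nonneg_right hAB (by linarith)
  have t3 : 4 * (B * B) * γ ≤ Δ * Δ * γ := mul_le_mul_of_nonneg_right hBB hγ0
  have t4 : Δ * Δ * (2 * β) ≤ Δ * Δ * α := mul_le_mul_of_nonneg_left hβ (mul_self_nonneg Δ)
  have t5 : Δ * Δ * α ≤ Δ * Δ * γ := mul_le_mul_of_nonneg_left hle (mul_self_nonneg Δ)
  have t6 : Δ * Δ * γ ≤ Δ * Δ * ω := mul_le_mul_of_nonneg_left h1 (mul_self_nonneg Δ)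
  have t7 : 0 < Δ * Δ * γ := mul_pos (mul_pos hΔpos hΔpos) (by linarith)
  linarith

theorem maj_core2 (α β γ Δ A ν ω : ℤ) (hΔ : Δ = α * γ - β * β) (hα : 1 ≤ α) (hβ0 : 0 ≤ β)
    (hβ : 2 * β ≤ α) (hle : α ≤ γ) (hA1 : -Δ ≤ 2 * A) (hA2 : 2 * A ≤ Δ)
    (hν : Δ * ν = A * β) (hω : Δ * Δ * ω = A * A * α)
    (hmin : ω * γ - ν * ν ≠ 0 → α ≤ ω) : A = 0 := by
  by_contra hA0
  have hΔpos : 0 < Δ := by rw [hΔ]; exact maj_disc_pos α β γ hα hβ0 hβ hle
  have e : Δ * Δ * (ω * γ - ν * ν) = A * A * Δ := by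
    subst hΔ
    linear_combination γ * hω - ((α * γ - β * β) * ν + A * β) * hν
  have hne : ω * γ - ν * ν ≠ 0 := by
    intro h0
    rw [h0, mul_zero] at e
    exact (mul_ne_zero (mul_self_ne_zero.mpr hA0) hΔpos.ne') e.symm
  have h1 := hmin hne
  have hAA : 4 * (A * A) ≤ Δ * Δ := by nlinarith
  have hα0 : 0 ≤ α := by linarith
  have t1 : 4 * (A * A) * α ≤ Δ * Δ * α := mul_le_mul_of_nonneg_right hAA hα0
  have t6 : Δ * Δ * α ≤ Δ * Δ * ω := mul_le_mul_of_nonneg_left h1 (mul_self_nonneg Δ)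
  have t7 : 0 < Δ * Δ * α := mul_pos (mul_pos hΔpos hΔpos) (by linarith)
  linarith

/-- **Reduction of integral lattices of rank at most two.** -/
theorem maj_lattice {Λ : Type*} [AddCommGroup Λ] (q : Λ →+ Λ →+ ℤ)
    (hsymm : ∀ u v, q u v = q v u)
    (hpos : ∀ u, u ≠ 0 → 0 < q u u)
    (hG3 : ∀ u v w, q u u * q v v * q w w - q u u * q v w * q w v - q u v * q v u * q w w
      + q u v * q v w * q w u + q u w * q v u * q w v - q u w * q v v * q w u = 0) :
    ∃ (α β γ : ℤ) (N M : Λ → ℤ), 1 ≤ α ∧ 0 ≤ 2 * β ∧ 2 * β ≤ α ∧ α ≤ γ ∧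
      ∀ u w, q u w = α * (N u * N w) + β * (N u * M w + M u * N w) + γ * (M u * M w) := by
  classical
  have hnn : ∀ u, 0 ≤ q u u := by
    intro u
    by_cases hu : u = 0
    · rw [hu]; simp
    · exact (hpos u hu).le
  have hzero : ∀ u, q u u = 0 → u = 0 := by
    intro u hu
    by_contra hne
    have := hpos u hne
    omega
  by_cases hex : ∃ v₁ v₂, q v₁ v₁ * q v₂ v₂ - q v₁ v₂ * q v₁ v₂ ≠ 0
  · -- rank two
    have hex' : ∃ s : ℕ, ∃ v₁ v₂, q v₁ v₁ * q v₂ v₂ - q v₁ v₂ * q v₁ v₂ ≠ 0 ∧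
        q v₁ v₁ + q v₂ v₂ = (s : ℤ) := by
      obtain ⟨v₁, v₂, h⟩ := hex
      exact ⟨(q v₁ v₁ + q v₂ v₂).toNat, v₁, v₂, h,
        (Int.toNat_of_nonneg (add_nonneg (hnn v₁) (hnn v₂))).symm⟩
    obtain ⟨v₁, v₂, hD, hs⟩ := Nat.find_spec hex'
    have hmin : ∀ u₁ u₂, q u₁ u₁ * q u₂ u₂ - q u₁ u₂ * q u₁ u₂ ≠ 0 →
        q v₁ v₁ + q v₂ v₂ ≤ q u₁ u₁ + q u₂ u₂ := by
      intro u₁ u₂ hu
      have h1 := Nat.find_min' hex' ⟨u₁, u₂, hu,
        (Int.toNat_of_nonneg (add_nonneg (hnn u₁) (hnn u₂))).symm⟩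
      have h2 := Int.toNat_of_nonneg (add_nonneg (hnn u₁) (hnn u₂))
      have h3 : ((Nat.find hex' : ℕ) : ℤ) ≤ (((q u₁ u₁ + q u₂ u₂).toNat : ℕ) : ℤ) := by
        exact_mod_cast h1
      rw [h2] at h3
      rw [hs]
      exact h3
    clear hs
    -- normalise: α ≤ γ
    obtain ⟨v₁, v₂, hD, hmin, hle⟩ : ∃ v₁ v₂, q v₁ v₁ * q v₂ v₂ - q v₁ v₂ * q v₁ v₂ ≠ 0 ∧
        (∀ u₁ u₂, q u₁ u₁ * q u₂ u₂ - q u₁ u₂ * q u₁ u₂ ≠ 0 →
          q v₁ v₁ + q v₂ v₂ ≤ q u₁ u₁ + q u₂ u₂) ∧ q v₁ v₁ ≤ q v₂ v₂ := by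
      rcases le_total (q v₁ v₁) (q v₂ v₂) with h | h
      · exact ⟨v₁, v₂, hD, hmin, h⟩
      · refine ⟨v₂, v₁, ?_, ?_, h⟩
        · rw [hsymm v₂ v₁]
          intro h0
          apply hD
          linarith
        · intro u₁ u₂ hu
          have := hmin u₁ u₂ hu
          linarith
    -- normalise: β ≥ 0
    obtain ⟨v₁, v₂, hD, hmin, hle, hβ0⟩ : ∃ v₁ v₂, q v₁ v₁ * q v₂ v₂ - q v₁ v₂ * q v₁ v₂ ≠ 0 ∧
        (∀ u₁ u₂, q u₁ u₁ * q u₂ u₂ - q u₁ u₂ * q u₁ u₂ ≠ 0 →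
          q v₁ v₁ + q v₂ v₂ ≤ q u₁ u₁ + q u₂ u₂) ∧ q v₁ v₁ ≤ q v₂ v₂ ∧ 0 ≤ q v₁ v₂ := by
      rcases le_total 0 (q v₁ v₂) with h | h
      · exact ⟨v₁, v₂, hD, hmin, hle, h⟩
      · have e1 : q (-v₂) (-v₂) = q v₂ v₂ := by
          simp only [map_neg, AddMonoidHom.neg_apply, neg_neg]
        have e2 : q v₁ (-v₂) = - q v₁ v₂ := by
          simp only [map_neg]
        refine ⟨v₁, -v₂, ?_, ?_, ?_, ?_⟩
        · rw [e1, e2]
          intro h0
          apply hD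
          linarith
        · intro u₁ u₂ hu
          rw [e1]
          exact hmin u₁ u₂ hu
        · rw [e1]; exact hle
        · rw [e2]; linarith
    -- 2β ≤ α
    have hβ : 2 * q v₁ v₂ ≤ q v₁ v₁ := by
      have e1 : q (v₂ - v₁) (v₂ - v₁) = q v₂ v₂ - 2 * q v₁ v₂ + q v₁ v₁ := by
        simp only [map_sub, AddMonoidHom.sub_apply]
        rw [hsymm v₂ v₁]
        ring
      have e2 : q v₁ (v₂ - v₁) = q v₁ v₂ - q v₁ v₁ := by
        simp only [map_sub]
      have h1 := hmin v₁ (v₂ - v₁) (by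
        rw [e1, e2]
        intro h0
        apply hD
        linarith)
      rw [e1] at h1
      linarith
    have hα1 : 1 ≤ q v₁ v₁ := by
      by_contra hcon
      have h0 : q v₁ v₁ = 0 := by
        have := hnn v₁
        omega
      have hv : v₁ = 0 := hzero v₁ h0
      apply hD
      rw [hv]
      simp
    have hΔpos := maj_disc_pos _ _ _ hα1 hβ0 hβ hle
    have hcoord : ∀ w, ∃ n m : ℤ, w = n • v₁ + m • v₂ := by
      intro w
      have hr : (q v₁ v₁ * q v₂ v₂ - q v₁ v₂ * q v₁ v₂) • w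
          = (q w v₁ * q v₂ v₂ - q w v₂ * q v₁ v₂) • v₁
            + (q w v₂ * q v₁ v₁ - q w v₁ * q v₁ v₂) • v₂ := by
        have h0 : q ((q v₁ v₁ * q v₂ v₂ - q v₁ v₂ * q v₁ v₂) • w
            - (q w v₁ * q v₂ v₂ - q w v₂ * q v₁ v₂) • v₁
            - (q w v₂ * q v₁ v₁ - q w v₁ * q v₁ v₂) • v₂)
            ((q v₁ v₁ * q v₂ v₂ - q v₁ v₂ * q v₁ v₂) • w
            - (q w v₁ * q v₂ v₂ - q w v₂ * q v₁ v₂) • v₁
            - (q w v₂ * q v₁ v₁ - q w v₁ * q v₁ v₂) • v₂) = 0 := by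
          have hg := hG3 v₁ v₂ w
          rw [hsymm v₂ v₁, hsymm v₁ w, hsymm v₂ w] at hg
          simp only [map_sub, map_zsmul, AddMonoidHom.sub_apply, AddMonoidHom.smul_apply,
            smul_eq_mul]
          rw [hsymm v₂ v₁, hsymm v₁ w, hsymm v₂ w]
          linear_combination (q v₁ v₁ * q v₂ v₂ - q v₁ v₂ * q v₁ v₂) * hg
        have h1 := hzero _ h0
        rw [sub_sub, sub_eq_zero] at h1
        exact h1
      obtain ⟨q₁, A, hA, hA1, hA2⟩ :=
        maj_balanced_div (q w v₁ * q v₂ v₂ - q w v₂ * q v₁ v₂) _ hΔpos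
      obtain ⟨q₂, B, hB, hB1, hB2⟩ :=
        maj_balanced_div (q w v₂ * q v₁ v₁ - q w v₁ * q v₁ v₂) _ hΔpos
      rw [hA, hB] at hr
      have hw₂ : (q v₁ v₁ * q v₂ v₂ - q v₁ v₂ * q v₁ v₂) • (w - q₁ • v₁ - q₂ • v₂)
          = A • v₁ + B • v₂ := by
        rw [smul_sub, smul_sub, hr]
        module
      have hν₁ : (q v₁ v₁ * q v₂ v₂ - q v₁ v₂ * q v₁ v₂) * q v₁ (w - q₁ • v₁ - q₂ • v₂)
          = A * q v₁ v₁ + B * q v₁ v₂ := by
        have h1 := congrArg (fun t => q v₁ t) hw₂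
        simpa only [map_add, map_zsmul, smul_eq_mul] using h1
      have hν₂ : (q v₁ v₁ * q v₂ v₂ - q v₁ v₂ * q v₁ v₂) * q (w - q₁ • v₁ - q₂ • v₂) v₂
          = A * q v₁ v₂ + B * q v₂ v₂ := by
        have h1 := congrArg (fun t => q t v₂) hw₂
        simpa only [map_add, map_zsmul, AddMonoidHom.add_apply, AddMonoidHom.smul_apply,
          smul_eq_mul] using h1
      have hω : (q v₁ v₁ * q v₂ v₂ - q v₁ v₂ * q v₁ v₂) * (q v₁ v₁ * q v₂ v₂ - q v₁ v₂ * q v₁ v₂)
            * q (w - q₁ • v₁ - q₂ • v₂) (w - q₁ • v₁ - q₂ • v₂)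
          = A * A * q v₁ v₁ + 2 * A * B * q v₁ v₂ + B * B * q v₂ v₂ := by
        have h1 : q ((q v₁ v₁ * q v₂ v₂ - q v₁ v₂ * q v₁ v₂) • (w - q₁ • v₁ - q₂ • v₂))
            ((q v₁ v₁ * q v₂ v₂ - q v₁ v₂ * q v₁ v₂) • (w - q₁ • v₁ - q₂ • v₂))
            = q (A • v₁ + B • v₂) (A • v₁ + B • v₂) := by rw [hw₂]
        simp only [map_add, map_zsmul, AddMonoidHom.add_apply, AddMonoidHom.smul_apply,
          smul_eq_mul] at h1
        rw [hsymm v₂ v₁] at h1
        linear_combination h1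
      have hB0 : B = 0 := by
        refine maj_core1 (q v₁ v₁) (q v₁ v₂) (q v₂ v₂) _ A B
          (q v₁ (w - q₁ • v₁ - q₂ • v₂)) (q (w - q₁ • v₁ - q₂ • v₂) (w - q₁ • v₁ - q₂ • v₂))
          rfl hα1 hβ0 hβ hle hA1 hA2 hB1 hB2 hν₁ hω ?_
        intro hne
        have := hmin v₁ (w - q₁ • v₁ - q₂ • v₂) hne
        linarith
      rw [hB0] at hν₂ hω
      have hA0 : A = 0 := by
        refine maj_core2 (q v₁ v₁) (q v₁ v₂) (q v₂ v₂) _ A
          (q (w - q₁ • v₁ - q₂ • v₂) v₂) (q (w - q₁ • v₁ - q₂ • v₂) (w - q₁ • v₁ - q₂ • v₂))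
          rfl hα1 hβ0 hβ hle hA1 hA2 (by linarith) (by linarith) ?_
        intro hne
        have := hmin (w - q₁ • v₁ - q₂ • v₂) v₂ hne
        linarith
      rw [hA0] at hω
      have h0 : q (w - q₁ • v₁ - q₂ • v₂) (w - q₁ • v₁ - q₂ • v₂) = 0 := by
        have hΔ2 : (q v₁ v₁ * q v₂ v₂ - q v₁ v₂ * q v₁ v₂)
            * (q v₁ v₁ * q v₂ v₂ - q v₁ v₂ * q v₁ v₂) ≠ 0 :=
          mul_ne_zero hΔpos.ne' hΔpos.ne'
        have h2 : (q v₁ v₁ * q v₂ v₂ - q v₁ v₂ * q v₁ v₂)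
            * (q v₁ v₁ * q v₂ v₂ - q v₁ v₂ * q v₁ v₂)
            * q (w - q₁ • v₁ - q₂ • v₂) (w - q₁ • v₁ - q₂ • v₂) = 0 := by linarith
        rcases mul_eq_zero.mp h2 with h3 | h3
        · exact absurd h3 hΔ2
        · exact h3
      have h1 := hzero _ h0
      refine ⟨q₁, q₂, ?_⟩
      rw [sub_sub, sub_eq_zero] at h1
      exact h1
    choose N M hNM using hcoord
    refine ⟨q v₁ v₁, q v₁ v₂, q v₂ v₂, N, M, hα1, by linarith, hβ, hle, ?_⟩
    intro u w
    conv_lhs => rw [hNM u, hNM w]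
    simp only [map_add, map_zsmul, AddMonoidHom.add_apply, AddMonoidHom.smul_apply, smul_eq_mul]
    rw [hsymm v₂ v₁]
    ring
  · -- rank at most one
    push Not at hex
    by_cases hall : ∀ u : Λ, u = 0
    · refine ⟨1, 0, 1, fun _ => 0, fun _ => 0, by norm_num, by norm_num, by norm_num, le_refl _, ?_⟩
      intro u w
      rw [hall u]
      simp
    · push Not at hall
      obtain ⟨u₀, hu₀⟩ := hall
      have hex1 : ∃ s : ℕ, ∃ v, v ≠ 0 ∧ q v v = (s : ℤ) :=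
        ⟨(q u₀ u₀).toNat, u₀, hu₀, (Int.toNat_of_nonneg (hnn u₀)).symm⟩
      obtain ⟨v₁, hv₁, hs⟩ := Nat.find_spec hex1
      have hmin : ∀ u, u ≠ 0 → q v₁ v₁ ≤ q u u := by
        intro u hu
        have h1 := Nat.find_min' hex1 ⟨u, hu, (Int.toNat_of_nonneg (hnn u)).symm⟩
        have h2 := Int.toNat_of_nonneg (hnn u)
        have h3 : ((Nat.find hex1 : ℕ) : ℤ) ≤ (((q u u).toNat : ℕ) : ℤ) := by
          exact_mod_cast h1
        rw [h2] at h3
        rw [hs]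
        exact h3
      clear hs
      have hα1 : 1 ≤ q v₁ v₁ := by
        have := hpos v₁ hv₁
        omega
      have hcoord : ∀ w, ∃ n : ℤ, w = n • v₁ := by
        intro w
        have hD := hex v₁ w
        have hr : (q v₁ v₁) • w = (q w v₁) • v₁ := by
          have h0 : q ((q v₁ v₁) • w - (q w v₁) • v₁) ((q v₁ v₁) • w - (q w v₁) • v₁) = 0 := by
            simp only [map_sub, map_zsmul, AddMonoidHom.sub_apply, AddMonoidHom.smul_apply,
              smul_eq_mul]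
            rw [hsymm v₁ w] at hD ⊢
            linear_combination (q v₁ v₁) * hD
          exact sub_eq_zero.mp (hzero _ h0)
        obtain ⟨q₁, n', hn, h1, h2⟩ := maj_balanced_div (q w v₁) (q v₁ v₁) (by omega)
        rw [hn] at hr
        have hw₂ : (q v₁ v₁) • (w - q₁ • v₁) = n' • v₁ := by
          rw [smul_sub, hr]
          module
        have hω : q v₁ v₁ * q v₁ v₁ * q (w - q₁ • v₁) (w - q₁ • v₁) = n' * n' * q v₁ v₁ := by
          have h3 : q ((q v₁ v₁) • (w - q₁ • v₁)) ((q v₁ v₁) • (w - q₁ • v₁))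
              = q (n' • v₁) (n' • v₁) := by rw [hw₂]
          simp only [map_zsmul, AddMonoidHom.smul_apply, smul_eq_mul] at h3
          linear_combination h3
        by_cases hw0 : w - q₁ • v₁ = 0
        · exact ⟨q₁, sub_eq_zero.mp hw0⟩
        · exfalso
          have h3 := hmin _ hw0
          have hnn' : 4 * (n' * n') ≤ q v₁ v₁ * q v₁ v₁ := by nlinarith
          have t1 : q v₁ v₁ * q v₁ v₁ * q v₁ v₁
              ≤ q v₁ v₁ * q v₁ v₁ * q (w - q₁ • v₁) (w - q₁ • v₁) :=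
            mul_le_mul_of_nonneg_left h3 (mul_self_nonneg _)
          have t2 : 4 * (n' * n') * q v₁ v₁ ≤ q v₁ v₁ * q v₁ v₁ * q v₁ v₁ :=
            mul_le_mul_of_nonneg_right hnn' (by linarith)
          have t3 : 0 < q v₁ v₁ * q v₁ v₁ * q v₁ v₁ :=
            mul_pos (mul_pos (by linarith) (by linarith)) (by linarith)
          linarith
      choose N hN using hcoord
      refine ⟨q v₁ v₁, 0, q v₁ v₁, N, fun _ => 0, hα1, by norm_num, by linarith, le_refl _, ?_⟩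
      intro u w
      conv_lhs => rw [hN u, hN w]
      simp only [map_zsmul, AddMonoidHom.smul_apply, smul_eq_mul]
      ring

/-- Three vectors of a subspace of dimension at most two have vanishing Gram determinant. -/
theorem maj_gram_det_zero {X : Type*} [Fintype X] (κ : ℂ) (W : Submodule ℂ (X → ℂ))
    (hW : Module.finrank ℂ W ≤ 2) (u : Fin 3 → (X → ℂ)) (hu : ∀ i, u i ∈ W) :
    (Matrix.of fun i j => κ * ∑ x, u i x * conj (u j x)).det = 0 := by
  classical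
  have hdep : ¬ LinearIndependent ℂ (fun i => (⟨u i, hu i⟩ : W)) := by
    intro hli
    have h1 := hli.fintype_card_le_finrank
    rw [Fintype.card_fin] at h1
    omega
  rw [Fintype.not_linearIndependent_iff] at hdep
  obtain ⟨g, hg, i₀, hi₀⟩ := hdep
  have hg' : ∀ x, ∑ i, g i * u i x = 0 := by
    intro x
    have h1 := congrArg (fun w : W => (w : X → ℂ) x) hg
    simpa using h1
  apply Matrix.exists_mulVec_eq_zero_iff.mp
  refine ⟨fun j => conj (g j), ?_, ?_⟩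
  · intro h
    apply hi₀
    have h1 := congrFun h i₀
    simpa using h1
  · funext i
    simp only [Matrix.mulVec, dotProduct, Matrix.of_apply, Pi.zero_apply]
    have h2 : ∑ j, κ * (∑ x, u i x * conj (u j x)) * conj (g j)
        = κ * ∑ x, u i x * conj (∑ j, g j * u j x) := by
      rw [Finset.mul_sum]
      simp only [map_sum, map_mul, Finset.mul_sum, Finset.sum_mul]
      rw [Finset.sum_comm]
      refine Finset.sum_congr rfl fun x _ => Finset.sum_congr rfl fun j _ => ?_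
      ring
    rw [h2]
    simp only [hg', map_zero, mul_zero, Finset.sum_const_zero]

/-- **Reduced form of an integral Gram matrix of rank at most two**, for a set `S` of complex
functions on a finite set with integral inner products `κ Σ_x u(x) conj w(x)`. -/
theorem maj_lattice_fun {X : Type*} [Fintype X] (κ : ℝ) (hκ : 0 < κ) (S : Set (X → ℂ))
    (hint : ∀ u ∈ S, ∀ w ∈ S, ∃ j : ℤ, (κ : ℂ) * ∑ x, u x * conj (w x) = (j : ℂ))
    (hrank : Module.finrank ℂ (Submodule.span ℂ S) ≤ 2) :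
    ∃ (α β γ : ℤ) (N M : (X → ℂ) → ℤ), 1 ≤ α ∧ 0 ≤ 2 * β ∧ 2 * β ≤ α ∧ α ≤ γ ∧
      ∀ u ∈ S, ∀ w ∈ S, (κ : ℂ) * ∑ x, u x * conj (w x)
        = ((α * (N u * N w) + β * (N u * M w + M u * N w) + γ * (M u * M w) : ℤ) : ℂ) := by
  classical
  have hadd1 : ∀ u v w : X → ℂ, (κ : ℂ) * ∑ x, (u + v) x * conj (w x)
      = (κ : ℂ) * ∑ x, u x * conj (w x) + (κ : ℂ) * ∑ x, v x * conj (w x) := by
    intro u v w
    rw [← mul_add, ← Finset.sum_add_distrib]
    congr 1
    refine Finset.sum_congr rfl fun x _ => ?_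
    rw [Pi.add_apply]
    ring
  have hadd2 : ∀ u v w : X → ℂ, (κ : ℂ) * ∑ x, u x * conj ((v + w) x)
      = (κ : ℂ) * ∑ x, u x * conj (v x) + (κ : ℂ) * ∑ x, u x * conj (w x) := by
    intro u v w
    rw [← mul_add, ← Finset.sum_add_distrib]
    congr 1
    refine Finset.sum_congr rfl fun x _ => ?_
    rw [Pi.add_apply, map_add]
    ring
  have hneg1 : ∀ u w : X → ℂ, (κ : ℂ) * ∑ x, (-u) x * conj (w x)
      = -((κ : ℂ) * ∑ x, u x * conj (w x)) := by
    intro u w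
    rw [← mul_neg, ← Finset.sum_neg_distrib]
    congr 1
    refine Finset.sum_congr rfl fun x _ => ?_
    rw [Pi.neg_apply]
    ring
  have hneg2 : ∀ u w : X → ℂ, (κ : ℂ) * ∑ x, u x * conj ((-w) x)
      = -((κ : ℂ) * ∑ x, u x * conj (w x)) := by
    intro u w
    rw [← mul_neg, ← Finset.sum_neg_distrib]
    congr 1
    refine Finset.sum_congr rfl fun x _ => ?_
    rw [Pi.neg_apply, map_neg]
    ring
  have hconj : ∀ u w : X → ℂ, conj ((κ : ℂ) * ∑ x, u x * conj (w x))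
      = (κ : ℂ) * ∑ x, w x * conj (u x) := by
    intro u w
    rw [map_mul, Complex.conj_ofReal, map_sum]
    congr 1
    refine Finset.sum_congr rfl fun x _ => ?_
    rw [map_mul, Complex.conj_conj]
    ring
  -- integrality on the generated lattice
  have hint1 : ∀ w ∈ S, ∀ u ∈ AddSubgroup.closure S,
      ∃ j : ℤ, (κ : ℂ) * ∑ x, u x * conj (w x) = (j : ℂ) := by
    intro w hw u hu
    induction hu using AddSubgroup.closure_induction with
    | mem x hx => exact hint x hx w hw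
    | zero => exact ⟨0, by simp⟩
    | add x y _ _ ihx ihy =>
      obtain ⟨j₁, h₁⟩ := ihx
      obtain ⟨j₂, h₂⟩ := ihy
      exact ⟨j₁ + j₂, by rw [hadd1, h₁, h₂]; push_cast; ring⟩
    | neg x _ ih =>
      obtain ⟨j₁, h₁⟩ := ih
      exact ⟨-j₁, by rw [hneg1, h₁]; push_cast; ring⟩
  have hint2 : ∀ u ∈ AddSubgroup.closure S, ∀ w ∈ AddSubgroup.closure S,
      ∃ j : ℤ, (κ : ℂ) * ∑ x, u x * conj (w x) = (j : ℂ) := by
    intro u hu w hw
    induction hw using AddSubgroup.closure_induction with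
    | mem x hx => exact hint1 x hx u hu
    | zero => exact ⟨0, by simp⟩
    | add x y _ _ ihx ihy =>
      obtain ⟨j₁, h₁⟩ := ihx
      obtain ⟨j₂, h₂⟩ := ihy
      exact ⟨j₁ + j₂, by rw [hadd2, h₁, h₂]; push_cast; ring⟩
    | neg x _ ih =>
      obtain ⟨j₁, h₁⟩ := ih
      exact ⟨-j₁, by rw [hneg2, h₁]; push_cast; ring⟩
  choose j hj using fun (u w : AddSubgroup.closure S) => hint2 u u.2 w w.2
  have hjadd1 : ∀ u v w : AddSubgroup.closure S, j (u + v) w = j u w + j v w := by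
    intro u v w
    have h1 : ((j (u + v) w : ℤ) : ℂ) = ((j u w + j v w : ℤ) : ℂ) := by
      rw [← hj, AddSubgroup.coe_add, hadd1, hj, hj]
      push_cast
      ring
    exact_mod_cast h1
  have hjadd2 : ∀ u v w : AddSubgroup.closure S, j u (v + w) = j u v + j u w := by
    intro u v w
    have h1 : ((j u (v + w) : ℤ) : ℂ) = ((j u v + j u w : ℤ) : ℂ) := by
      rw [← hj, AddSubgroup.coe_add, hadd2, hj, hj]
      push_cast
      ring
    exact_mod_cast h1
  have hjsymm : ∀ u w : AddSubgroup.closure S, j u w = j w u := by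
    intro u w
    have h1 : ((j u w : ℤ) : ℂ) = ((j w u : ℤ) : ℂ) := by
      rw [← hj w u, ← hconj, hj u w, map_intCast]
    exact_mod_cast h1
  have hjpos : ∀ u : AddSubgroup.closure S, u ≠ 0 → 0 < j u u := by
    intro u hu
    have h1 : ((j u u : ℤ) : ℂ) = ((κ * ∑ x, Complex.normSq ((u : X → ℂ) x) : ℝ) : ℂ) := by
      rw [← hj]
      push_cast
      congr 1
      refine Finset.sum_congr rfl fun x _ => ?_
      rw [Complex.mul_conj]
    have h2 : ((j u u : ℤ) : ℝ) = κ * ∑ x, Complex.normSq ((u : X → ℂ) x) := by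
      exact_mod_cast h1
    have h3 : 0 < ∑ x, Complex.normSq ((u : X → ℂ) x) := by
      have hne : (u : X → ℂ) ≠ 0 := fun h => hu (Subtype.ext h)
      obtain ⟨x₀, hx₀⟩ := Function.ne_iff.mp hne
      exact Finset.sum_pos' (fun x _ => Complex.normSq_nonneg _)
        ⟨x₀, Finset.mem_univ _, Complex.normSq_pos.mpr hx₀⟩
    have h4 : (0 : ℝ) < ((j u u : ℤ) : ℝ) := by
      rw [h2]
      exact mul_pos hκ h3
    exact_mod_cast h4
  have hle : AddSubgroup.closure S ≤ (Submodule.span ℂ S).toAddSubgroup :=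
    (AddSubgroup.closure_le _).mpr Submodule.subset_span
  have hjG3 : ∀ u v w : AddSubgroup.closure S,
      j u u * j v v * j w w - j u u * j v w * j w v - j u v * j v u * j w w
        + j u v * j v w * j w u + j u w * j v u * j w v - j u w * j v v * j w u = 0 := by
    intro u v w
    have h1 := maj_gram_det_zero (κ : ℂ) (Submodule.span ℂ S) hrank
      ![(u : X → ℂ), (v : X → ℂ), (w : X → ℂ)] (by
        intro i
        fin_cases i
        · exact hle u.2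
        · exact hle v.2
        · exact hle w.2)
    rw [Matrix.det_fin_three] at h1
    simp only [Matrix.of_apply, Matrix.cons_val_zero, Matrix.cons_val_one, Matrix.cons_val_two,
      Matrix.head_cons, Matrix.tail_cons, hj] at h1
    exact_mod_cast h1
  obtain ⟨α, β, γ, N, M, h1, h2, h3, h4, h5⟩ := maj_lattice
    (AddMonoidHom.mk' (fun u => AddMonoidHom.mk' (fun w => j u w) (hjadd2 u))
      (fun u v => AddMonoidHom.ext fun w => hjadd1 u v w)) hjsymm hjpos hjG3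
  refine ⟨α, β, γ, fun u => if h : u ∈ AddSubgroup.closure S then N ⟨u, h⟩ else 0,
    fun u => if h : u ∈ AddSubgroup.closure S then M ⟨u, h⟩ else 0, h1, h2, h3, h4, ?_⟩
  intro u hu w hw
  have hu' : u ∈ AddSubgroup.closure S := AddSubgroup.subset_closure hu
  have hw' : w ∈ AddSubgroup.closure S := AddSubgroup.subset_closure hw
  simp only [dif_pos hu', dif_pos hw']
  have h6 := h5 ⟨u, hu'⟩ ⟨w, hw'⟩
  have h7 := hj ⟨u, hu'⟩ ⟨w, hw'⟩
  rw [h7]
  congr 1

end Cfsg.Agent.Helper73
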