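import Mathlib
import Cfsg.Agent.Helper73.MajLattice
import Cfsg.Agent.Helper73.MajGalois
import Cfsg.Agent.Helper75.Contrib4

/-!
# Contributions of a major subsection: Galois action and binary-form coordinates (helper73)

* `maj_sigma_contrib`: a Galois automorphism raising `|G|`-th roots of unity to the `k`-th power
  maps the contribution of `(y, b)` to that of `(y^k, b)`.
* `maj_contrib_mean_ge`: the Galois mean of a nonzero diagonal contribution `a_χχ` of a major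
  subsection is at least `p^{h(χ)}`.
* `maj_contrib_coords`: if `b` has `p`-regular rank at most two, the contributions are the values
  of a reduced integral binary Hermitian form at algebraic integers of the cyclotomic field.
-/

set_option autoImplicit false
open Cfsg
open scoped ComplexConjugate

namespace Cfsg.Agent.Helper73

universe u

variable {G : Type u} [Group G] [Fintype G]

theorem maj_classInner_mem_cycField (H : Subgroup G) [Fintype H] (y : G)
    (χ : Cfsg.IrrCharacter G) (θ : Cfsg.IrrCharacter H) :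
    Cfsg.classInner (fun c : H => (χ : G → ℂ) (y * c)) (θ : H → ℂ)
      ∈ Helper75.cycField (Nat.card G) := by
  unfold Cfsg.classInner
  exact mul_mem (inv_mem (natCast_mem _ _)) (sum_mem fun c _ =>
    mul_mem (Helper75.irr_mem_cycField χ _)
      (Helper75.conj_mem_cycField _ (Helper75.irr_subgroup_mem_cycField H θ c)))

theorem maj_sigma_classInner (H : Subgroup G) [Fintype H] (y : G)
    (hcent : ∀ h : H, y * (h : G) = (h : G) * y) (σ : ℂ ≃+* ℂ) (k : ℕ)
    (hk : Nat.Coprime k (Nat.card G))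
    (hσ : ∀ z : ℂ, z ^ Nat.card G = 1 → σ z = z ^ k) (χ : Cfsg.IrrCharacter G)
    (θ : Cfsg.IrrCharacter H) :
    σ (Cfsg.classInner (fun c : H => (χ : G → ℂ) (y * c)) (θ : H → ℂ))
      = Cfsg.classInner (fun c : H => (χ : G → ℂ) (y ^ k * c)) (θ : H → ℂ) := by
  unfold Cfsg.classInner
  rw [map_mul, map_inv₀, map_natCast, map_sum]
  congr 1
  have hχ : ∀ g, σ ((χ : G → ℂ) g) = (χ : G → ℂ) (g ^ k) := by
    obtain ⟨m, ρ, -, hρ⟩ := χ.2
    intro g
    rw [← hρ]
    exact (Helper75.character_pow_eq ρ σ k hσ g).symm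
  have hσH : ∀ z : ℂ, z ^ Nat.card H = 1 → σ z = z ^ k := by
    intro z hz
    apply hσ
    obtain ⟨c, hc⟩ := Subgroup.card_subgroup_dvd_card H
    rw [hc, pow_mul, hz, one_pow]
  have hθ : ∀ c : H, σ ((θ : H → ℂ) c) = (θ : H → ℂ) (c ^ k) := by
    obtain ⟨m, ρ, -, hρ⟩ := θ.2
    intro c
    rw [← hρ]
    exact (Helper75.character_pow_eq ρ σ k hσH c).symm
  have hkH : Nat.Coprime (Nat.card H) k :=
    (Nat.Coprime.coprime_dvd_right (Subgroup.card_subgroup_dvd_card H) hk).symm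
  rw [← Equiv.sum_comp (powCoprime hkH)
    (fun c : H => (χ : G → ℂ) (y ^ k * c) * conj ((θ : H → ℂ) c))]
  refine Finset.sum_congr rfl fun c _ => ?_
  rw [map_mul, Helper75.ringEquiv_conj_comm σ (Nat.card G) Nat.card_pos.ne'
    (Helper75.irr_subgroup_mem_cycField H θ c), hχ, hθ, powCoprime_apply,
    (show Commute y (c : G) from hcent c).mul_pow, Subgroup.coe_pow]

/-- **Galois equivariance of contributions.** -/
theorem maj_sigma_contrib (H : Subgroup G) [Fintype H] {p : ℕ} {M : Ideal Cfsg.AlgInt}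
    (hM : Cfsg.IsPModular p M) (y : G) (hcent : ∀ h : H, y * (h : G) = (h : G) * y)
    {b : Set (Cfsg.IrrCharacter H)} (hb : Cfsg.IsPBlock M b) {d : ℕ}
    (hd : Cfsg.blockDefect p b = d) (σ : ℂ ≃+* ℂ) (k : ℕ) (hk : Nat.Coprime k (Nat.card G))
    (hσ : ∀ z : ℂ, z ^ Nat.card G = 1 → σ z = z ^ k) (χ ψ : Cfsg.IrrCharacter G) :
    σ (Helper75.contrib H y b p d (χ : G → ℂ) (ψ : G → ℂ))
      = Helper75.contrib H (y ^ k) b p d (χ : G → ℂ) (ψ : G → ℂ) := by
  classical
  have := Fintype.ofFinite (Cfsg.IrrCharacter H)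
  rw [Helper75.contrib_eq_sum, Helper75.contrib_eq_sum, map_sum]
  refine Finset.sum_congr rfl fun θ _ => ?_
  rw [map_sum]
  refine Finset.sum_congr rfl fun θ' hθ' => ?_
  rw [Finset.mem_filter] at hθ'
  obtain ⟨j, hj⟩ := Helper75.cn_int hM hb hd θ hθ'.2
  rw [map_mul, map_mul, hj, map_intCast, Helper75.ringEquiv_conj_comm σ (Nat.card G)
    Nat.card_pos.ne' (maj_classInner_mem_cycField H y ψ θ'),
    maj_sigma_classInner H y hcent σ k hk hσ χ θ, maj_sigma_classInner H y hcent σ k hk hσ ψ θ']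

/-- Diagonal contributions are nonnegative reals. -/
theorem maj_contrib_self_real (H : Subgroup G) [Fintype H] (y : G)
    (b : Set (Cfsg.IrrCharacter H)) (p d : ℕ) (χ : G → ℂ) :
    ∃ r : ℝ, 0 ≤ r ∧ Helper75.contrib H y b p d χ χ = (r : ℂ) := by
  refine ⟨(p : ℝ) ^ d / (Nat.card H : ℝ) * ∑ x : H, (if ¬ p ∣ orderOf x then
    Complex.normSq (Cfsg.blockPart b (fun c : H => χ (y * c)) x) else 0), ?_, ?_⟩
  · refine mul_nonneg (by positivity) (Finset.sum_nonneg fun x _ => ?_)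
    split_ifs
    · exact le_refl _
    · exact Complex.normSq_nonneg _
  · unfold Helper75.contrib Helper77.pregInner
    push_cast
    congr 1
    refine Finset.sum_congr rfl fun x _ => ?_
    split_ifs
    · simp
    · rw [Complex.mul_conj]

/-- **Galois mean of a diagonal contribution of a major subsection.** -/
theorem maj_contrib_mean_ge {p : ℕ} {M : Ideal Cfsg.AlgInt}
    (hM : Cfsg.IsPModular p M) (z : G) (hz : ∃ k : ℕ, orderOf z = p ^ k)
    [Fintype (Subgroup.centralizer ({z} : Set G))]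
    {b : Set (Cfsg.IrrCharacter (Subgroup.centralizer ({z} : Set G)))}
    (hb : Cfsg.IsPBlock M b) {d : ℕ} (hd : Cfsg.blockDefect p b = d)
    {B : Set (Cfsg.IrrCharacter G)} (hdB : Cfsg.blockDefect p B = d)
    (σ : (ZMod (Nat.card G))ˣ → (ℂ ≃+* ℂ))
    (hσ : ∀ (u : (ZMod (Nat.card G))ˣ) (w : ℂ), w ^ Nat.card G = 1 →
      σ u w = w ^ (u : ZMod (Nat.card G)).val)
    {χ : Cfsg.IrrCharacter G} (hχ : χ ∈ B)
    (hne : Helper75.contrib (Subgroup.centralizer ({z} : Set G)) z b p d (χ : G → ℂ) (χ : G → ℂ)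
      ≠ 0) :
    (p : ℝ) ^ Cfsg.blockHeight p B (χ : G → ℂ)
      ≤ majRe (Nat.card G) σ
        (Helper75.contrib (Subgroup.centralizer ({z} : Set G)) z b p d (χ : G → ℂ) (χ : G → ℂ)) := by
  have huC : z ∈ (Subgroup.centralizer ({z} : Set G)) := by
    rw [Subgroup.mem_centralizer_iff]
    intro s hs
    rw [Set.mem_singleton_iff] at hs
    rw [hs]
  have hcent : ∀ h : (Subgroup.centralizer ({z} : Set G)), z * (h : G) = (h : G) * z :=
    fun c => Subgroup.mem_centralizer_iff.mp c.2 z rfl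
  have hHC : ∀ g : G, z * g = g * z → g ∈ Subgroup.centralizer ({z} : Set G) := by
    intro g hg
    rw [Subgroup.mem_centralizer_iff]
    intro s hs
    rw [Set.mem_singleton_iff] at hs
    rw [hs]
    exact hg
  have hsig : ∀ u : (ZMod (Nat.card G))ˣ,
      σ u (Helper75.contrib (Subgroup.centralizer ({z} : Set G)) z b p d (χ : G → ℂ) (χ : G → ℂ))
        = Helper75.contrib (Subgroup.centralizer ({z} : Set G))
          (z ^ (u : ZMod (Nat.card G)).val) b p d (χ : G → ℂ) (χ : G → ℂ) :=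
    fun u => maj_sigma_contrib (Subgroup.centralizer ({z} : Set G)) hM z hcent hb hd (σ u)
      (u : ZMod (Nat.card G)).val (ZMod.val_coe_unit_coprime u) (hσ u) χ χ
  refine majRe_ge_pow (Nat.card G) σ hσ hM _
    (Helper75.contrib_mem_cycField (Subgroup.centralizer ({z} : Set G)) z b p d χ χ)
    (Helper75.contrib_isIntegral (Subgroup.centralizer ({z} : Set G)) hM z huC hcent hz hb hd χ χ)
    hne _ ?_ ?_
  · intro u
    rw [hsig u]
    exact maj_contrib_self_real _ _ _ _ _ _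
  · intro u
    rw [hsig u]
    have hk : Nat.Coprime (u : ZMod (Nat.card G)).val (orderOf z) :=
      Nat.Coprime.coprime_dvd_right (orderOf_dvd_natCard z) (ZMod.val_coe_unit_coprime u)
    refine Helper75.contrib_div_memLocalRing (Subgroup.centralizer ({z} : Set G)) hM
      (z ^ (u : ZMod (Nat.card G)).val) (pow_mem huC _) ?_ ?_ ?_ hb hdB χ hχ
    · intro c
      exact ((show Commute z (c : G) from hcent c).pow_left _).eq
    · intro g hg
      apply hHC
      obtain ⟨m, hm⟩ := exists_pow_eq_self_of_coprime hk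
      have h1 : Commute (z ^ (u : ZMod (Nat.card G)).val) g := hg
      have h2 := h1.pow_left m
      rw [hm] at h2
      exact h2.eq
    · obtain ⟨j, hj⟩ := hz
      exact ⟨j, by rw [Nat.Coprime.orderOf_pow hk.symm, hj]⟩

/-- **Binary-form coordinates** for the contributions of a subsection whose block has
`p`-regular rank at most two. -/
theorem maj_contrib_coords (H : Subgroup G) [Fintype H] {p : ℕ} {M : Ideal Cfsg.AlgInt}
    (hM : Cfsg.IsPModular p M) (y : G) (hyH : y ∈ H)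
    (hcent : ∀ h : H, y * (h : G) = (h : G) * y) (hyp : ∃ k : ℕ, orderOf y = p ^ k)
    {b : Set (Cfsg.IrrCharacter H)} (hb : Cfsg.IsPBlock M b) {d : ℕ}
    (hd : Cfsg.blockDefect p b = d) (hl : Cfsg.blockRank p b ≤ 2) :
    ∃ (α β γ : ℤ) (x y' : Cfsg.IrrCharacter G → ℂ), 1 ≤ α ∧ 0 ≤ 2 * β ∧ 2 * β ≤ α ∧ α ≤ γ ∧
      (∀ χ, x χ ∈ Helper75.cycField (Nat.card G)) ∧ (∀ χ, IsIntegral ℤ (x χ)) ∧
      (∀ χ, y' χ ∈ Helper75.cycField (Nat.card G)) ∧ (∀ χ, IsIntegral ℤ (y' χ)) ∧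
      ∀ χ ψ : Cfsg.IrrCharacter G, Helper75.contrib H y b p d (χ : G → ℂ) (ψ : G → ℂ)
        = (α : ℂ) * (x χ * conj (x ψ)) + (β : ℂ) * (x χ * conj (y' ψ) + y' χ * conj (x ψ))
          + (γ : ℂ) * (y' χ * conj (y' ψ)) := by
  classical
  have := Fintype.ofFinite (Cfsg.IrrCharacter H)
  have hp := hM.1
  have hκ : (0 : ℝ) < (p : ℝ) ^ d / (Nat.card H : ℝ) := by
    have h1 : (0 : ℝ) < (p : ℝ) := by exact_mod_cast hp.pos
    have h2 : (0 : ℝ) < (Nat.card H : ℝ) := by exact_mod_cast Nat.card_pos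
    positivity
  have hcn : ∀ θ θ' : Cfsg.IrrCharacter H,
      (((p : ℝ) ^ d / (Nat.card H : ℝ) : ℝ) : ℂ) * ∑ x : H,
        Cfsg.pRegularPart p (θ : H → ℂ) x * conj (Cfsg.pRegularPart p (θ' : H → ℂ) x)
      = Helper75.cn p d (θ : H → ℂ) (θ' : H → ℂ) := by
    intro θ θ'
    unfold Helper75.cn Helper77.pregInner
    push_cast
    congr 1
    refine Finset.sum_congr rfl fun x _ => ?_
    rw [Helper77.pRegularPart_apply, Helper77.pRegularPart_apply]
    split_ifs <;> simp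
  obtain ⟨α, β, γ, N, Mf, h1, h2, h3, h4, h5⟩ := maj_lattice_fun
    ((p : ℝ) ^ d / (Nat.card H : ℝ)) hκ
    ((fun θ : Cfsg.IrrCharacter H => Cfsg.pRegularPart p (θ : H → ℂ)) '' b)
    (by
      rintro u ⟨θ, hθ, rfl⟩ w ⟨θ', hθ', rfl⟩
      obtain ⟨j, hj⟩ := Helper75.cn_int hM hb hd θ hθ'
      exact ⟨j, by rw [hcn, hj]⟩) hl
  have hcn' : ∀ θ ∈ b, ∀ θ' ∈ b, Helper75.cn p d (θ : H → ℂ) (θ' : H → ℂ)
      = ((α * (N (Cfsg.pRegularPart p (θ : H → ℂ)) * N (Cfsg.pRegularPart p (θ' : H → ℂ)))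
        + β * (N (Cfsg.pRegularPart p (θ : H → ℂ)) * Mf (Cfsg.pRegularPart p (θ' : H → ℂ))
          + Mf (Cfsg.pRegularPart p (θ : H → ℂ)) * N (Cfsg.pRegularPart p (θ' : H → ℂ)))
        + γ * (Mf (Cfsg.pRegularPart p (θ : H → ℂ)) * Mf (Cfsg.pRegularPart p (θ' : H → ℂ)))
          : ℤ) : ℂ) := by
    intro θ hθ θ' hθ'
    rw [← hcn]
    exact h5 _ ⟨θ, hθ, rfl⟩ _ ⟨θ', hθ', rfl⟩
  have hmemS : ∀ (f : Cfsg.IrrCharacter H → ℤ) (χ : Cfsg.IrrCharacter G),
      (∑ θ ∈ Finset.univ.filter (fun θ : Cfsg.IrrCharacter H => θ ∈ b),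
        Cfsg.classInner (fun c : H => (χ : G → ℂ) (y * c)) (θ : H → ℂ) * (f θ : ℂ))
        ∈ Helper75.cycField (Nat.card G) := fun f χ =>
    sum_mem fun θ _ => mul_mem (maj_classInner_mem_cycField H y χ θ) (intCast_mem _ _)
  have hintS : ∀ (f : Cfsg.IrrCharacter H → ℤ) (χ : Cfsg.IrrCharacter G),
      IsIntegral ℤ (∑ θ ∈ Finset.univ.filter (fun θ : Cfsg.IrrCharacter H => θ ∈ b),
        Cfsg.classInner (fun c : H => (χ : G → ℂ) (y * c)) (θ : H → ℂ) * (f θ : ℂ)) := fun f χ =>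
    IsIntegral.sum _ fun θ _ => IsIntegral.mul
      (Helper75.secCoeff_isIntegral H p hp y hyH hcent hyp χ θ) (isIntegral_intCast _)
  have hxx : ∀ (f g : Cfsg.IrrCharacter H → ℤ) (χ ψ : Cfsg.IrrCharacter G),
      (∑ θ ∈ Finset.univ.filter (fun θ : Cfsg.IrrCharacter H => θ ∈ b),
        Cfsg.classInner (fun c : H => (χ : G → ℂ) (y * c)) (θ : H → ℂ) * (f θ : ℂ))
      * conj (∑ θ ∈ Finset.univ.filter (fun θ : Cfsg.IrrCharacter H => θ ∈ b),
        Cfsg.classInner (fun c : H => (ψ : G → ℂ) (y * c)) (θ : H → ℂ) * (g θ : ℂ))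
      = ∑ θ ∈ Finset.univ.filter (fun θ : Cfsg.IrrCharacter H => θ ∈ b),
          ∑ θ' ∈ Finset.univ.filter (fun θ : Cfsg.IrrCharacter H => θ ∈ b),
            Cfsg.classInner (fun c : H => (χ : G → ℂ) (y * c)) (θ : H → ℂ)
              * conj (Cfsg.classInner (fun c : H => (ψ : G → ℂ) (y * c)) (θ' : H → ℂ))
              * ((f θ * g θ' : ℤ) : ℂ) := by
    intro f g χ ψ
    rw [map_sum, Finset.sum_mul_sum]
    refine Finset.sum_congr rfl fun θ _ => Finset.sum_congr rfl fun θ' _ => ?_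
    rw [map_mul, map_intCast]
    push_cast
    ring
  refine ⟨α, β, γ,
    fun χ => ∑ θ ∈ Finset.univ.filter (fun θ : Cfsg.IrrCharacter H => θ ∈ b),
      Cfsg.classInner (fun c : H => (χ : G → ℂ) (y * c)) (θ : H → ℂ)
        * ((N (Cfsg.pRegularPart p (θ : H → ℂ)) : ℤ) : ℂ),
    fun χ => ∑ θ ∈ Finset.univ.filter (fun θ : Cfsg.IrrCharacter H => θ ∈ b),
      Cfsg.classInner (fun c : H => (χ : G → ℂ) (y * c)) (θ : H → ℂ)
        * ((Mf (Cfsg.pRegularPart p (θ : H → ℂ)) : ℤ) : ℂ),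
    h1, h2, h3, h4, hmemS _, hintS _, hmemS _, hintS _, ?_⟩
  intro χ ψ
  rw [Helper75.contrib_eq_sum]
  simp only [hxx]
  simp only [Finset.mul_sum, ← Finset.sum_add_distrib]
  refine Finset.sum_congr rfl fun θ hθ => Finset.sum_congr rfl fun θ' hθ' => ?_
  rw [Finset.mem_filter] at hθ hθ'
  rw [hcn' θ hθ.2 θ' hθ'.2]
  push_cast
  ring

end Cfsg.Agent.Helper73
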