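import Cfsg.Agent.Helper71.McLGDefs
import Cfsg.Agent.Helper98.McLB

/-!
# Distinct blocks: a block lies in the fixed space of the group of another block
(helper73, PIECE Q of CALL S5075 BATCH 2)
-/

set_option autoImplicit false

namespace Cfsg.Agent.Helper73.McL

open Module Cfsg.Agent.Helper71.McL

variable {p : ℕ} [Fact p.Prime] {V : Type*} [AddCommGroup V] [Module (ZMod p) V]

theorem mclQ_HW_le (H : Subgroup (V ≃ₗ[ZMod p] V)) (W : Submodule (ZMod p) V) : HW H W ≤ H := by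
  unfold HW
  rw [Subgroup.closure_le]
  intro g hg
  exact hg.1

theorem mclQ_inv_inf (H : Subgroup (V ≃ₗ[ZMod p] V)) {W W' : Submodule (ZMod p) V}
    (hW : InvG H W) (hW' : InvG H W') : InvG H (W ⊓ W') :=
  fun g hg x hx => ⟨hW g hg x hx.1, hW' g hg x hx.2⟩

theorem block_le_fix [Finite V] (H : Subgroup (V ≃ₗ[ZMod p] V)) (W W' : Submodule (ZMod p) V)
    (hW : IsBlock H W) (hW' : IsBlock H W') (hne : W ≠ W')
    (h6 : ∀ (φ : Dual (ZMod p) V) (v : V), TV H φ v → φ ≠ 0 → v ≠ 0 →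
      (v ∈ W ∧ TV (HW H W) φ v) ∨ (v ∈ FixG (HW H W) ∧ ∀ x ∈ W, φ x = 0))
    (S' : TSys (ZMod p) V)
    (hS' : ∀ (φ : Dual (ZMod p) V) (v : V), S'.Θ φ v ↔ TV (HW H W') φ v) (hG' : S'.Good W') :
    W' ≤ FixG (HW H W) := by
  rw [← Cfsg.Agent.Helper98.McL.span_centers S' W' hG', Submodule.span_le]
  rintro v ⟨hv0, φ, hφ0, hΘ⟩
  have hTV' : TV (HW H W') φ v := (hS' φ v).mp hΘ
  have hTV : TV H φ v := by
    obtain ⟨h0, g, hg, hgx⟩ := hTV'
    exact ⟨h0, g, mclQ_HW_le H W' hg, hgx⟩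
  rcases h6 φ v hTV hφ0 hv0 with ⟨hvW, -⟩ | ⟨hfix, -⟩
  · exfalso
    have hvW' : v ∈ W' := hG'.center_mem φ v hΘ hφ0 hv0
    rcases hW'.2.2 (W ⊓ W') inf_le_right (mclQ_inv_inf H hW.1 hW'.1) with h1 | h1
    · have hle : W' ≤ W := by
        rw [← h1]
        exact inf_le_left
      rcases hW.2.2 W' hle hW'.1 with h2 | h2
      · exact hne h2.symm
      · exact hW'.2.1 h2
    · have hvF : v ∈ FixG H := h1 ⟨hvW, hvW'⟩
      apply hG'.nc φ v hΘ hφ0 hv0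
      rw [TSys.mem_Fix]
      intro φ' v' hΘ'
      obtain ⟨-, g, hg, hgx⟩ := (hS' φ' v').mp hΘ'
      have h2 := hvF g (mclQ_HW_le H W' hg)
      rw [hgx v] at h2
      exact add_eq_left.mp h2
  · exact hfix

end Cfsg.Agent.Helper73.McL
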