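import Cfsg.Agent.Helper71.McLGDefs

/-!
# The restriction homomorphism of a group of linear automorphisms to an invariant subspace
(helper73, PIECE X of CALL S5075 BATCH 2)
-/

set_option autoImplicit false

namespace Cfsg.Agent.Helper73.McL

open Module Cfsg.Agent.Helper71.McL

variable {p : ℕ} [Fact p.Prime] {V : Type*} [AddCommGroup V] [Module (ZMod p) V]

/-- the restriction of an element of `K` to the `K`-invariant subspace `W`. -/
def mclXRes (K : Subgroup (V ≃ₗ[ZMod p] V)) (W : Submodule (ZMod p) V) (hinv : InvG K W) (h : ↥K) :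
    ↥W ≃ₗ[ZMod p] ↥W where
  toFun v := ⟨(h : V ≃ₗ[ZMod p] V) (v : V), hinv h.1 h.2 v.1 v.2⟩
  invFun v := ⟨((h⁻¹ : ↥K) : V ≃ₗ[ZMod p] V) (v : V), hinv (h⁻¹ : ↥K).1 (h⁻¹ : ↥K).2 v.1 v.2⟩
  map_add' x y := Subtype.ext (by simp)
  map_smul' c x := Subtype.ext (by simp)
  left_inv v := Subtype.ext (by
    show ((h⁻¹ : ↥K) : V ≃ₗ[ZMod p] V) ((h : V ≃ₗ[ZMod p] V) (v : V)) = v
    rw [← LinearEquiv.mul_apply, ← Subgroup.coe_mul, inv_mul_cancel]
    rfl)
  right_inv v := Subtype.ext (by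
    show (h : V ≃ₗ[ZMod p] V) (((h⁻¹ : ↥K) : V ≃ₗ[ZMod p] V) (v : V)) = v
    rw [← LinearEquiv.mul_apply, ← Subgroup.coe_mul, mul_inv_cancel]
    rfl)

theorem mclXRes_apply (K : Subgroup (V ≃ₗ[ZMod p] V)) (W : Submodule (ZMod p) V) (hinv : InvG K W)
    (h : ↥K) (v : ↥W) : ((mclXRes K W hinv h v : ↥W) : V) = (h : V ≃ₗ[ZMod p] V) (v : V) := rfl

theorem exists_rho (K : Subgroup (V ≃ₗ[ZMod p] V)) (W : Submodule (ZMod p) V) (hinv : InvG K W) :
    ∃ ρ : ↥K →* (↥W ≃ₗ[ZMod p] ↥W),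
      ∀ (h : ↥K) (v : ↥W), ((ρ h v : ↥W) : V) = (h : V ≃ₗ[ZMod p] V) (v : V) := by
  refine ⟨{ toFun := mclXRes K W hinv
            map_one' := ?_
            map_mul' := ?_ }, fun h v => rfl⟩
  · apply LinearEquiv.ext
    intro v
    apply Subtype.ext
    rw [mclXRes_apply]
    rfl
  · intro a b
    apply LinearEquiv.ext
    intro v
    apply Subtype.ext
    rw [mclXRes_apply, LinearEquiv.mul_apply, mclXRes_apply, mclXRes_apply]
    rfl

end Cfsg.Agent.Helper73.McL
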