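-- helper73 library: piece c7c1 of helper63's CALL S4415.
import Cfsg.Prelude.Def_Transfer
import Cfsg.Prelude.Def_Solvable
import Cfsg.Agent.Helper63.N15Defs

set_option autoImplicit false

namespace Cfsg.Agent.Helper73.N15

open Cfsg.Agent.Helper63.N15

section abs

variable {G : Type*} [Group G] [Finite G] {V : Type*} [AddCommGroup V] [Module (ZMod 3) V]
  [Finite V] {ρ : Representation (ZMod 3) G V} {R : Subgroup G} {b q₁ q₂ q₃ : G} {v₁ v₂ v₃ : V}

/-- C7c1 (group theory + faithfulness). An "extraspecial modulo `Z`" group with more than `16`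
elements has a noncentral involution and a noncentral element of order `4`. -/
theorem c7c1 (c : Cfg ρ R b q₁ q₂ q₃ v₁ v₂ v₃) (T : Subgroup G) (hz : ZProps ρ T)
    (hcard : 16 < Nat.card T) :
    (∃ t ∈ T, ¬ IsZ ρ t ∧ t * t = 1) ∧ (∃ t ∈ T, ¬ IsZ ρ t ∧ t * t ≠ 1) := by
  classical
  obtain ⟨hsq, hcm, hcen⟩ := hz
  have hmul : ∀ (x y : G) (v : V), ρ (x * y) v = ρ x (ρ y v) := fun x y v => by
    rw [map_mul]
    rfl
  have hone : ∀ v : V, ρ (1 : G) v = v := fun v => by
    rw [map_one]
    rfl
  have hv1 : -v₁ ≠ v₁ := by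
    intro h
    apply c.v1
    have h2 : v₁ + v₁ = 0 := by
      nth_rewrite 1 [← h]
      exact neg_add_cancel v₁
    have h3 : (2 : ZMod 3) • v₁ = 0 := by
      rw [two_smul]
      exact h2
    have h4 : (2 : ZMod 3) • ((2 : ZMod 3) • v₁) = v₁ := by
      rw [smul_smul]
      have : (2 : ZMod 3) * 2 = 1 := by decide
      rw [this, one_smul]
    rw [← h4, h3, smul_zero]
  have hinvact : ∀ z : G, (∀ v, ρ z v = -v) → ∀ v, ρ z⁻¹ v = -v := by
    intro z hzv v
    have h1 : ρ z (ρ z⁻¹ v) = v := by rw [← hmul, mul_inv_cancel, hone]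
    rw [hzv] at h1
    exact neg_eq_iff_eq_neg.mp h1
  have huniq : ∀ x y : G, (∀ v, ρ x v = -v) → (∀ v, ρ y v = -v) → x = y := by
    intro x y hx hy
    have h1 : x * y⁻¹ = 1 := c.faith _ (fun v => by rw [hmul, hinvact y hy, hx, neg_neg])
    exact mul_inv_eq_one.mp h1
  have hsqone : ∀ z : G, (∀ v, ρ z v = -v) → z * z = 1 := by
    intro z hzv
    exact c.faith _ (fun v => by rw [hmul, hzv, hzv, neg_neg])
  have hcentral : ∀ z : G, (∀ v, ρ z v = -v) → ∀ g : G, z * g = g * z := by
    intro z hzv g
    have h1 : z * g * z⁻¹ * g⁻¹ = 1 := c.faith _ (fun v => by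
      rw [hmul, hmul, hmul, hinvact z hzv, map_neg, hzv, neg_neg, ← hmul, mul_inv_cancel, hone])
    have h2 : z * g = (z * g * z⁻¹ * g⁻¹) * (g * z) := by group
    rw [h2, h1, one_mul]
  obtain ⟨z₀, hz₀⟩ : ∃ z₀ : G, ∀ x, IsZ ρ x → x = 1 ∨ x = z₀ := by
    by_cases h : ∃ z : G, ∀ v, ρ z v = -v
    · obtain ⟨z, hzv⟩ := h
      refine ⟨z, ?_⟩
      rintro x (rfl | hx)
      · left
        rfl
      · right
        exact huniq x z hx hzv
    · refine ⟨1, ?_⟩
      rintro x (rfl | hx)
      · left
        rfl
      · exact absurd ⟨x, hx⟩ h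
  have L : ∀ l : List G, l.length ≤ 16 → ∃ x ∈ T, x ∉ l := by
    intro l hl
    by_contra hcon
    push Not at hcon
    have h1 : Nat.card T ≤ l.toFinset.card := by
      calc Nat.card T = (T : Set G).ncard := (Nat.card_coe_set_eq _)
        _ ≤ ((l.toFinset : Finset G) : Set G).ncard :=
            Set.ncard_le_ncard (fun x hx => Finset.mem_coe.mpr (List.mem_toFinset.mpr (hcon x hx)))
              (Finset.finite_toSet _)
        _ = l.toFinset.card := Set.ncard_coe_finset _
    have h2 := List.toFinset_card_le l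
    omega
  constructor
  · by_contra hA
    push Not at hA
    obtain ⟨t, htT, htl⟩ := L [1, z₀] (by simp)
    have htZ : ¬ IsZ ρ t := by
      intro h
      rcases hz₀ t h with h1 | h1
      · exact htl (by simp [h1])
      · exact htl (by simp [h1])
    obtain ⟨z, hzdef⟩ : ∃ z : G, z = t * t := ⟨_, rfl⟩
    have hzact : ∀ v, ρ z v = -v := by
      rw [hzdef]
      exact Or.resolve_left (hsq t htT) (hA t htT htZ)
    have hzz : z * z = 1 := hsqone z hzact
    have hzc : ∀ g : G, z * g = g * z := hcentral z hzact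
    have hZ1 : ∀ x, IsZ ρ x → x = 1 ∨ x = z := by
      rintro x (rfl | hx)
      · left
        rfl
      · right
        exact huniq x z hx hzact
    have hsqz : ∀ a ∈ T, ¬ IsZ ρ a → a * a = z := by
      intro a ha hna
      exact (hZ1 _ (hsq a ha)).resolve_left (hA a ha hna)
    have hinv : ∀ a ∈ T, ¬ IsZ ρ a → a⁻¹ = a * z := by
      intro a ha hna
      have h1 := hsqz a ha hna
      rw [inv_eq_iff_mul_eq_one, ← mul_assoc, h1, hzz]
    have K : ∀ a ∈ T, ∀ b' ∈ T, ¬ IsZ ρ a → ¬ IsZ ρ b' → a * b' = b' * a →
        a = b' ∨ a = b' * z := by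
      intro a ha b' hb' hna hnb hab
      have h1 : (a * b') * (a * b') = 1 := by
        calc (a * b') * (a * b') = a * (b' * a) * b' := by group
          _ = a * (a * b') * b' := by rw [hab]
          _ = (a * a) * (b' * b') := by group
          _ = 1 := by rw [hsqz a ha hna, hsqz b' hb' hnb, hzz]
      have h2 : IsZ ρ (a * b') := by
        by_contra h3
        exact hA _ (T.mul_mem ha hb') h3 h1
      rcases hZ1 _ h2 with h3 | h3
      · right
        rw [← hinv b' hb' hnb]
        exact eq_inv_of_mul_eq_one_left h3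
      · left
        have h4 : a = z * b'⁻¹ := by
          rw [← h3]
          group
        rw [h4, hinv b' hb' hnb, ← mul_assoc, hzc b', mul_assoc, hzz, mul_one]
    obtain ⟨s, hsT, hsl⟩ := L [1, z, t, t * z] (by simp)
    have hsZ : ¬ IsZ ρ s := by
      intro h
      rcases hZ1 s h with h1 | h1
      · exact hsl (by simp [h1])
      · exact hsl (by simp [h1])
    have hst1 : s ≠ t := fun h => hsl (by simp [h])
    have hst2 : s ≠ t * z := fun h => hsl (by simp [h])
    obtain ⟨u, huT, hul⟩ := L [1, z, t, t * z, s, s * z, s * t, s * t * z] (by simp)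
    have huZ : ¬ IsZ ρ u := by
      intro h
      rcases hZ1 u h with h1 | h1
      · exact hul (by simp [h1])
      · exact hul (by simp [h1])
    have hus : u * s * u⁻¹ * s⁻¹ = z := by
      rcases hZ1 _ (hcm u huT s hsT) with h1 | h1
      · exfalso
        have h2 : u * s = s * u := by
          have h5 : u * s = (u * s * u⁻¹ * s⁻¹) * (s * u) := by group
          rw [h5, h1, one_mul]
        rcases K u huT s hsT huZ hsZ h2 with h3 | h3
        · exact hul (by simp [h3])
        · exact hul (by simp [h3])
      · exact h1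
    have hut : u * t * u⁻¹ * t⁻¹ = z := by
      rcases hZ1 _ (hcm u huT t htT) with h1 | h1
      · exfalso
        have h2 : u * t = t * u := by
          have h5 : u * t = (u * t * u⁻¹ * t⁻¹) * (t * u) := by group
          rw [h5, h1, one_mul]
        rcases K u huT t htT huZ htZ h2 with h3 | h3
        · exact hul (by simp [h3])
        · exact hul (by simp [h3])
      · exact h1
    have hstZ : ¬ IsZ ρ (s * t) := by
      intro h
      rcases hZ1 _ h with h1 | h1
      · apply hst2
        rw [← hinv t htT htZ]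
        exact eq_inv_of_mul_eq_one_left h1
      · apply hst1
        have h4 : s = z * t⁻¹ := by
          rw [← h1]
          group
        rw [h4, hinv t htT htZ, ← mul_assoc, hzc t, mul_assoc, hzz, mul_one]
    have hcomm : u * (s * t) = (s * t) * u := by
      have h1 : u * s = z * (s * u) := by
        have h5 : u * s = (u * s * u⁻¹ * s⁻¹) * (s * u) := by group
        rw [h5, hus]
      have h2 : u * t = z * (t * u) := by
        have h5 : u * t = (u * t * u⁻¹ * t⁻¹) * (t * u) := by group
        rw [h5, hut]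
      calc u * (s * t) = (u * s) * t := by group
        _ = z * (s * u) * t := by rw [h1]
        _ = z * s * (u * t) := by group
        _ = z * s * (z * (t * u)) := by rw [h2]
        _ = (z * s) * z * (t * u) := by group
        _ = (s * z) * z * (t * u) := by rw [hzc s]
        _ = s * (z * z) * (t * u) := by group
        _ = s * t * u := by
          rw [hzz]
          group
    rcases K u huT (s * t) (T.mul_mem hsT htT) huZ hstZ hcomm with h3 | h3
    · exact hul (by simp [h3])
    · exact hul (by simp [h3])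
  · by_contra hB
    push Not at hB
    have hall : ∀ t ∈ T, t * t = 1 := by
      intro t ht
      by_cases h : IsZ ρ t
      · rcases h with rfl | h
        · exact mul_one 1
        · exact hsqone t h
      · exact hB t ht h
    have hab : ∀ a ∈ T, ∀ b' ∈ T, a * b' = b' * a := by
      intro a ha b' hb'
      have ha' : a⁻¹ = a := inv_eq_of_mul_eq_one_left (hall a ha)
      have hb'' : b'⁻¹ = b' := inv_eq_of_mul_eq_one_left (hall b' hb')
      have h4 : (a * b')⁻¹ = a * b' := inv_eq_of_mul_eq_one_left (hall _ (T.mul_mem ha hb'))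
      rw [mul_inv_rev, ha', hb''] at h4
      exact h4.symm
    have hallZ : ∀ t ∈ T, IsZ ρ t := fun t ht => hcen t ht (fun s hs => hab t ht s hs)
    obtain ⟨x, hxT, hxl⟩ := L [1, z₀] (by simp)
    rcases hz₀ x (hallZ x hxT) with h1 | h1
    · exact hxl (by simp [h1])
    · exact hxl (by simp [h1])

end abs

end Cfsg.Agent.Helper73.N15
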