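-- helper73 library: piece c7c2 of helper63's CALL S4415 (double).
import Cfsg.Prelude.Def_Transfer
import Cfsg.Prelude.Def_Solvable
import Cfsg.Agent.Helper63.N15Defs

set_option autoImplicit false

namespace Cfsg.Agent.Helper73.N15

open Cfsg.Agent.Helper63.N15

/-- a map of order dividing the prime `p` acting without fixed points on a finite set `B`:
`p ∣ |B|` -/
theorem c7c2_fin_cnt {G : Type*} [DecidableEq G] (B : Finset G) (f : G → G) (p : ℕ)
    [Fact p.Prime] (hB : ∀ s ∈ B, f s ∈ B) (hp : ∀ s ∈ B, f^[p] s = s)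
    (hfree : ∀ s ∈ B, f s ≠ s) : p ∣ B.card := by
  let F : Function.End {s // s ∈ B} := fun s => ⟨f s.1, hB s.1 s.2⟩
  have hiter : ∀ (n : ℕ) (s : {s // s ∈ B}), ((F ^ n) s).1 = f^[n] s.1 := by
    intro n
    induction n with
    | zero =>
      intro s
      rfl
    | succ n ih =>
      intro s
      rw [pow_succ', Function.iterate_succ_apply']
      show f ((F ^ n) s).1 = f (f^[n] s.1)
      rw [ih]
  have hF : F ^ p ^ 1 = 1 := by
    funext s
    apply Subtype.ext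
    rw [pow_one, hiter, hp s.1 s.2]
    rfl
  have h1 := Equiv.Perm.card_fixedPoints_modEq (p := p) (n := 1) hF
  have h2 : Fintype.card (Function.fixedPoints F) = 0 := by
    rw [Fintype.card_eq_zero_iff]
    constructor
    rintro ⟨s, hs⟩
    exact hfree s.1 s.2 (congrArg Subtype.val hs)
  rw [h2, Fintype.card_coe] at h1
  exact (Nat.modEq_zero_iff_dvd).mp h1

section abs

variable {G : Type*} [Group G] [Finite G] {V : Type*} [AddCommGroup V] [Module (ZMod 3) V]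
  [Finite V] {ρ : Representation (ZMod 3) G V} {R : Subgroup G} {b q₁ q₂ q₃ : G} {v₁ v₂ v₃ : V}

/-- C7c2. With `y` of order `5` fixed-point-free on `T̄ = T / (Z ∩ T)` and commuting with `b`
modulo `T`: `|T| = 32` and all elements of `T` outside `Z` have the same "square type". -/
theorem c7c2 (c : Cfg ρ R b q₁ q₂ q₃ v₁ v₂ v₃) (htp : TProps R (T2 R))
    (hz : ZProps ρ (T2 R)) (hTnZ : ∃ t ∈ T2 R, ¬ IsZ ρ t)
    (hf2 : ∀ N : Subgroup G, N.Normal → (∀ x ∈ N, x * b = b * x) →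
      ∀ x ∈ N, ∀ g : G, x * g = g * x)
    (hlz : ∀ z : G, (∀ g : G, z * g = g * z) → IsZ ρ z)
    (h32 : Nat.card (T2 R) ≤ 32) (y : G) (hy5 : y ^ 5 = 1)
    (hfpf : ∀ t ∈ T2 R, IsZ ρ (y * t * y⁻¹ * t⁻¹) → IsZ ρ t)
    (hby : b * y * b⁻¹ * y⁻¹ ∈ T2 R) :
    Nat.card (T2 R) = 32 ∧ ∀ t ∈ T2 R, ∀ t' ∈ T2 R, ¬ IsZ ρ t → ¬ IsZ ρ t' →
      (t * t = 1 ↔ t' * t' = 1) := by
  classical
  have := Fintype.ofFinite G
  obtain ⟨T, hTdef⟩ : ∃ T : Subgroup G, T = T2 R := ⟨_, rfl⟩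
  rw [← hTdef] at htp hz hTnZ h32 hfpf hby ⊢
  obtain ⟨hTn, hTR, hT2, -⟩ := htp
  obtain ⟨hsq, hcm, hcen⟩ := hz
  have hmul : ∀ (x y : G) (v : V), ρ (x * y) v = ρ x (ρ y v) := fun x y v => by
    rw [map_mul]
    rfl
  have hone : ∀ v : V, ρ (1 : G) v = v := fun v => by
    rw [map_one]
    rfl
  have hinvact : ∀ z : G, (∀ v, ρ z v = -v) → ∀ v, ρ z⁻¹ v = -v := by
    intro z hzv v
    have h1 : ρ z (ρ z⁻¹ v) = v := by rw [← hmul, mul_inv_cancel, hone]
    rw [hzv] at h1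
    exact neg_eq_iff_eq_neg.mp h1
  have huniq : ∀ x y : G, (∀ v, ρ x v = -v) → (∀ v, ρ y v = -v) → x = y := by
    intro x y hx hy
    have h1 : x * y⁻¹ = 1 := c.faith _ (fun v => by rw [hmul, hinvact y hy, hx, neg_neg])
    exact mul_inv_eq_one.mp h1
  have hsqone : ∀ z : G, (∀ v, ρ z v = -v) → z * z = 1 := by
    intro z hzv
    exact c.faith _ (fun v => by rw [hmul, hzv, hzv, neg_neg])
  have hcentral : ∀ z : G, (∀ v, ρ z v = -v) → ∀ g : G, z * g = g * z := by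
    intro z hzv g
    have h1 : z * g * z⁻¹ * g⁻¹ = 1 := c.faith _ (fun v => by
      rw [hmul, hmul, hmul, hinvact z hzv, map_neg, hzv, neg_neg, ← hmul, mul_inv_cancel, hone])
    have h2 : z * g = (z * g * z⁻¹ * g⁻¹) * (g * z) := by group
    rw [h2, h1, one_mul]
  -- the element `z` acting as `-1`
  obtain ⟨t₀, ht₀T, ht₀Z⟩ := hTnZ
  have hnc : ¬ ∀ s ∈ T, t₀ * s = s * t₀ := fun h => ht₀Z (hcen t₀ ht₀T h)
  push Not at hnc
  obtain ⟨s₀, hs₀T, hne⟩ := hnc
  obtain ⟨z, hzdef⟩ : ∃ z : G, z = t₀ * s₀ * t₀⁻¹ * s₀⁻¹ := ⟨_, rfl⟩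
  have hz1 : z ≠ 1 := by
    intro h
    apply hne
    have h5 : t₀ * s₀ = (t₀ * s₀ * t₀⁻¹ * s₀⁻¹) * (s₀ * t₀) := by group
    rw [h5, ← hzdef, h, one_mul]
  have hzact : ∀ v, ρ z v = -v := by
    have h := hcm t₀ ht₀T s₀ hs₀T
    rw [← hzdef] at h
    exact Or.resolve_left h hz1
  have hzT : z ∈ T := by
    rw [hzdef]
    exact T.mul_mem (T.mul_mem (T.mul_mem ht₀T hs₀T) (T.inv_mem ht₀T)) (T.inv_mem hs₀T)
  have hzz : z * z = 1 := hsqone z hzact
  have hzc : ∀ g : G, z * g = g * z := hcentral z hzact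
  have hZ1 : ∀ x, IsZ ρ x → x = 1 ∨ x = z := by
    rintro x (rfl | hx)
    · left
      rfl
    · right
      exact huniq x z hx hzact
  have hZz : IsZ ρ z := Or.inr hzact
  have hZone : IsZ ρ (1 : G) := Or.inl rfl
  have hzinv : z⁻¹ = z := inv_eq_of_mul_eq_one_left hzz
  have hZmul : ∀ x x', IsZ ρ x → IsZ ρ x' → IsZ ρ (x * x') := by
    intro x x' hx hx'
    rcases hZ1 x hx with h | h <;> rcases hZ1 x' hx' with h' | h'
    · rw [h, h', mul_one]
      exact hZone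
    · rw [h, h', one_mul]
      exact hZz
    · rw [h, h', mul_one]
      exact hZz
    · rw [h, h', hzz]
      exact hZone
  have hZinv : ∀ x, IsZ ρ x → IsZ ρ x⁻¹ := by
    intro x hx
    rcases hZ1 x hx with h | h
    · rw [h, inv_one]
      exact hZone
    · rw [h, hzinv]
      exact hZz
  have hZconj : ∀ g x, IsZ ρ x → g * x * g⁻¹ = x := by
    intro g x hx
    rcases hZ1 x hx with h | h
    · rw [h]
      group
    · rw [h, ← hzc g, mul_assoc, mul_inv_cancel, mul_one]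
  have hZconj' : ∀ g x, IsZ ρ (g * x * g⁻¹) → IsZ ρ x := by
    intro g x hx
    have h1 := hZconj g⁻¹ _ hx
    have h2 : g⁻¹ * (g * x * g⁻¹) * g⁻¹⁻¹ = x := by group
    rw [h2] at h1
    rw [h1]
    exact hx
  have hZmulz : ∀ x, IsZ ρ (x * z) → IsZ ρ x := by
    intro x hx
    have h1 := hZmul _ _ hx hZz
    rw [mul_assoc, hzz, mul_one] at h1
    exact h1
  have hconjsq : ∀ g s : G, (g * s * g⁻¹) * (g * s * g⁻¹) = 1 ↔ s * s = 1 := by
    intro g s
    constructor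
    · intro h
      have h1 : s * s = g⁻¹ * (g * s * g⁻¹ * (g * s * g⁻¹)) * g := by group
      rw [h1, h]
      group
    · intro h
      have h1 : g * s * g⁻¹ * (g * s * g⁻¹) = g * (s * s) * g⁻¹ := by group
      rw [h1, h]
      group
  have hzsq : ∀ s : G, (s * z) * (s * z) = s * s := by
    intro s
    calc (s * z) * (s * z) = s * (z * s) * z := by group
      _ = s * (s * z) * z := by rw [hzc s]
      _ = (s * s) * (z * z) := by group
      _ = s * s := by rw [hzz, mul_one]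
  -- finsets
  obtain ⟨Tf, hTf⟩ : ∃ Tf : Finset G, ∀ s, s ∈ Tf ↔ s ∈ T :=
    ⟨Finset.univ.filter (fun s => s ∈ T), fun s => by simp⟩
  have hTcard : Nat.card T = Tf.card := by
    have hTset : ((Tf : Finset G) : Set G) = (T : Set G) := by
      ext s
      simp [hTf]
    rw [← Set.ncard_coe_finset Tf, hTset]
    exact Nat.card_coe_set_eq _
  have hiter : ∀ (g : G) (n : ℕ) (s : G),
      (fun s => g * s * g⁻¹)^[n] s = g ^ n * s * (g ^ n)⁻¹ := by
    intro g n
    induction n with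
    | zero =>
      intro s
      simp
    | succ n ih =>
      intro s
      rw [Function.iterate_succ_apply', ih, pow_succ']
      group
  have cnt5 : ∀ B : Finset G, (∀ s ∈ B, s ∈ T ∧ ¬ IsZ ρ s) → (∀ s ∈ B, y * s * y⁻¹ ∈ B) →
      5 ∣ B.card := by
    intro B hB1 hB2
    have : Fact (Nat.Prime 5) := ⟨by norm_num⟩
    apply c7c2_fin_cnt B (fun s => y * s * y⁻¹) 5 hB2
    · intro s _
      rw [hiter, hy5]
      group
    · intro s hs h
      have h' : y * s * y⁻¹ = s := h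
      apply (hB1 s hs).2
      apply hfpf s (hB1 s hs).1
      have h5 : y * s * y⁻¹ * s⁻¹ = 1 := by rw [h', mul_inv_cancel]
      rw [h5]
      exact hZone
  obtain ⟨BT, hBT⟩ : ∃ BT : Finset G, ∀ s, s ∈ BT ↔ s ∈ T ∧ ¬ IsZ ρ s :=
    ⟨Tf.filter (fun s => ¬ IsZ ρ s), fun s => by simp [hTf]⟩
  have hBTcard : Tf.card = BT.card + 2 := by
    have h1 : Tf = BT ∪ {1, z} := by
      ext s
      simp only [Finset.mem_union, hTf, hBT, Finset.mem_insert, Finset.mem_singleton]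
      constructor
      · intro hs
        by_cases h : IsZ ρ s
        · right
          exact hZ1 s h
        · left
          exact ⟨hs, h⟩
      · rintro (⟨hs, -⟩ | h | h)
        · exact hs
        · rw [h]
          exact T.one_mem
        · rw [h]
          exact hzT
    have h2 : Disjoint BT ({1, z} : Finset G) := by
      rw [Finset.disjoint_left]
      intro s hs hs'
      simp only [Finset.mem_insert, Finset.mem_singleton] at hs'
      rcases hs' with h | h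
      · rw [h] at hs
        exact ((hBT _).mp hs).2 hZone
      · rw [h] at hs
        exact ((hBT _).mp hs).2 hZz
    rw [h1, Finset.card_union_of_disjoint h2, Finset.card_pair (Ne.symm hz1)]
  have hBTconj : ∀ g : G, ∀ s ∈ BT, g * s * g⁻¹ ∈ BT := by
    intro g s hs
    exact (hBT _).mpr ⟨hTn.conj_mem s ((hBT s).mp hs).1 g,
      fun h => ((hBT s).mp hs).2 (hZconj' g s h)⟩
  have h5BT : 5 ∣ BT.card := cnt5 BT (fun s hs => (hBT s).mp hs) (hBTconj y)
  have hBTpos : 0 < BT.card := Finset.card_pos.mpr ⟨t₀, (hBT t₀).mpr ⟨ht₀T, ht₀Z⟩⟩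
  have hT32 : Nat.card T = 32 := by
    obtain ⟨n, hn⟩ := IsPGroup.iff_card.mp hT2
    have hn5 : n ≤ 5 := by
      by_contra hcon
      have h6 : 2 ^ 6 ≤ 2 ^ n := Nat.pow_le_pow_right (by norm_num) (by omega)
      rw [hn] at h32
      norm_num at h6
      omega
    rw [hn] at hTcard
    rw [hn]
    interval_cases n <;> norm_num at hTcard ⊢ <;> omega
  have hBT30 : BT.card = 30 := by omega
  -- the subgroup of elements fixed by `b` modulo `Z`
  obtain ⟨Fb, hFb⟩ : ∃ Fb : Subgroup G, ∀ s, s ∈ Fb ↔ s ∈ T ∧ IsZ ρ (b * s * b⁻¹ * s⁻¹) :=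
    ⟨{ carrier := {s | s ∈ T ∧ IsZ ρ (b * s * b⁻¹ * s⁻¹)}
       mul_mem' := by
         rintro s s' ⟨hs, hsZ⟩ ⟨hs', hsZ'⟩
         refine ⟨T.mul_mem hs hs', ?_⟩
         have e : b * (s * s') * b⁻¹ * (s * s')⁻¹ =
             (b * s * b⁻¹ * s⁻¹) * (s * (b * s' * b⁻¹ * s'⁻¹) * s⁻¹) := by group
         rw [e, hZconj s _ hsZ']
         exact hZmul _ _ hsZ hsZ'
       one_mem' := ⟨T.one_mem, by
         have e : b * 1 * b⁻¹ * (1 : G)⁻¹ = 1 := by group
         rw [e]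
         exact hZone⟩
       inv_mem' := by
         rintro s ⟨hs, hsZ⟩
         refine ⟨T.inv_mem hs, ?_⟩
         have e : b * s⁻¹ * b⁻¹ * s⁻¹⁻¹ = s⁻¹ * (b * s * b⁻¹ * s⁻¹)⁻¹ * s⁻¹⁻¹ := by group
         rw [e, hZconj s⁻¹ _ (hZinv _ hsZ)]
         exact hZinv _ hsZ }, fun s => Iff.rfl⟩
  obtain ⟨Ff, hFf⟩ : ∃ Ff : Finset G, ∀ s, s ∈ Ff ↔ s ∈ Fb :=
    ⟨Finset.univ.filter (fun s => s ∈ Fb), fun s => by simp⟩
  have hFcard : Nat.card Fb = Ff.card := by
    have hFset : ((Ff : Finset G) : Set G) = (Fb : Set G) := by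
      ext s
      simp [hFf]
    rw [← Set.ncard_coe_finset Ff, hFset]
    exact Nat.card_coe_set_eq _
  obtain ⟨BF, hBF⟩ : ∃ BF : Finset G,
      ∀ s, s ∈ BF ↔ (s ∈ T ∧ ¬ IsZ ρ s) ∧ IsZ ρ (b * s * b⁻¹ * s⁻¹) :=
    ⟨BT.filter (fun s => IsZ ρ (b * s * b⁻¹ * s⁻¹)), fun s => by simp [hBT]⟩
  have hcomm1 : ∀ s, IsZ ρ s → b * s * b⁻¹ * s⁻¹ = 1 := by
    intro s hs
    rw [hZconj b s hs, mul_inv_cancel]
  have hFfcard : Ff.card = BF.card + 2 := by
    have h1 : Ff = BF ∪ {1, z} := by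
      ext s
      simp only [Finset.mem_union, hFf, hFb, hBF, Finset.mem_insert, Finset.mem_singleton]
      constructor
      · rintro ⟨hs, hsb⟩
        by_cases h : IsZ ρ s
        · right
          exact hZ1 s h
        · left
          exact ⟨⟨hs, h⟩, hsb⟩
      · rintro (⟨⟨hs, -⟩, hsb⟩ | h | h)
        · exact ⟨hs, hsb⟩
        · rw [h]
          refine ⟨T.one_mem, ?_⟩
          rw [hcomm1 1 hZone]
          exact hZone
        · rw [h]
          refine ⟨hzT, ?_⟩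
          rw [hcomm1 z hZz]
          exact hZone
    have h2 : Disjoint BF ({1, z} : Finset G) := by
      rw [Finset.disjoint_left]
      intro s hs hs'
      simp only [Finset.mem_insert, Finset.mem_singleton] at hs'
      rcases hs' with h | h
      · rw [h] at hs
        exact ((hBF _).mp hs).1.2 hZone
      · rw [h] at hs
        exact ((hBF _).mp hs).1.2 hZz
    rw [h1, Finset.card_union_of_disjoint h2, Finset.card_pair (Ne.symm hz1)]
  have h5BF : 5 ∣ BF.card := by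
    apply cnt5 BF (fun s hs => ((hBF s).mp hs).1)
    intro s hs
    obtain ⟨⟨hsT, hsZ⟩, hsb⟩ := (hBF s).mp hs
    refine (hBF _).mpr ⟨⟨hTn.conj_mem s hsT y, fun h => hsZ (hZconj' y s h)⟩, ?_⟩
    have e : b * (y * s * y⁻¹) * b⁻¹ * (y * s * y⁻¹)⁻¹ =
        (b * y * b⁻¹ * y⁻¹) * (y * (b * s * b⁻¹ * s⁻¹) * y⁻¹) * (b * y * b⁻¹ * y⁻¹)⁻¹ *
          ((b * y * b⁻¹ * y⁻¹) * (y * s * y⁻¹) * (b * y * b⁻¹ * y⁻¹)⁻¹ * (y * s * y⁻¹)⁻¹) := by
      group
    rw [e, hZconj y _ hsb, hZconj _ _ hsb]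
    exact hZmul _ _ hsb (hcm _ hby _ (hTn.conj_mem s hsT y))
  have hFle : Fb ≤ T := fun s hs => ((hFb s).mp hs).1
  have hFdvd : Nat.card Fb ∣ 2 ^ 5 := by
    have h := Subgroup.card_dvd_of_le hFle
    rw [hT32] at h
    exact h
  have hBFc : BF.card = 0 ∨ BF.card = 30 := by
    obtain ⟨m, hm5, hm⟩ := (Nat.dvd_prime_pow Nat.prime_two).mp hFdvd
    rw [hFcard, hFfcard] at hm
    have hm' : BF.card + 2 = 2 ^ m := hm
    obtain ⟨k, hk⟩ := h5BF
    have hm6 : m < 6 := Nat.lt_succ_of_le hm5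
    have e0 : (2:ℕ) ^ 0 = 1 := by norm_num
    have e1 : (2:ℕ) ^ 1 = 2 := by norm_num
    have e2 : (2:ℕ) ^ 2 = 4 := by norm_num
    have e3 : (2:ℕ) ^ 3 = 8 := by norm_num
    have e4 : (2:ℕ) ^ 4 = 16 := by norm_num
    have e5 : (2:ℕ) ^ 5 = 32 := by norm_num
    interval_cases m
    · rw [e0] at hm'; omega
    · rw [e1] at hm'; omega
    · rw [e2] at hm'; omega
    · rw [e3] at hm'; omega
    · rw [e4] at hm'; omega
    · rw [e5] at hm'; omega
  have hb3 : b * b * b = 1 := by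
    have h := c.b3
    rw [pow_succ, pow_two] at h
    exact h
  have hBF0 : BF.card = 0 := by
    rcases hBFc with h | h
    · exact h
    · exfalso
      have hBFeq : BF = BT :=
        Finset.eq_of_subset_of_card_le (fun s hs => (hBT s).mpr ((hBF s).mp hs).1)
          (by rw [h, hBT30])
      have hall : ∀ s ∈ T, IsZ ρ (b * s * b⁻¹ * s⁻¹) := by
        intro s hs
        by_cases hsZ : IsZ ρ s
        · rw [hcomm1 s hsZ]
          exact hZone
        · have h1 : s ∈ BF := by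
            rw [hBFeq]
            exact (hBT s).mpr ⟨hs, hsZ⟩
          exact ((hBF s).mp h1).2
      have hbc : ∀ s ∈ T, s * b = b * s := by
        intro s hs
        rcases hZ1 _ (hall s hs) with h1 | h1
        · have h5 : b * s = (b * s * b⁻¹ * s⁻¹) * (s * b) := by group
          rw [h5, h1, one_mul]
        · exfalso
          have h2 : b * s * b⁻¹ = z * s := by
            have h5 : b * s * b⁻¹ = (b * s * b⁻¹ * s⁻¹) * s := by group
            rw [h5, h1]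
          have e1 : b * (z * s) * b⁻¹ = s := by
            calc b * (z * s) * b⁻¹ = (b * z) * s * b⁻¹ := by group
              _ = (z * b) * s * b⁻¹ := by rw [hzc b]
              _ = z * (b * s * b⁻¹) := by group
              _ = z * (z * s) := by rw [h2]
              _ = s := by rw [← mul_assoc, hzz, one_mul]
          have e2 : s = z * s := by
            calc s = (b * b * b) * s * (b * b * b)⁻¹ := by
                  rw [hb3]
                  group
              _ = b * (b * (b * s * b⁻¹) * b⁻¹) * b⁻¹ := by group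
              _ = b * (b * (z * s) * b⁻¹) * b⁻¹ := by rw [h2]
              _ = b * s * b⁻¹ := by rw [e1]
              _ = z * s := h2
          apply hz1
          have h7 : z * s = 1 * s := by
            rw [one_mul]
            exact e2.symm
          exact mul_right_cancel h7
      exact ht₀Z (hlz t₀ (fun g => hf2 T hTn hbc t₀ ht₀T g))
  have F3 : ∀ s ∈ T, IsZ ρ (b * s * b⁻¹ * s⁻¹) → IsZ ρ s := by
    intro s hs h
    by_contra hsZ
    have h1 : s ∈ BF := (hBF s).mpr ⟨⟨hs, hsZ⟩, h⟩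
    have h2 := Finset.card_pos.mpr ⟨s, h1⟩
    omega
  have cnt30 : ∀ B : Finset G, (∀ s ∈ B, s ∈ T ∧ ¬ IsZ ρ s) →
      (∀ g : G, ∀ s ∈ B, g * s * g⁻¹ ∈ B) → (∀ s ∈ B, s * z ∈ B) → 30 ∣ B.card := by
    intro B hB1 hBc hBz
    have h5 : 5 ∣ B.card := cnt5 B hB1 (hBc y)
    have h3 : 3 ∣ B.card := by
      have : Fact (Nat.Prime 3) := ⟨by norm_num⟩
      apply c7c2_fin_cnt B (fun s => b * s * b⁻¹) 3 (hBc b)
      · intro s _
        rw [hiter, c.b3]
        group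
      · intro s hs h
        have h' : b * s * b⁻¹ = s := h
        apply (hB1 s hs).2
        apply F3 s (hB1 s hs).1
        have h6 : b * s * b⁻¹ * s⁻¹ = 1 := by rw [h', mul_inv_cancel]
        rw [h6]
        exact hZone
    have h2 : 2 ∣ B.card := by
      have : Fact (Nat.Prime 2) := ⟨by norm_num⟩
      apply c7c2_fin_cnt B (fun s => s * z) 2 hBz
      · intro s _
        show s * z * z = s
        rw [mul_assoc, hzz, mul_one]
      · intro s hs h
        have h' : s * z = s * 1 := by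
          rw [mul_one]
          exact h
        exact hz1 (mul_left_cancel h')
    have h6 : 2 * 3 ∣ B.card :=
      Nat.Coprime.mul_dvd_of_dvd_of_dvd (by norm_num : Nat.Coprime 2 3) h2 h3
    have h30 : 2 * 3 * 5 ∣ B.card :=
      Nat.Coprime.mul_dvd_of_dvd_of_dvd (by norm_num : Nat.Coprime (2 * 3) 5) h6 h5
    exact h30
  obtain ⟨B1, hB1⟩ : ∃ B1 : Finset G, ∀ s, s ∈ B1 ↔ (s ∈ T ∧ ¬ IsZ ρ s) ∧ s * s = 1 :=
    ⟨BT.filter (fun s => s * s = 1), fun s => by simp [hBT]⟩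
  obtain ⟨B0, hB0⟩ : ∃ B0 : Finset G, ∀ s, s ∈ B0 ↔ (s ∈ T ∧ ¬ IsZ ρ s) ∧ ¬ s * s = 1 :=
    ⟨BT.filter (fun s => ¬ s * s = 1), fun s => by simp [hBT]⟩
  have hsum : BT.card = B1.card + B0.card := by
    have h1 : BT = B1 ∪ B0 := by
      ext s
      simp only [Finset.mem_union, hBT, hB1, hB0]
      tauto
    have h2 : Disjoint B1 B0 := by
      rw [Finset.disjoint_left]
      intro s h h'
      exact ((hB0 s).mp h').2 ((hB1 s).mp h).2
    rw [h1, Finset.card_union_of_disjoint h2]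
  have h30_1 : 30 ∣ B1.card := by
    apply cnt30 B1 (fun s hs => ((hB1 s).mp hs).1)
    · intro g s hs
      obtain ⟨⟨hsT, hsZ⟩, hss⟩ := (hB1 s).mp hs
      exact (hB1 _).mpr ⟨⟨hTn.conj_mem s hsT g, fun h => hsZ (hZconj' g s h)⟩,
        (hconjsq g s).mpr hss⟩
    · intro s hs
      obtain ⟨⟨hsT, hsZ⟩, hss⟩ := (hB1 s).mp hs
      exact (hB1 _).mpr ⟨⟨T.mul_mem hsT hzT, fun h => hsZ (hZmulz s h)⟩, by rw [hzsq, hss]⟩
  have h30_0 : 30 ∣ B0.card := by
    apply cnt30 B0 (fun s hs => ((hB0 s).mp hs).1)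
    · intro g s hs
      obtain ⟨⟨hsT, hsZ⟩, hss⟩ := (hB0 s).mp hs
      exact (hB0 _).mpr ⟨⟨hTn.conj_mem s hsT g, fun h => hsZ (hZconj' g s h)⟩,
        fun h => hss ((hconjsq g s).mp h)⟩
    · intro s hs
      obtain ⟨⟨hsT, hsZ⟩, hss⟩ := (hB0 s).mp hs
      exact (hB0 _).mpr ⟨⟨T.mul_mem hsT hzT, fun h => hsZ (hZmulz s h)⟩,
        fun h => hss (by rw [← hzsq]; exact h)⟩
  refine ⟨hT32, ?_⟩
  intro t ht t' ht' htZ ht'Z
  constructor
  · intro h
    by_contra h'
    have p1 := Finset.card_pos.mpr ⟨t, (hB1 t).mpr ⟨⟨ht, htZ⟩, h⟩⟩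
    have p0 := Finset.card_pos.mpr ⟨t', (hB0 t').mpr ⟨⟨ht', ht'Z⟩, h'⟩⟩
    omega
  · intro h
    by_contra h'
    have p1 := Finset.card_pos.mpr ⟨t', (hB1 t').mpr ⟨⟨ht', ht'Z⟩, h⟩⟩
    have p0 := Finset.card_pos.mpr ⟨t, (hB0 t).mpr ⟨⟨ht, htZ⟩, h'⟩⟩
    omega

end abs

end Cfsg.Agent.Helper73.N15
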