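-- helper73 library: piece c7y of helper63's CALL S4415.
import Cfsg.Prelude.Def_Transfer
import Cfsg.Prelude.Def_Solvable
import Cfsg.Agent.Helper63.N15Defs

set_option autoImplicit false

namespace Cfsg.Agent.Helper73.N15

open Cfsg.Agent.Helper63.N15

/-- if two coprime powers of `x` lie in a subgroup, so does `x` -/
theorem c7y_mem_of_pow {G : Type*} [Group G] (T : Subgroup G) (x : G) (m n : ℕ)
    (hmn : Nat.Coprime m n) (hm : x ^ m ∈ T) (hn : x ^ n ∈ T) : x ∈ T := by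
  have h := Nat.gcd_eq_gcd_ab m n
  rw [Nat.Coprime.gcd_eq_one hmn] at h
  have hx : x = (x ^ m) ^ (Nat.gcdA m n) * (x ^ n) ^ (Nat.gcdB m n) := by
    rw [← zpow_natCast x m, ← zpow_natCast x n, ← zpow_mul, ← zpow_mul, ← zpow_add, ← h]
    simp
  rw [hx]
  exact T.mul_mem (T.zpow_mem hm _) (T.zpow_mem hn _)

section abs

variable {G : Type*} [Group G] [Finite G] {V : Type*} [AddCommGroup V] [Module (ZMod 3) V]
  [Finite V] {ρ : Representation (ZMod 3) G V} {R : Subgroup G} {b q₁ q₂ q₃ : G} {v₁ v₂ v₃ : V}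

/-- C7y (pure group theory). A chief factor `Y / T` above the largest normal `2`-subgroup `T`
has `r ≥ 5` (`r = 2` would make `Y` a normal `2`-subgroup; `r = 3` is impossible as `|R|` is
prime to `3`), and `Y ∖ T` contains an element of order `r` (the `r`-part of any `x ∈ Y ∖ T`). -/
theorem c7y (T Y : Subgroup G) (hR3 : (Nat.card R).Coprime 3) (htp : TProps R T)
    (hYn : Y.Normal) (hYR : Y ≤ R) (hTY : T < Y) (r : ℕ) (hr : r.Prime)
    (hpow : ∀ x ∈ Y, x ^ r ∈ T) :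
    5 ≤ r ∧ ∃ y ∈ Y, y ∉ T ∧ y ^ r = 1 := by
  obtain ⟨hTn, hTR, hT2, hTmax⟩ := htp
  obtain ⟨x, hxY, hxT⟩ := SetLike.exists_of_lt hTY
  have hr2 : r ≠ 2 := by
    rintro rfl
    have hY2 : IsPGroup 2 Y := by
      rintro ⟨g, hg⟩
      obtain ⟨k, hk⟩ := hT2 ⟨g ^ 2, hpow g hg⟩
      refine ⟨k + 1, ?_⟩
      apply Subtype.ext
      have h1 := congrArg Subtype.val hk
      simp only [Subgroup.coe_pow, Subgroup.coe_one] at h1 ⊢
      rw [pow_succ, mul_comm, pow_mul]
      exact h1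
    exact absurd (hTmax Y hYn hYR hY2) (not_le_of_gt hTY)
  have hr3 : r ≠ 3 := by
    rintro rfl
    apply hxT
    have hord : orderOf x ∣ Nat.card R := Subgroup.orderOf_dvd_natCard R (hYR hxY)
    have hcop : Nat.Coprime 3 (orderOf x) := (Nat.Coprime.coprime_dvd_left hord hR3).symm
    exact c7y_mem_of_pow T x 3 (orderOf x) hcop (hpow x hxY)
      (by rw [pow_orderOf_eq_one]; exact T.one_mem)
  have hr4 : r ≠ 4 := by
    rintro rfl
    norm_num at hr
  have hr5 : 5 ≤ r := by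
    have := hr.two_le
    omega
  refine ⟨hr5, ?_⟩
  obtain ⟨k, hk⟩ := hT2 ⟨x ^ r, hpow x hxY⟩
  have hk' : (x ^ r) ^ (2 ^ k) = 1 := by
    have h1 := congrArg Subtype.val hk
    simpa using h1
  refine ⟨x ^ (2 ^ k), Y.pow_mem hxY _, ?_, ?_⟩
  · intro hT
    apply hxT
    have hcop : Nat.Coprime (2 ^ k) r := by
      apply Nat.Coprime.pow_left
      exact (Nat.coprime_primes Nat.prime_two hr).mpr (Ne.symm hr2)
    exact c7y_mem_of_pow T x (2 ^ k) r hcop hT (hpow x hxY)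
  · rw [← pow_mul, mul_comm, pow_mul]
    exact hk'

end abs

end Cfsg.Agent.Helper73.N15
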