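-- helper73 library: piece OBADDIR of helper96's CALL S5992 (mirror of Helper13/TLCASEDB.lean).
import Mathlib
import Cfsg.Agent.Helper96.OHDefs
import Cfsg.Agent.Helper97.OForm
import Cfsg.Agent.Helper31.OHOFIX
import Cfsg.Agent.Helper37.OHOFIXCONGR
import Cfsg.Agent.Helper37.OHOSTD
import Cfsg.Agent.Helper70.OHOSUB
import Cfsg.Agent.Helper88.OHOBAD
import Cfsg.Agent.Helper88.OHOTYPEEVEN
import Cfsg.Agent.Helper96.OHCDVD
import Cfsg.Agent.Helper73.OHONDSUBCARD

set_option autoImplicit false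
set_option linter.unusedSectionVars false
set_option linter.unusedVariables false

namespace Cfsg.Agent.Helper73.OH5992

open Module Polynomial Cfsg Cfsg.Geo
open Cfsg.Agent.Helper13.TIu Cfsg.Agent.Helper96.OH

theorem obd_toLin'_pow {κ : Type} [Fintype κ] [DecidableEq κ] {F : Type*} [Field F]
    (M : Matrix κ κ F) (k : ℕ) : Matrix.toLin' M ^ k = Matrix.toLin' (M ^ k) := by
  induction k with
  | zero => rw [pow_zero, pow_zero, Matrix.toLin'_one]; rfl
  | succ k ih => rw [pow_succ, pow_succ, Matrix.toLin'_mul, ih]; rfl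

theorem obd_card (d : ℕ) : Fintype.card (Unit ⊕ (Fin d ⊕ Fin d)) = 2 * d + 1 := by
  simp; omega

theorem obd_opres {κ : Type} [Fintype κ] [DecidableEq κ] {F : Type*} [Field F]
    (Q : (κ → F) → F) (g : Matrix.GeneralLinearGroup κ F) (hg : g ∈ Cfsg.isometryGroup F Q) :
    OPres Q (Matrix.toLin' (g : Matrix κ κ F)) := by
  intro v
  rw [Matrix.toLin'_apply]
  exact (Cfsg.Agent.Helper97.Gen.mem_isometryGroup_iff Q g).mp hg v

theorem obd_pow_one {κ : Type} [Fintype κ] [DecidableEq κ] {F : Type*} [Field F]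
    (g : Matrix.GeneralLinearGroup κ F) (r : ℕ) (hg : orderOf g = r) :
    Matrix.toLin' (g : Matrix κ κ F) ^ r = 1 := by
  have h1 : g ^ r = 1 := by rw [← hg]; exact pow_orderOf_eq_one g
  have h2 : (g : Matrix κ κ F) ^ r = 1 := by
    rw [← Units.val_pow_eq_pow_val, h1]; rfl
  rw [obd_toLin'_pow, h2, Matrix.toLin'_one]; rfl

variable {ι : Type} [Fintype ι] [DecidableEq ι] {F : Type*} [Field F] (Q : (ι → F) → F)

/-- an injective isometry maps hyperbolic `m`-spaces to hyperbolic `m`-spaces -/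
theorem obd_map_pres (T : Module.End F (ι → F)) (hT : OPres Q T) (hinj : Function.Injective T)
    (m : ℕ) (W : Submodule F (ι → F)) (hW : finrank F W = m ∧ ONd Q W ∧ OPl Q W) :
    finrank F (W.map T) = m ∧ ONd Q (W.map T) ∧ OPl Q (W.map T) := by
  obtain ⟨hW1, hW2, hW4⟩ := hW
  have hT' : ∀ v, Q (T v) = Q v := hT
  have hpol : ∀ u v, QuadraticMap.polar Q (T u) (T v) = QuadraticMap.polar Q u v := by
    intro u v
    unfold QuadraticMap.polar
    rw [← map_add, hT', hT', hT']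
  have hfr : ∀ U : Submodule F (ι → F), finrank F (U.map T) = finrank F U := fun U =>
    (Submodule.equivMapOfInjective T hinj U).symm.finrank_eq
  refine ⟨?_, ?_, ?_⟩
  · rw [hfr, hW1]
  · rintro _ ⟨u₀, hu₀, rfl⟩ hne
    have hu0 : u₀ ≠ 0 := by
      rintro rfl
      exact hne (map_zero _)
    obtain ⟨⟨x, hx, hx1⟩, ⟨x', hx', hx1'⟩⟩ := hW2 u₀ hu₀ hu0
    refine ⟨⟨T x, Submodule.mem_map_of_mem hx, ?_⟩, ⟨T x', Submodule.mem_map_of_mem hx', ?_⟩⟩
    · rw [hpol]
      exact hx1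
    · rw [hpol]
      exact hx1'
  · obtain ⟨U, hUW, hUs, hUd⟩ := hW4
    refine ⟨U.map T, Submodule.map_mono hUW, ?_, ?_⟩
    · rintro _ ⟨u, hu, rfl⟩
      rw [hT']
      exact hUs u hu
    · rw [hfr, hfr]
      exact hUd

/-- the generic form of OBADDIR: `hbad` packages the bad element and its invariant subspace. -/
theorem o_bad_dir_gen [Fintype F] (hQ : IsNondegenerateQuadraticForm Q) (h2 : (2 : F) ≠ 0)
    (n m : ℕ) (hn : Fintype.card ι = n) (hnodd : Odd n) (hme : Even m) (hm2 : 2 ≤ m)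
    (hmn : m < n) (r : ℕ) [Fact r.Prime] (hr2 : 2 < r) (hrF : (r : F) ≠ 0)
    (hΩ : r ∣ Nat.card {W : Submodule F (ι → F) // finrank F W = m ∧ ONd Q W ∧ OPl Q W})
    (i c : ℕ) (hi : i = orderOf ((Fintype.card F : ℕ) : ZMod r))
    (hc : c = if Even i then i else 2 * i)
    (hbad : c ≤ n → ∃ T : Module.End F (ι → F), OPres Q T ∧ T ^ r = 1 ∧
      finrank F (LinearMap.ker (T - 1)) = n % c ∧
      ∃ W : Submodule F (ι → F), (finrank F W = m ∧ ONd Q W ∧ OPl Q W) ∧ W.map T ≤ W) :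
    c ≤ m ∧ m % c < n % c ∧ (Even i → 0 < m % c ∨ Even (m / i)) := by
  classical
  have hrpr : r.Prime := Fact.out
  have hr0 : 0 < r := hrpr.pos
  have hi0 : 0 < i := by
    rw [hi]
    exact Cfsg.Agent.Helper13.TIsp.ti_ord_pos_of_ne r hrF
  have hc0 : 0 < c := by
    rw [hc]
    split_ifs <;> omega
  have hceven : Even c := by
    rw [hc]
    split_ifs with hie
    · exact hie
    · exact even_two_mul i
  have h2c : 2 ∣ c := even_iff_two_dvd.mp hceven
  have hn' : finrank F (⊤ : Submodule F (ι → F)) = n := by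
    rw [finrank_top, Module.finrank_fintype_fun_eq_card, hn]
  have hklt : n % c < c := Nat.mod_lt _ hc0
  have hana : ∀ T : Module.End F (ι → F), OPres Q T → T ^ r = 1 →
      ∀ W : Submodule F (ι → F), finrank F W = m → ONd Q W → W.map T ≤ W →
      c ∣ m - finrank F (W ⊓ LinearMap.ker (T - 1) : Submodule F (ι → F)) := by
    intro T hT hTr W hW1 hW2 hW3
    have h3 := Cfsg.Agent.Helper96.OH5992.o_cdvd Q hQ h2 T hT r hr2 hrF hTr i c hi hc W hW3 hW2
    rwa [hW1] at h3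
  have hKnd : ∀ T : Module.End F (ι → F), OPres Q T → T ^ r = 1 →
      ONd Q (LinearMap.ker (T - 1)) := by
    intro T hT hTr
    have h := (Cfsg.Agent.Helper31.OH5992.o_fix Q hQ T hT r hr0 hrF hTr ⊤ le_top (ond_top Q hQ)).1
    rwa [top_inf_eq] at h
  have hinjT : ∀ T : Module.End F (ι → F), T ^ r = 1 → Function.Injective T := by
    intro T hTr
    have hinv : ∀ v, (T ^ (r - 1)) (T v) = v := by
      intro v
      have h : T ^ (r - 1) * T = 1 := by
        rw [← pow_succ, Nat.sub_add_cancel hr0, hTr]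
      have h3 := congrArg (fun S : Module.End F (ι → F) => S v) h
      simpa using h3
    intro u v huv
    rw [← hinv u, ← hinv v, huv]
  -- step 1
  have hcm : c ≤ m := by
    by_contra hlt
    push Not at hlt
    obtain ⟨K, hK, hKc, W₀, hW₀, hrK⟩ : ∃ K : Submodule F (ι → F), ONd Q K ∧ finrank F K < c ∧
        ∃ W₀ : Submodule F (ι → F), ((finrank F W₀ = m ∧ ONd Q W₀ ∧ OPl Q W₀) ∧ W₀ ≤ K) ∧
        r ∣ Nat.card {W : Submodule F (ι → F) //
          (finrank F W = m ∧ ONd Q W ∧ OPl Q W) ∧ W ≤ K} := by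
      by_cases hcn : c ≤ n
      · obtain ⟨T, hT, hTr, hT3, W, hW, hWT⟩ := hbad hcn
        have hinK : ∀ W : Submodule F (ι → F), (finrank F W = m ∧ ONd Q W ∧ OPl Q W) →
            W.map T ≤ W → W ≤ LinearMap.ker (T - 1) := by
          rintro W ⟨hW1, hW2, -⟩ hW3
          have h4 := hana T hT hTr W hW1 hW2 hW3
          have h5 : finrank F (W ⊓ LinearMap.ker (T - 1) : Submodule F (ι → F)) ≤
              finrank F W := Submodule.finrank_mono inf_le_left
          have h6 := Nat.eq_zero_of_dvd_of_lt h4 (by omega)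
          have h7 : W ⊓ LinearMap.ker (T - 1) = W :=
            Submodule.eq_of_le_of_finrank_eq inf_le_left (by omega)
          rw [← h7]
          exact inf_le_right
        refine ⟨LinearMap.ker (T - 1), hKnd T hT hTr, by rw [hT3]; exact hklt, W,
          ⟨hW, hinK W hW hWT⟩, ?_⟩
        have h1 := Cfsg.Agent.Helper37.OH5992.o_fix_congr T r hTr (fun W => finrank F W = m ∧ ONd Q W ∧ OPl Q W)
          (fun W hW => obd_map_pres Q T hT (hinjT T hTr) m W hW)
        have h2' := (h1.dvd_iff (dvd_refl r)).mp hΩ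
        have h3 : Nat.card {W : Submodule F (ι → F) //
            (finrank F W = m ∧ ONd Q W ∧ OPl Q W) ∧ W.map T ≤ W} =
            Nat.card {W : Submodule F (ι → F) //
            (finrank F W = m ∧ ONd Q W ∧ OPl Q W) ∧ W ≤ LinearMap.ker (T - 1)} := by
          apply Nat.card_congr
          apply Equiv.subtypeEquivRight
          intro W
          constructor
          · rintro ⟨hW1, hW3⟩
            exact ⟨hW1, hinK W hW1 hW3⟩
          · rintro ⟨hW1, hW3⟩
            refine ⟨hW1, ?_⟩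
            rintro _ ⟨w, hw, rfl⟩
            rw [(Cfsg.Agent.Helper90.BG.mem_ker_sub_one T w).mp (hW3 hw)]
            exact hw
        rw [← h3]
        exact h2'
      · push Not at hcn
        obtain ⟨X, -, hXnd, hXdim, hXty⟩ := Cfsg.Agent.Helper70.OH5992.o_sub Q hQ h2 ⊤ (ond_top Q hQ) m hme (by omega)
          (by rw [hn']; exact hmn) True
        refine ⟨⊤, ond_top Q hQ, by rw [hn']; exact hcn, X,
          ⟨⟨hXdim, hXnd, hXty.mpr trivial⟩, le_top⟩, ?_⟩
        have h3 : Nat.card {W : Submodule F (ι → F) //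
            (finrank F W = m ∧ ONd Q W ∧ OPl Q W) ∧ W ≤ ⊤} =
            Nat.card {W : Submodule F (ι → F) // finrank F W = m ∧ ONd Q W ∧ OPl Q W} := by
          apply Nat.card_congr
          apply Equiv.subtypeEquivRight
          intro W
          exact and_iff_left le_top
        rw [h3]
        exact hΩ
    exact o_nd_sub_card Q hQ h2 r hr2 hrF i c hi hc m K hK hKc W₀ hW₀ hrK
  -- step 2
  have hcn : c ≤ n := by omega
  obtain ⟨T, hT, hTr, hT3, W, ⟨hW1, hW2, hW4⟩, hW3⟩ := hbad hcn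
  have h4 := hana T hT hTr W hW1 hW2 hW3
  have h5 : finrank F (W ⊓ LinearMap.ker (T - 1) : Submodule F (ι → F)) ≤
      finrank F W := Submodule.finrank_mono inf_le_left
  have h6 : finrank F (W ⊓ LinearMap.ker (T - 1) : Submodule F (ι → F)) ≤
      finrank F (LinearMap.ker (T - 1)) := Submodule.finrank_mono inf_le_right
  rw [hW1] at h5
  rw [hT3] at h6
  obtain ⟨j, hj⟩ := h4
  have h7 : m = finrank F (W ⊓ LinearMap.ker (T - 1) : Submodule F (ι → F)) + c * j := by
    omega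
  have h8 : m % c = finrank F (W ⊓ LinearMap.ker (T - 1) : Submodule F (ι → F)) := by
    conv_lhs => rw [h7]
    rw [Nat.add_mul_mod_self_left]
    exact Nat.mod_eq_of_lt (by omega)
  have hpar1 : m % c % 2 = m % 2 := Nat.mod_mod_of_dvd m h2c
  have hpar2 : n % c % 2 = n % 2 := Nat.mod_mod_of_dvd n h2c
  have hm2' : m % 2 = 0 := Nat.even_iff.mp hme
  have hn2 : n % 2 = 1 := Nat.odd_iff.mp hnodd
  refine ⟨hcm, by omega, ?_⟩
  intro hie
  by_cases h0 : 0 < m % c
  · exact Or.inl h0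
  · right
    have hWk : W ⊓ LinearMap.ker (T - 1) = ⊥ := by
      apply Submodule.finrank_eq_zero.mp
      omega
    have h9 := Cfsg.Agent.Helper88.OH5992.o_type_even Q hQ h2 T hT r hr2 hrF hTr (by rw [← hi]; exact hie) W hW3 hW2 hWk
    rw [← hi, hW1] at h9
    exact h9.mp hW4

/-- OBADDIR (odd `r`, `⟹`). -/
theorem o_bad_dir [Fintype F] (p : ℕ) [Fact p.Prime] [CharP F p] (h2 : (2 : F) ≠ 0) (d m : ℕ)
    (hme : Even m) (hm2 : 2 ≤ m) (hmn : m ≤ 2 * d) (r : ℕ) [Fact r.Prime] (hr2 : 2 < r)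
    (hrp : r ≠ p)
    (hΩ : r ∣ Nat.card {W : Submodule F (Unit ⊕ (Fin d ⊕ Fin d) → F) //
      finrank F W = m ∧ ONd (Cfsg.quadFormOdd d F) W ∧ OPl (Cfsg.quadFormOdd d F) W})
    (i c : ℕ) (hi : i = orderOf ((Fintype.card F : ℕ) : ZMod r))
    (hc : c = if Even i then i else 2 * i)
    (hL : ∀ g : Matrix.GeneralLinearGroup (Unit ⊕ (Fin d ⊕ Fin d)) F,
      g ∈ Cfsg.isometryGroup F (Cfsg.quadFormOdd d F) → orderOf g = r →
      ∃ W : Submodule F (Unit ⊕ (Fin d ⊕ Fin d) → F),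
        (finrank F W = m ∧ ONd (Cfsg.quadFormOdd d F) W ∧ OPl (Cfsg.quadFormOdd d F) W) ∧
        W.map (Matrix.toLin'
          (g : Matrix (Unit ⊕ (Fin d ⊕ Fin d)) (Unit ⊕ (Fin d ⊕ Fin d)) F)) ≤ W) :
    c ≤ m ∧ m % c < (2 * d + 1) % c ∧ (Even i → 0 < m % c ∨ Even (m / i)) := by
  classical
  obtain ⟨hrF, -⟩ := Cfsg.Agent.Helper13.TIsp.ti_char_facts (F := F) p r hrp
  have hQ := Cfsg.Agent.Helper37.OH5992.o_std_nondeg (F := F) h2 d
  refine o_bad_dir_gen (Cfsg.quadFormOdd d F) hQ h2 (2 * d + 1) m (obd_card d) ⟨d, rfl⟩ hme hm2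
    (by omega) r hr2 hrF hΩ i c hi hc ?_
  intro hcn
  obtain ⟨g, hg, hgr, hgfix⟩ := Cfsg.Agent.Helper88.OH5992.o_bad p h2 d r hr2 hrp i c hi hc hcn
  obtain ⟨W, hW, hWT⟩ := hL g hg hgr
  exact ⟨Matrix.toLin' (g : Matrix (Unit ⊕ (Fin d ⊕ Fin d)) (Unit ⊕ (Fin d ⊕ Fin d)) F),
    obd_opres _ g hg, obd_pow_one g r hgr, hgfix, W, hW, hWT⟩

end Cfsg.Agent.Helper73.OH5992
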