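import Cfsg.Agent.Helper85.PiDefs
import Cfsg.Agent.Helper85.PiGen

set_option autoImplicit false

namespace Cfsg.Agent.Helper73.PiGENC

open Cfsg Cfsg.FusionSystem Cfsg.Agent.Helper85 Cfsg.Agent.Helper88

variable {Ω : Type*} [Group Ω] {S : Subgroup Ω}

theorem pi_genc_mem (F : FusionSystem S) {P : Subgroup Ω} (hP : P ≤ S) {s : Ω} (hs : s ∈ S) {y : Ω}
    (hy : y ∈ img P (fun x => s * x * s⁻¹)) : s⁻¹ * y * s ∈ P := by
  obtain ⟨x, hx, rfl⟩ := (isMap_conj F hP hs).mem_img.mp hy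
  have h1 : s⁻¹ * (s * x * s⁻¹) * s = x := by group
  rw [h1]
  exact hx

theorem pi_conjS [Finite S] {p : ℕ} [Fact p.Prime] (hS : IsPGroup p S) {F : FusionSystem S}
    {T : Subgroup Ω} (hh : PiHyp F p T) (htr : PiTr F p) : PiConjS F p T := by
  intro P f s hgen hs
  have hTS := hh.le
  have himgT : ∀ {P : Subgroup Ω}, P ≤ T → img P (fun x => s * x * s⁻¹) ≤ T := by
    intro P hP
    unfold img
    rw [Subgroup.closure_le]
    rintro _ ⟨x, hx, rfl⟩
    exact hh.norm s hs x (hP hx)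
  induction hgen with
  | @base P Q α hQT hα hP =>
    have hQS : Q ≤ S := hQT.trans hTS
    have hmapQ : IsMap F Q (fun x => s * x * s⁻¹) := isMap_conj F hQS hs
    obtain ⟨β, hβ, hβα⟩ := htr Q (img Q (fun x => s * x * s⁻¹)) (fun x => s * x * s⁻¹) α hmapQ rfl hα
    have h1 : PiGen F p T (img P (fun x => s * x * s⁻¹)) (autFun β) :=
      PiGen.base (himgT hQT) hβ (hmapQ.img_restrict_le hP)
    refine PiGen.congr h1 ?_
    intro y hy
    have hy' := pi_genc_mem F (hP.trans hQS) hs hy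
    have h2 := hβα (s⁻¹ * y * s) (hP hy')
    have h3 : s * (s⁻¹ * y * s) * s⁻¹ = y := by group
    simp only [h3] at h2
    exact h2.symm
  | @conj P t hP ht =>
    have h1 : PiGen F p T (img P (fun x => s * x * s⁻¹))
        (fun x => (s * t * s⁻¹) * x * (s * t * s⁻¹)⁻¹) :=
      PiGen.conj (himgT hP) (hh.norm s hs t ht)
    refine PiGen.congr h1 ?_
    intro y _
    show s * (t * (s⁻¹ * y * s) * t⁻¹) * s⁻¹ = (s * t * s⁻¹) * y * (s * t * s⁻¹)⁻¹
    group
  | @comp P Q f g hf hg h ihf ihg =>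
    have hPS : P ≤ S := (piGen_le hf).trans hTS
    have hQS : Q ≤ S := (piGen_le hg).trans hTS
    have h1 := PiGen.comp ihf ihg (by
      intro y hy
      have hy' := pi_genc_mem F hPS hs hy
      exact (isMap_conj F hQS hs).apply_mem_img (h _ hy'))
    refine PiGen.congr h1 ?_
    intro y _
    show s * g (f (s⁻¹ * y * s)) * s⁻¹ = s * g (s⁻¹ * (s * f (s⁻¹ * y * s) * s⁻¹) * s) * s⁻¹
    have h2 : s⁻¹ * (s * f (s⁻¹ * y * s) * s⁻¹) * s = f (s⁻¹ * y * s) := by group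
    rw [h2]
  | @congr P f g hf h ih =>
    have hPS : P ≤ S := (piGen_le hf).trans hTS
    refine PiGen.congr ih ?_
    intro y hy
    have hy' := pi_genc_mem F hPS hs hy
    show s * g (s⁻¹ * y * s) * s⁻¹ = s * f (s⁻¹ * y * s) * s⁻¹
    rw [h _ hy']

end Cfsg.Agent.Helper73.PiGENC
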