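import Cfsg.Agent.Helper85.PiDefs
import Cfsg.Agent.Helper85.PiGen
import Cfsg.Agent.Helper87.NormSys

set_option autoImplicit false

namespace Cfsg.Agent.Helper73.PiSCONJ

open Cfsg Cfsg.FusionSystem Cfsg.Agent.Helper85 Cfsg.Agent.Helper88

variable {Ω : Type*} [Group Ω] {S : Subgroup Ω}

theorem pi_exists_fn [Finite S] {p : ℕ} [Fact p.Prime] (hS : IsPGroup p S) {F : FusionSystem S}
    {T : Subgroup Ω} (hh : PiHyp F p T) (hfr : PiFrat F p T) {P : Subgroup Ω} (hP : P ≤ T) :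
    ∃ e, PiGen F p T P e ∧ F.IsFullyNormalized (img P e) := by
  have hPS : P ≤ S := hP.trans hh.le
  obtain ⟨Q, hPQ, hQ⟩ := Cfsg.Agent.Helper87.exists_isFullyNormalized_conj F hPS
  obtain ⟨f, hf, hfQ⟩ := (Cfsg.Agent.Helper88.isConj_iff F).mp hPQ
  obtain ⟨s, hs, hgen⟩ := hfr P f hf hP
  refine ⟨fun x => s⁻¹ * f x * s, hgen, ?_⟩
  have he : IsMap F P (fun x => s⁻¹ * f x * s) := piGen_isMap hh.le hgen
  have hmem : ∀ y : Ω, y ∈ img P (fun x => s⁻¹ * f x * s) ↔ s * y * s⁻¹ ∈ Q := by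
    intro y
    rw [he.mem_img, ← hfQ, hf.mem_img]
    constructor
    · rintro ⟨x, hx, rfl⟩
      refine ⟨x, hx, ?_⟩
      show f x = s * (s⁻¹ * f x * s) * s⁻¹
      group
    · rintro ⟨x, hx, hxy⟩
      refine ⟨x, hx, ?_⟩
      show s⁻¹ * f x * s = y
      rw [hxy]
      group
  refine ⟨he.img_le, ?_⟩
  intro Q' hQ'
  have hPe : F.IsConj P (img P (fun x => s⁻¹ * f x * s)) := he.isConj
  have hQQ' : F.IsConj Q Q' := Cfsg.Agent.Helper88.isConj_trans F (Cfsg.Agent.Helper88.isConj_trans F (Cfsg.Agent.Helper88.isConj_symm F hPQ) hPe) hQ'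
  have h1 := hQ.2 Q' hQQ'
  have h2 : Nat.card (normalizerIn S Q) ≤
      Nat.card (normalizerIn S (img P (fun x => s⁻¹ * f x * s))) := by
    have hfin : Finite (normalizerIn S (img P (fun x => s⁻¹ * f x * s))) :=
      Cfsg.Agent.Helper88.finite_of_le (fun x hx => (mem_normalizerIn_iff.mp hx).1)
    have hmap : ∀ n : normalizerIn S Q,
        s⁻¹ * (n : Ω) * s ∈ normalizerIn S (img P (fun x => s⁻¹ * f x * s)) := by
      intro n
      obtain ⟨hnS, hnN⟩ := mem_normalizerIn_iff.mp n.2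
      rw [mem_normalizerIn_iff]
      refine ⟨S.mul_mem (S.mul_mem (S.inv_mem hs) hnS) hs, ?_⟩
      rw [Subgroup.mem_set_normalizer_iff]
      intro y
      simp only [SetLike.mem_coe]
      rw [hmem, hmem]
      have h3 := Subgroup.mem_set_normalizer_iff.mp hnN (s * y * s⁻¹)
      have h4 : s * (s⁻¹ * (n : Ω) * s * y * (s⁻¹ * (n : Ω) * s)⁻¹) * s⁻¹ =
          (n : Ω) * (s * y * s⁻¹) * (n : Ω)⁻¹ := by group
      rw [h4]
      exact h3
    refine Nat.card_le_card_of_injective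
      (fun n : normalizerIn S Q => (⟨s⁻¹ * (n : Ω) * s, hmap n⟩ :
        normalizerIn S (img P (fun x => s⁻¹ * f x * s)))) ?_
    intro n m hnm
    have h3 : s⁻¹ * (n : Ω) * s = s⁻¹ * (m : Ω) * s := congrArg Subtype.val hnm
    apply Subtype.ext
    have h4 : (n : Ω) = s * (s⁻¹ * (n : Ω) * s) * s⁻¹ := by group
    rw [h4, h3]
    group
  exact h1.trans h2

end Cfsg.Agent.Helper73.PiSCONJ
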