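import Mathlib
import Cfsg.Agent.Helper13.SpRU
import Cfsg.Agent.Helper13.TvCalc
import Cfsg.Agent.Helper94.SpParab
import Cfsg.Agent.Helper38.SLTrans

/-!
# Generation criteria for `Sp_{2n}(F)` (helper73, PIECE B of CALL S2281)

* `sp_top_of_long`: a subgroup of `Sp_{2n}(F)` containing all the long root elements
  `[[1, c v vᵀ], [0, 1]]` and `[[1, 0], [c v vᵀ, 1]]` is everything.
* `sp_top_of_levi`: over a finite field, with `n ≥ 2`, a subgroup containing the Levi subgroup
  `SL_n(F)` and one non-trivial upper and one non-trivial lower diagonal root element is everything.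
-/

set_option autoImplicit false
set_option linter.unusedSimpArgs false
set_option linter.unusedSectionVars false
set_option linter.unusedVariables false

namespace Cfsg.Agent.Helper73

open Matrix

section sptop
variable {F : Type*} [Field F] {n : ℕ}

/-- the inclusion of the symplectic group into the general linear group. -/
def spIncl : Matrix.symplecticGroup (Fin n) F →* GL (Fin n ⊕ Fin n) F :=
  (Matrix.symplecticGroup (Fin n) F).subtype.toHomUnits

theorem spIncl_coe (s : Matrix.symplecticGroup (Fin n) F) :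
    ((spIncl s : GL (Fin n ⊕ Fin n) F) : Matrix (Fin n ⊕ Fin n) (Fin n ⊕ Fin n) F) = s.1 := rfl

theorem sympTv_inl (e : Fin n → F) (c : F) :
    Cfsg.sympTransvection n (Sum.elim e 0) c = fromBlocks 1 (c • vecMulVec e e) 0 1 := by
  unfold Cfsg.sympTransvection Matrix.J
  ext (i | i) (j | j) <;>
    simp [Matrix.add_apply, vecMulVec_apply, Matrix.mulVec, dotProduct, Fintype.sum_sum_type,
      Matrix.one_apply]

theorem sympTv_inr (f : Fin n → F) (c : F) :
    Cfsg.sympTransvection n (Sum.elim 0 f) c = fromBlocks 1 0 ((-c) • vecMulVec f f) 1 := by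
  unfold Cfsg.sympTransvection Matrix.J
  ext (i | i) (j | j) <;>
    simp [Matrix.add_apply, vecMulVec_apply, Matrix.mulVec, dotProduct, Fintype.sum_sum_type,
      Matrix.one_apply]

/-- A subgroup of `Sp_{2n}(F)` containing all the long root elements `[[1, c v vᵀ], [0, 1]]` and
`[[1, 0], [c v vᵀ, 1]]` is the whole group. -/
theorem sp_top_of_long {F : Type*} [Field F] {n : ℕ} (H : Subgroup (Matrix.symplecticGroup (Fin n) F))
    (hU : ∀ (v : Fin n → F) (c : F), Helper13.SpUp H (c • Matrix.vecMulVec v v))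
    (hL : ∀ (v : Fin n → F) (c : F), Helper13.SpLo H (c • Matrix.vecMulVec v v)) : H = ⊤ := by
  classical
  set K : Subgroup (GL (Fin n ⊕ Fin n) F) := H.map spIncl with hK
  -- vectors supported on `inl` are centres
  have hEl : ∀ e : Fin n → F, Sum.elim e 0 ∈ Helper94.tvCentres K := by
    intro e c
    refine ⟨⟨Cfsg.sympTransvection n (Sum.elim e 0) c, Helper13.sympTransvection_mem _ c⟩, ?_, ?_⟩
    · exact hU e c _ (sympTv_inl e c)
    · apply Units.ext
      rw [Helper94.stGL_coe]
      rfl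
  -- vectors supported on `inr` are centres
  have hEr : ∀ f : Fin n → F, Sum.elim (0 : Fin n → F) f ∈ Helper94.tvCentres K := by
    intro f c
    refine ⟨⟨Cfsg.sympTransvection n (Sum.elim (0 : Fin n → F) f) c, Helper13.sympTransvection_mem _ c⟩, ?_, ?_⟩
    · exact hL f (-c) _ (sympTv_inr f c)
    · apply Units.ext
      rw [Helper94.stGL_coe]
      rfl
  -- the Lagrangian `E`
  let E : Submodule F (Fin n ⊕ Fin n → F) :=
    { carrier := {v | ∀ i, v (Sum.inr i) = 0}
      add_mem' := fun {a b} ha hb i => by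
        show a (Sum.inr i) + b (Sum.inr i) = 0
        rw [ha i, hb i, add_zero]
      zero_mem' := fun i => rfl
      smul_mem' := fun c {x} hx i => by
        show c * x (Sum.inr i) = 0
        rw [hx i, mul_zero] }
  have hEmem : ∀ v, v ∈ E ↔ ∀ i, v (Sum.inr i) = 0 := fun v => Iff.rfl
  have hEc : ∀ v ∈ E, v ∈ Helper94.tvCentres K := by
    intro v hv
    have hv' : v = Sum.elim (v ∘ Sum.inl) 0 := by
      ext (i | i)
      · rfl
      · exact hv i
    rw [hv']
    exact hEl _
  have hEperp : E ≤ Helper94.perp E := by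
    intro x hx
    rw [Helper94.mem_perp]
    intro w hw
    rw [Helper94.symp_explicit]
    apply Finset.sum_eq_zero
    intro i _
    rw [hw i, hx i]
    ring
  have hperpE : Helper94.perp E ≤ E := by
    intro x hx i
    rw [Helper94.mem_perp] at hx
    have hw : (Pi.single (Sum.inl i) 1 : Fin n ⊕ Fin n → F) ∈ E := by
      intro k
      simp
    have := hx _ hw
    rw [Helper94.symp_explicit] at this
    simpa [Pi.single_apply] using this
  have hPU : ∀ d ∈ Helper94.perp E, d ∈ Helper94.tvCentres K := fun d hd => hEc d (hperpE hd)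
  have hadd : ∀ x ∈ Helper94.tvCentres K, ∀ y ∈ Helper94.tvCentres K, x + y ∈ Helper94.tvCentres K := by
    intro x hx y hy
    have h1 := Helper94.enlarge K E (Helper94.perp E) hEperp le_rfl hPU x hx
    have h2 := Helper94.enlarge K E (Helper94.perp E ⊔ Submodule.span F {x}) hEperp le_sup_left h1 y hy
    apply h2
    exact Submodule.add_mem _ (Submodule.mem_sup_left (Submodule.mem_sup_right
      (Submodule.mem_span_singleton_self x))) (Submodule.mem_sup_right
      (Submodule.mem_span_singleton_self y))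
  have hall : ∀ u : Fin n ⊕ Fin n → F, u ∈ Helper94.tvCentres K := by
    intro u
    have hu : u = Sum.elim (u ∘ Sum.inl) (0 : Fin n → F) + Sum.elim (0 : Fin n → F) (u ∘ Sum.inr) := by
      ext (i | i) <;> simp
    rw [hu]
    exact hadd _ (hEl _) _ (hEr _)
  have hle := Helper94.spGL_le_of_tvCentres K hall
  rw [eq_top_iff]
  intro g _
  have hg : spIncl g ∈ Cfsg.spGL n F :=
    (Helper13.mem_symplecticGroup_iff_sympForm _).mp g.2
  obtain ⟨h, hhH, hh⟩ := hle hg
  have : h = g := by
    apply Subtype.ext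
    have := congrArg (fun x : GL (Fin n ⊕ Fin n) F => (x : Matrix (Fin n ⊕ Fin n) (Fin n ⊕ Fin n) F)) hh
    exact this
  rw [← this]
  exact hhH

theorem spTop_inv_mul (X : Matrix.SpecialLinearGroup (Fin n) F) :
    (X⁻¹ : Matrix.SpecialLinearGroup (Fin n) F).1 * X.1 = 1 := by
  have : (X⁻¹ : Matrix.SpecialLinearGroup (Fin n) F).1 * X.1 =
      ((X⁻¹ * X : Matrix.SpecialLinearGroup (Fin n) F)).1 := rfl
  rw [this, inv_mul_cancel]
  rfl

theorem spTop_mul_inv (X : Matrix.SpecialLinearGroup (Fin n) F) :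
    X.1 * (X⁻¹ : Matrix.SpecialLinearGroup (Fin n) F).1 = 1 := by
  have : X.1 * (X⁻¹ : Matrix.SpecialLinearGroup (Fin n) F).1 =
      ((X * X⁻¹ : Matrix.SpecialLinearGroup (Fin n) F)).1 := rfl
  rw [this, mul_inv_cancel]
  rfl

/-- conjugating an upper root element by a Levi element. -/
theorem spUp_conj (H : Subgroup (Matrix.symplecticGroup (Fin n) F))
    (hLevi : ∀ X : Matrix.SpecialLinearGroup (Fin n) F, Helper13.spL X ∈ H)
    (S : Matrix (Fin n) (Fin n) F) (hS : Helper13.SpUp H S) (X : Matrix.SpecialLinearGroup (Fin n) F) :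
    Helper13.SpUp H (X.1 * S * X.1ᵀ) := by
  intro g hg
  have h0 : (Helper13.spL X)⁻¹ * g * Helper13.spL X ∈ H := by
    apply hS
    rw [← map_inv]
    show (Helper13.spL X⁻¹).1 * g.1 * (Helper13.spL X).1 = _
    rw [Helper13.spL_val, Helper13.spL_val, hg, inv_inv, Matrix.fromBlocks_multiply,
      Matrix.fromBlocks_multiply]
    simp only [Matrix.mul_zero, Matrix.zero_mul, add_zero, zero_add, Matrix.mul_one]
    have e1 := spTop_inv_mul X
    have e2 : X.1ᵀ * ((X⁻¹ : Matrix.SpecialLinearGroup (Fin n) F).1)ᵀ = 1 := by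
      rw [← Matrix.transpose_mul, e1, Matrix.transpose_one]
    rw [e1, e2]
    congr 1
    rw [← Matrix.mul_assoc, ← Matrix.mul_assoc, e1, Matrix.one_mul, Matrix.mul_assoc, e2, Matrix.mul_one]
  have : g = Helper13.spL X * ((Helper13.spL X)⁻¹ * g * Helper13.spL X) * (Helper13.spL X)⁻¹ := by
    group
  rw [this]
  exact H.mul_mem (H.mul_mem (hLevi X) h0) (H.inv_mem (hLevi X))

/-- conjugating a lower root element by a Levi element. -/
theorem spLo_conj (H : Subgroup (Matrix.symplecticGroup (Fin n) F))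
    (hLevi : ∀ X : Matrix.SpecialLinearGroup (Fin n) F, Helper13.spL X ∈ H)
    (S : Matrix (Fin n) (Fin n) F) (hS : Helper13.SpLo H S) (X : Matrix.SpecialLinearGroup (Fin n) F) :
    Helper13.SpLo H (X.1ᵀ * S * X.1) := by
  intro g hg
  have h0 : Helper13.spL X * g * (Helper13.spL X)⁻¹ ∈ H := by
    apply hS
    rw [← map_inv]
    show (Helper13.spL X).1 * g.1 * (Helper13.spL X⁻¹).1 = _
    rw [Helper13.spL_val, Helper13.spL_val, hg, inv_inv, Matrix.fromBlocks_multiply,
      Matrix.fromBlocks_multiply]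
    simp only [Matrix.mul_zero, Matrix.zero_mul, add_zero, zero_add, Matrix.mul_one]
    have e1 := spTop_mul_inv X
    have e2 : ((X⁻¹ : Matrix.SpecialLinearGroup (Fin n) F).1)ᵀ * X.1ᵀ = 1 := by
      rw [← Matrix.transpose_mul, e1, Matrix.transpose_one]
    rw [e1, e2]
    congr 1
    rw [← Matrix.mul_assoc, ← Matrix.mul_assoc, e2, Matrix.one_mul, Matrix.mul_assoc, e1, Matrix.mul_one]
  have : g = (Helper13.spL X)⁻¹ * (Helper13.spL X * g * (Helper13.spL X)⁻¹) * Helper13.spL X := by
    group
  rw [this]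
  exact H.mul_mem (H.mul_mem (H.inv_mem (hLevi X)) h0) (hLevi X)

theorem spUp_add (H : Subgroup (Matrix.symplecticGroup (Fin n) F))
    (S S' : Matrix (Fin n) (Fin n) F) (hSs : Sᵀ = S) (hSs' : S'ᵀ = S')
    (hS : Helper13.SpUp H S) (hS' : Helper13.SpUp H S') : Helper13.SpUp H (S + S') := by
  intro g hg
  have h1 := hS ⟨_, Helper13.spUp_mem_sp S hSs⟩ rfl
  have h2 := hS' ⟨_, Helper13.spUp_mem_sp S' hSs'⟩ rfl
  have : g = (⟨_, Helper13.spUp_mem_sp S hSs⟩ : Matrix.symplecticGroup (Fin n) F) *
      ⟨_, Helper13.spUp_mem_sp S' hSs'⟩ := by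
    apply Subtype.ext
    show g.1 = fromBlocks 1 S 0 1 * fromBlocks 1 S' 0 1
    rw [hg, Matrix.fromBlocks_multiply]
    simp [add_comm]
  rw [this]
  exact H.mul_mem h1 h2

theorem spLo_add (H : Subgroup (Matrix.symplecticGroup (Fin n) F))
    (S S' : Matrix (Fin n) (Fin n) F) (hSs : Sᵀ = S) (hSs' : S'ᵀ = S')
    (hS : Helper13.SpLo H S) (hS' : Helper13.SpLo H S') : Helper13.SpLo H (S + S') := by
  intro g hg
  have h1 := hS ⟨_, Helper13.spLo_mem_sp S hSs⟩ rfl
  have h2 := hS' ⟨_, Helper13.spLo_mem_sp S' hSs'⟩ rfl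
  have : g = (⟨_, Helper13.spLo_mem_sp S hSs⟩ : Matrix.symplecticGroup (Fin n) F) *
      ⟨_, Helper13.spLo_mem_sp S' hSs'⟩ := by
    apply Subtype.ext
    show g.1 = fromBlocks 1 0 S 1 * fromBlocks 1 0 S' 1
    rw [hg, Matrix.fromBlocks_multiply]
    simp
  rw [this]
  exact H.mul_mem h1 h2

theorem spUp_zero (H : Subgroup (Matrix.symplecticGroup (Fin n) F)) : Helper13.SpUp H 0 := by
  intro g hg
  have : g = 1 := by
    apply Subtype.ext
    rw [hg, Matrix.fromBlocks_one]
    rfl
  rw [this]
  exact H.one_mem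

theorem spLo_zero (H : Subgroup (Matrix.symplecticGroup (Fin n) F)) : Helper13.SpLo H 0 := by
  intro g hg
  have : g = 1 := by
    apply Subtype.ext
    rw [hg, Matrix.fromBlocks_one]
    rfl
  rw [this]
  exact H.one_mem

theorem spTop_vmv_symm (v : Fin n → F) (c : F) : (c • vecMulVec v v)ᵀ = c • vecMulVec v v := by
  ext a b
  simp [vecMulVec_apply, mul_comm]

theorem spTop_single_conj (X : Matrix (Fin n) (Fin n) F) (i : Fin n) (c : F) (w : Fin n → F)
    (hX : ∀ a, X a i = w a) :
    X * Matrix.single i i c * Xᵀ = c • vecMulVec w w := by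
  have e : Matrix.single i i c = c • vecMulVec (Pi.single i 1) (Pi.single i 1) := by
    ext a b
    simp [Matrix.single_apply, vecMulVec_apply, Pi.single_apply]
    aesop
  have hw : X *ᵥ (Pi.single i 1) = w := by
    ext a; simp [hX]
  rw [e, Matrix.mul_smul, Matrix.smul_mul, Matrix.mul_vecMulVec, Matrix.vecMulVec_mul,
    Matrix.vecMul_transpose, hw]

/-- Over a finite field and for `n ≥ 2`, a subgroup of `Sp_{2n}(F)` containing the Levi subgroup `SL_n(F)`, one
non-trivial upper diagonal root element and one non-trivial lower diagonal root element is the whole group. -/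
theorem sp_top_of_levi {F : Type*} [Field F] [Fintype F] {n : ℕ} (hn : 2 ≤ n)
    (H : Subgroup (Matrix.symplecticGroup (Fin n) F))
    (hLevi : ∀ X : Matrix.SpecialLinearGroup (Fin n) F, Helper13.spL X ∈ H) (i j : Fin n) (c₀ c₁ : F)
    (h0 : c₀ ≠ 0) (h1 : c₁ ≠ 0)
    (hU : Helper13.SpUp H (Matrix.single i i c₀)) (hL : Helper13.SpLo H (Matrix.single j j c₁)) : H = ⊤ := by
  classical
  have hcard : Fintype.card Unit < Fintype.card (Fin n) := by
    simp only [Fintype.card_unit, Fintype.card_fin]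
    omega
  have hsl : ∀ (k : Fin n) (w : Fin n → F), w ≠ 0 →
      ∃ X : Matrix.SpecialLinearGroup (Fin n) F, ∀ a, X.1 a k = w a := by
    intro k w hw
    obtain ⟨X, hX⟩ := Helper38.exists_sl_map (F := F) (m := Fin n) (ι := Unit)
      (fun _ => (Pi.single k 1 : Fin n → F)) (fun _ => w)
      (LinearIndependent.of_subsingleton () (by
        intro h
        have := congrFun h k
        simp at this))
      (LinearIndependent.of_subsingleton () hw) hcard
    refine ⟨X, fun a => ?_⟩
    have := congrFun (hX ()) a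
    simpa [Matrix.mulVec_single_one] using this
  -- upper: `c₀ • w wᵀ` for all `w`
  have hU1 : ∀ w : Fin n → F, Helper13.SpUp H (c₀ • vecMulVec w w) := by
    intro w
    by_cases hw : w = 0
    · subst hw
      have : c₀ • vecMulVec (0 : Fin n → F) (0 : Fin n → F) = 0 := by
        ext a b; simp [vecMulVec_apply]
      rw [this]
      exact spUp_zero H
    · obtain ⟨X, hX⟩ := hsl i w hw
      have := spUp_conj H hLevi _ hU X
      have e : X.1 * Matrix.single i i c₀ * X.1ᵀ = c₀ • vecMulVec w w :=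
        spTop_single_conj X.1 i c₀ w hX
      rwa [e] at this
  have hL1 : ∀ w : Fin n → F, Helper13.SpLo H (c₁ • vecMulVec w w) := by
    intro w
    by_cases hw : w = 0
    · subst hw
      have : c₁ • vecMulVec (0 : Fin n → F) (0 : Fin n → F) = 0 := by
        ext a b; simp [vecMulVec_apply]
      rw [this]
      exact spLo_zero H
    · obtain ⟨Y, hY⟩ := hsl j w hw
      have := spLo_conj H hLevi _ hL (Matrix.SpecialLinearGroup.transpose Y)
      have e : (Matrix.SpecialLinearGroup.transpose Y).1ᵀ * Matrix.single j j c₁ *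
          (Matrix.SpecialLinearGroup.transpose Y).1 = c₁ • vecMulVec w w := by
        show Y.1ᵀᵀ * Matrix.single j j c₁ * Y.1ᵀ = _
        rw [Matrix.transpose_transpose]
        exact spTop_single_conj Y.1 j c₁ w hY
      rwa [e] at this
  have hdecomp : ∀ (c₂ : F), c₂ ≠ 0 → ∀ (v : Fin n → F) (c : F), ∃ a b : F,
      c • vecMulVec v v = c₂ • vecMulVec (a • v) (a • v) + c₂ • vecMulVec (b • v) (b • v) := by
    intro c₂ hc₂ v c
    obtain ⟨a, b, hab⟩ := Helper13.ff_sum_two_sq (c * c₂⁻¹)
    refine ⟨a, b, ?_⟩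
    have hc : c = c₂ * (a ^ 2 + b ^ 2) := by
      rw [← hab, mul_comm c, ← mul_assoc, mul_inv_cancel₀ hc₂, one_mul]
    ext x y
    simp only [Matrix.smul_apply, Matrix.add_apply, vecMulVec_apply, Pi.smul_apply, smul_eq_mul]
    rw [hc]
    ring
  apply sp_top_of_long H
  · intro v c
    obtain ⟨a, b, hab⟩ := hdecomp c₀ h0 v c
    rw [hab]
    exact spUp_add H _ _ (spTop_vmv_symm _ _) (spTop_vmv_symm _ _) (hU1 _) (hU1 _)
  · intro v c
    obtain ⟨a, b, hab⟩ := hdecomp c₁ h1 v c
    rw [hab]
    exact spLo_add H _ _ (spTop_vmv_symm _ _) (spTop_vmv_symm _ _) (hL1 _) (hL1 _)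

end sptop

end Cfsg.Agent.Helper73
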